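import Cfsg.Agent.H62.W4

set_option autoImplicit false
set_option linter.style.haveILetI false
set_option linter.unusedSectionVars false
set_option linter.unusedVariables false

/-!
Factorization; `V ≤ O_2(H)` and the closure of `V` is elementary abelian.
-/

namespace Cfsg.Agent.H62

open Subgroup Cfsg
open H33 (cj mem_cj conj_mem_cj cj_mul cj_mono IsSyl mem_norm_iff)
open H34 (maxEA fixedBy)

variable {G : Type*} [Group G]

section

variable [Finite G]

theorem cj_mem_maxEA {T A : Subgroup G} (hA : A ∈ maxEA 2 T) {n : G} (hn : cj n A ≤ T) : cj n A ∈ maxEA 2 T := by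
  obtain ⟨hAT, hAe, hmax⟩ := hA
  refine ⟨hn, EA_iff.1 ((EA_iff.2 hAe).cj n), fun B hB hB2 => ?_⟩
  rw [H33.card_cj]
  exact hmax B hB hB2

/-- `J(T)` -/
def JJ (T : Subgroup G) : Subgroup G := sSup (maxEA 2 T)

theorem norm_JJ {T S : Subgroup G} (hS : S ≤ T) (h : ∀ A ∈ maxEA 2 T, A ≤ S) {n : G}
    (hn : n ∈ normalizer (S : Set G)) : n ∈ normalizer (JJ T : Set G) := by
  apply H33.mem_norm_of_le
  unfold JJ
  rw [H33.cj, sSup_eq_iSup, Subgroup.map_iSup]
  apply iSup_le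
  intro A
  rw [Subgroup.map_iSup]
  apply iSup_le
  intro hA
  have h1 : cj n A ≤ S := by
    rw [← mem_norm_iff.1 hn]
    exact cj_mono (h A hA)
  exact le_iSup₂_of_le (cj n A) (cj_mem_maxEA hA (h1.trans hS)) le_rfl

theorem JJ_le_of {T S : Subgroup G} (h : ∀ A ∈ maxEA 2 T, A ≤ S) : JJ T ≤ S := sSup_le h

/-- the factorization `H = C_H(Ω₁Z(T)) N_H(J(T))` -/
theorem factor {T H : Subgroup G} (h : Loc T H) {x : G} (hx : x ∈ H) :
    ∃ c ∈ H ⊓ centralizer (omZ T : Set G), ∃ n ∈ H ⊓ normalizer (JJ T : Set G), x = c * n := by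
  haveI : Fact (Nat.Prime 2) := ⟨Nat.prime_two⟩
  set U := ncl H (omZ T) with hU
  obtain ⟨hEA, hUo, -⟩ := ncl_omZ h
  have hUT : U ≤ T := hUo.trans (o2_le_syl h.syl)
  have hA : ∀ A ∈ maxEA 2 T, A ≤ T ⊓ (H ⊓ centralizer (U : Set G)) := by
    intro A hA
    have hAH : A ≤ H := hA.1.trans h.syl.1
    have h1 := offender hA hEA hUT (hAH.trans (norm_ncl H (omZ T)))
    have h2 := sq_of_loc h A hA.1 ((EA_iff.2 hA.2.1).quad _)
    have h3 : (A ⊓ centralizer (U : Set G)).relIndex A = 1 := by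
      have h0 : 0 < (A ⊓ centralizer (U : Set G)).relIndex A := Nat.pos_of_ne_zero (relIndex_ne_zero' _ _)
      have := h2.trans h1
      nlinarith
    rw [Subgroup.relIndex_eq_one] at h3
    exact le_inf hA.1 (le_inf hAH (h3.trans inf_le_right))
  set D := H ⊓ centralizer (U : Set G) with hD
  have hDn : H ≤ normalizer (D : Set G) := by
    intro y hy
    exact H33.norm_inf (le_normalizer hy) (H33.norm_le_norm_cent U (norm_ncl H (omZ T) hy))
  have hsyl : IsSyl 2 (T ⊓ D) D := h.syl.inf_normal inf_le_left hDn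
  obtain ⟨n, hn, hn'⟩ := hsyl.frattini (hDn hx)
  refine ⟨n⁻¹, ⟨H.inv_mem hn.1, (centralizer (omZ T : Set G)).inv_mem (centralizer_le (le_ncl _ _) hn.2)⟩, n * x,
    ⟨H.mul_mem hn.1 hx, norm_JJ inf_le_left hA hn'⟩, by group⟩

theorem exists_hyper {Γ : Type*} [Group Γ] [Finite Γ] {A N : Subgroup Γ} (hA : EA A)
    (hAN : A ≤ normalizer (N : Set Γ)) (hN : Odd (Nat.card N)) (hnot : ¬ A ≤ centralizer (N : Set Γ)) :
    ∃ B ≤ A, ∃ v ∈ A, B ⊔ zpowers v = A ∧ ∃ x ∈ N, x ≠ 1 ∧ v * x * v⁻¹ = x⁻¹ ∧ ∀ b ∈ B, b * x = x * b := by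
  have hcop : (Nat.card A).Coprime (Nat.card N) := by
    haveI : Fact (Nat.Prime 2) := ⟨Nat.prime_two⟩
    obtain ⟨k, hk⟩ := IsPGroup.iff_card.1 hA.isPGroup
    rw [hk]
    exact Nat.Coprime.pow_left k (Nat.coprime_two_left.2 hN)
  have hcA : IsMulCommutative A := ⟨⟨fun a b => Subtype.ext (hA.1 a a.2 b b.2)⟩⟩
  have hgen := Cop.le_genT hcA _ N rfl hAN hcop
  obtain ⟨B, hB, x0, hx0, hx0A⟩ : ∃ B ∈ Cop.cycQuot A, ∃ x0 ∈ N ⊓ centralizer (B : Set Γ),
      x0 ∉ centralizer (A : Set Γ) := by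
    by_contra hcon
    push Not at hcon
    apply hnot
    rw [le_centralizer_iff]
    refine hgen.trans ?_
    unfold Cop.genT
    exact iSup₂_le fun B hB x hx => hcon B hB x hx
  obtain ⟨hBA, a, haA, hBa⟩ := hB
  have hax0 : a * x0 ≠ x0 * a := by
    intro h
    apply hx0A
    rw [← hBa]
    have h1 : B ⊔ zpowers a ≤ centralizer {x0} := by
      rw [sup_le_iff, zpowers_le]
      refine ⟨fun b hb => ?_, ?_⟩
      · rw [mem_centralizer_singleton_iff]; exact mem_centralizer_iff.1 hx0.2 b hb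
      · rw [mem_centralizer_singleton_iff]; exact h
    rw [mem_centralizer_iff]
    intro y hy
    exact mem_centralizer_singleton_iff.1 (h1 hy)
  have haa : a * a = 1 := hA.2 a haA
  have hainv : a⁻¹ = a := inv_eq_of_mul_eq_one_left haa
  refine ⟨B, hBA, a, haA, hBa, a * x0 * a⁻¹ * x0⁻¹, ?_, ?_, ?_, ?_⟩
  · exact mul_mem ((mem_normalizer_iff.1 (hAN haA) _).1 hx0.1) (inv_mem hx0.1)
  · intro h
    apply hax0
    have h1 : a * x0 * a⁻¹ = x0 := mul_inv_eq_one.1 h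
    exact mul_inv_eq_iff_eq_mul.1 h1
  · simp only [hainv, mul_inv_rev, inv_inv]
    calc a * (a * x0 * a * x0⁻¹) * a = (a * a) * (x0 * a * x0⁻¹ * a) := by group
      _ = x0 * (a * (x0⁻¹ * a)) := by rw [haa]; group
  · intro b hb
    have h1 : b * a = a * b := hA.1 b (hBA hb) a haA
    have h2 : b * x0 = x0 * b := mem_centralizer_iff.1 hx0.2 b hb
    have c1 : Commute b a := h1
    have c2 : Commute b x0 := h2
    exact ((c1.mul_right c2).mul_right c1.inv_right).mul_right c2.inv_right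

theorem relIndex_le_two {Γ : Type*} [Group Γ] [Finite Γ] {A B : Subgroup Γ} {a : Γ} (hA : EA A)
    (haA : a ∈ A) (hBA : B ≤ A) (hBa : B ⊔ zpowers a = A) : B.relIndex A ≤ 2 := by
  have h1 : zpowers a ≤ normalizer (B : Set Γ) := by
    rw [zpowers_le, mem_normalizer_iff]
    intro y
    constructor
    · intro hy
      rw [hA.1 a haA y (hBA hy), mul_inv_cancel_right]; exact hy
    · intro hy
      have h2 : y = a⁻¹ * (a * y * a⁻¹) * a := by group
      have h3 : a⁻¹ * (a * y * a⁻¹) = (a * y * a⁻¹) * a⁻¹ := hA.1 _ (inv_mem haA) _ (hBA hy)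
      rw [h2, h3, inv_mul_cancel_right]; exact hy
  have h2 := Cop.relIndex_sup_eq h1
  rw [sup_comm, hBa] at h2
  rw [h2]
  refine (Nat.le_of_dvd Nat.card_pos (Subgroup.relIndex_dvd_card _ _)).trans ?_
  rw [Nat.card_zpowers]
  exact orderOf_le_of_pow_eq_one (by norm_num) (by rw [sq]; exact hA.2 a haA)

theorem cube_eq_one {α : Type*} [Group α] [Finite α] (hcard : Nat.card α ≤ 4) (σ : MulAut α)
    (hodd : Odd (orderOf σ)) : σ ^ 3 = 1 := by
  classical
  haveI : Fintype α := Fintype.ofFinite α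
  have h1 : orderOf σ = orderOf (MulAut.toPerm α σ) :=
    (orderOf_injective (MulAut.toPerm α) (fun a b h => by
      ext x; exact DFunLike.congr_fun (F := Equiv.Perm α) h x) σ).symm
  have h2 : orderOf (MulAut.toPerm α σ) ∣ Nat.card (Equiv.Perm α) := orderOf_dvd_natCard _
  rw [← h1, Nat.card_perm] at h2
  have h3 : orderOf σ ∣ 8 * 3 := h2.trans (Nat.factorial_dvd_factorial hcard)
  have h4 : (orderOf σ).Coprime 8 := by
    have : (8 : ℕ) = 2 ^ 3 := by norm_num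
    rw [this]
    exact Nat.Coprime.pow_right 3 (Nat.coprime_two_right.2 hodd)
  exact orderOf_dvd_iff_pow_eq_one.1 (h4.dvd_of_dvd_mul_left h3)

theorem cube_mem {E I : Subgroup G} {y : G} (hyE : y ∈ normalizer (E : Set G))
    (hyI : y ∈ normalizer (I : Set G)) (hIE : I ≤ E) (hEI : E ≤ normalizer (I : Set G))
    (hcard : I.relIndex E ≤ 4) (hodd : Odd (orderOf y)) {e : G} (he : e ∈ E) :
    y ^ 3 * e * (y ^ 3)⁻¹ * e⁻¹ ∈ I := by
  haveI hN : (I.subgroupOf E).Normal := normal_subgroupOf hEI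
  have hz : zpowers y ≤ normalizer (E : Set G) := zpowers_le.2 hyE
  set φ0 : zpowers y →* MulAut E := (Subgroup.normalizerMonoidHom E).comp (Subgroup.inclusion hz) with hφ0
  have hφ0a : ∀ (h : zpowers y) (u : E), ((φ0 h u : E) : G) = h * u * (h : G)⁻¹ := fun h u => rfl
  have hinv : ∀ h : zpowers y, ∀ u ∈ I.subgroupOf E, φ0 h u ∈ I.subgroupOf E := by
    intro h u hu
    rw [mem_subgroupOf, hφ0a]
    exact (mem_normalizer_iff.1 ((zpowers_le.2 hyI : zpowers y ≤ _) h.2) _).1 hu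
  set φ := H91.quotAct φ0 (I.subgroupOf E) hinv with hφ
  set Y : zpowers y := ⟨y, mem_zpowers y⟩ with hY
  have h1 : Odd (orderOf (φ Y)) := by
    refine hodd.of_dvd_nat ((orderOf_map_dvd φ Y).trans ?_)
    rw [hY, Subgroup.orderOf_mk]
  have h2 := cube_eq_one (α := E ⧸ I.subgroupOf E) (by rw [← Subgroup.index_eq_card]; exact hcard) (φ Y) h1
  rw [← map_pow] at h2
  have h3 := DFunLike.congr_fun h2 (((⟨e, he⟩ : E) : E ⧸ I.subgroupOf E))
  change ((φ0 (Y ^ 3) (⟨e, he⟩ : E) : E) : E ⧸ I.subgroupOf E) = (((⟨e, he⟩ : E) : E ⧸ I.subgroupOf E)) at h3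
  rw [QuotientGroup.eq_iff_div_mem] at h3
  change ((φ0 (Y ^ 3) (⟨e, he⟩ : E) : E) : G) / e ∈ I at h3
  rw [hφ0a, div_eq_mul_inv] at h3
  exact h3

end

end Cfsg.Agent.H62
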