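import Mathlib
import Cfsg.Agent.S3766
import Cfsg.Agent.BG3.Section
import Cfsg.Agent.Solv.MinNormal
import Cfsg.Agent.HH.FixC

set_option autoImplicit false

/-!
Chief factors of solvable groups as irreducible modules over prime fields (helper62).
-/

namespace Cfsg.Agent.H62.ChiefRep

open scoped commutatorElement

universe u v

theorem chief_elementary {X : Type u} [Group X] [Finite X] (hX : Group.IsSolvable X) {U V : Subgroup X}
    (hU : U.Normal) (hV : V.Normal) (hVU : V < U)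
    (hmin : ∀ W : Subgroup X, W.Normal → V ≤ W → W ≤ U → W = V ∨ W = U) :
    ∃ ℓ : ℕ, ℓ.Prime ∧ (∀ x ∈ U, x ^ ℓ ∈ V) ∧ (∀ x ∈ U, ∀ y ∈ U, x * y * x⁻¹ * y⁻¹ ∈ V) ∧ ℓ ∣ Nat.card U := by
  set π := QuotientGroup.mk' V with hπ
  have hs : Function.Surjective π := QuotientGroup.mk'_surjective V
  have hker : π.ker = V := QuotientGroup.ker_mk' V
  haveI : (U.map π).Normal := hU.map π hs
  haveI := hX
  have hcomap : (U.map π).comap π = U := by
    rw [Subgroup.comap_map_eq, hker, sup_eq_left]; exact hVU.le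
  have hne : U.map π ≠ ⊥ := by
    intro h0
    rw [h0, MonoidHom.comap_bot, hker] at hcomap
    exact hVU.ne hcomap
  obtain ⟨h1, ℓ, hℓ, h2⟩ := Solv.minimal_normal_of_solvable (U.map π) inferInstance hne (by
    intro M hM hMU
    have h3 : V ≤ M.comap π := by
      intro v hv
      rw [Subgroup.mem_comap]
      have h5 : π v = 1 := (QuotientGroup.eq_one_iff v).2 hv
      rw [h5]
      exact one_mem _
    rcases hmin (M.comap π) (hM.comap π) h3 (by
      rw [← hcomap]; exact Subgroup.comap_mono hMU) with h4 | h4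
    · left
      rw [← Subgroup.map_comap_eq_self_of_surjective hs M, h4, Subgroup.map_eq_bot_iff, hker]
    · right
      rw [← Subgroup.map_comap_eq_self_of_surjective hs M, h4])
  refine ⟨ℓ, hℓ, ?_, ?_, ?_⟩
  · intro x hx
    have h3 := h2 (π x) ⟨x, hx, rfl⟩
    rw [← map_pow] at h3
    exact (QuotientGroup.eq_one_iff _).1 h3
  · intro x hx y hy
    have h3 : π x * π y = π y * π x := Solv.comm_of_isMulCommutative h1 ⟨x, hx, rfl⟩ ⟨y, hy, rfl⟩
    have h4 : π (x * y * x⁻¹ * y⁻¹) = 1 := by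
      rw [map_mul, map_mul, map_mul, h3, map_inv, map_inv]; group
    exact (QuotientGroup.eq_one_iff _).1 h4
  · obtain ⟨a, ha⟩ := Subgroup.ne_bot_iff_exists_ne_one.1 hne
    haveI : Fact ℓ.Prime := ⟨hℓ⟩
    have h3 : orderOf (a : X ⧸ V) = ℓ := by
      apply orderOf_eq_prime (h2 a a.2)
      intro h4; exact ha (Subtype.ext h4)
    have h4 : ℓ ∣ Nat.card (U.map π) := by
      rw [← h3, Subgroup.orderOf_coe]
      exact orderOf_dvd_natCard _
    exact h4.trans (Subgroup.card_map_dvd U π)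

/-- An element of the normal subgroup `N` outside the Fitting subgroup of `N` acts nontrivially on some
irreducible chief module inside `N`. -/
theorem exists_chief_rep {X : Type u} [Group X] [Finite X] (hX : Group.IsSolvable X) (N : Subgroup X) [N.Normal]
    {g : X} (hg : g ∈ N) (hgF : g ∉ (Cfsg.fittingSubgroup ↥N).map N.subtype) :
    ∃ (ℓ : ℕ) (_ : Fact ℓ.Prime) (V : Type u) (_ : AddCommGroup V) (_ : Module (ZMod ℓ) V) (_ : Finite V)
      (ρ : Representation (ZMod ℓ) X V), ρ g ≠ 1 ∧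
      (∀ W : Submodule (ZMod ℓ) V, (∀ x, ∀ w ∈ W, ρ x w ∈ W) → W = ⊥ ∨ W = ⊤) ∧ ℓ ∣ Nat.card N ∧
      ∀ H : Subgroup X, (Nat.card H).Coprime (Nat.card N) → ∀ v : V, v ≠ 0 → (∀ y ∈ H, ρ y v = v) →
        ∃ h ∈ N, h ≠ 1 ∧ h ∈ Subgroup.centralizer (H : Set X) := by
  classical
  obtain ⟨-, h2⟩ := Cfsg.Agent.S3766.result hX N g
  rw [h2] at hgF
  push Not at hgF
  obtain ⟨U, V, ⟨hU, hV, hVU, hmin⟩, hUF, w, hw, hwg⟩ := hgF hg
  obtain ⟨ℓ, hℓ, hpow, hcomm, hdvd⟩ := chief_elementary hX hU hV hVU hmin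
  haveI : Fact ℓ.Prime := ⟨hℓ⟩
  have hn : ∀ (K : Subgroup X), K.Normal → ∀ L : Subgroup X, L ≤ Subgroup.normalizer (K : Set X) := by
    intro K hK L
    haveI := hK
    rw [Subgroup.normalizer_eq_top]
    exact le_top
  have hUN : U ≤ N := hUF.trans (Subgroup.map_subtype_le _)
  obtain ⟨A, iA, iM, ⟨S⟩⟩ := BG3.exists_secMod (ℓ := ℓ) (M := U) (M1 := V) (Y := ⊤) (hn V hV U) (hn U hU ⊤)
    (hn V hV ⊤) hpow hcomm
  haveI : Finite A := S.finite
  let ρ : Representation (ZMod ℓ) X A := S.ρ.comp (Subgroup.topEquiv.symm : X ≃* (⊤ : Subgroup X)).toMonoidHom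
  have hρ : ∀ x : X, ρ x = S.ρ ⟨x, Subgroup.mem_top x⟩ := fun x => rfl
  refine ⟨ℓ, inferInstance, A, iA, iM, inferInstance, ρ, ?_, ?_, hdvd.trans (Subgroup.card_dvd_of_le hUN), ?_⟩
  · intro h1
    have h3 := (S.rho_eq_iff ⟨g, Subgroup.mem_top g⟩).1 (by
      intro v
      rw [← hρ, h1]; rfl) w hw
    apply hwg
    change g * w * g⁻¹ * w⁻¹ ∈ V at h3
    have h4 := V.inv_mem h3
    have h5 : (g * w * g⁻¹ * w⁻¹)⁻¹ = w * g * w⁻¹ * g⁻¹ := by group
    rwa [h5] at h4
  · intro W hW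
    -- the preimage
    let M : Subgroup X :=
      { carrier := {x | ∃ hx : x ∈ U, (S.π ⟨x, hx⟩).toAdd ∈ W}
        one_mem' := ⟨U.one_mem, by
          have : S.π ⟨1, U.one_mem⟩ = 1 := map_one S.π
          rw [this]; exact W.zero_mem⟩
        mul_mem' := by
          rintro a b ⟨ha, ha'⟩ ⟨hb, hb'⟩
          refine ⟨U.mul_mem ha hb, ?_⟩
          have : S.π ⟨a * b, U.mul_mem ha hb⟩ = S.π ⟨a, ha⟩ * S.π ⟨b, hb⟩ := map_mul S.π ⟨a, ha⟩ ⟨b, hb⟩
          rw [this]; exact W.add_mem ha' hb'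
        inv_mem' := by
          rintro a ⟨ha, ha'⟩
          refine ⟨U.inv_mem ha, ?_⟩
          have : S.π ⟨a⁻¹, U.inv_mem ha⟩ = (S.π ⟨a, ha⟩)⁻¹ := map_inv S.π ⟨a, ha⟩
          rw [this]; exact W.neg_mem ha' }
    have hMn : M.Normal := by
      constructor
      rintro a ⟨ha, ha'⟩ y
      refine ⟨hU.conj_mem a ha y, ?_⟩
      have h3 := S.equiv ⟨y, Subgroup.mem_top y⟩ ⟨a, ha⟩
      have h4 : BG3.cjHom (hn U hU ⊤) ⟨y, Subgroup.mem_top y⟩ ⟨a, ha⟩ = ⟨y * a * y⁻¹, hU.conj_mem a ha y⟩ := rfl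
      rw [h4] at h3
      rw [h3]
      exact hW y _ ha'
    have hVM : V ≤ M := by
      intro a ha
      refine ⟨hVU.le ha, ?_⟩
      have h3 : S.π ⟨a, hVU.le ha⟩ = 1 := (S.ker _).2 ha
      rw [h3]; exact W.zero_mem
    have hMU : M ≤ U := fun a ha => ha.1
    rcases hmin M hMn hVM hMU with h3 | h3
    · left
      rw [eq_bot_iff]
      intro v hv
      obtain ⟨a, rfl⟩ := S.exists_rep v
      have h4 : (a : X) ∈ M := ⟨a.2, hv⟩
      rw [h3] at h4
      rw [Submodule.mem_bot, (S.ker a).2 h4]; rfl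
    · right
      rw [eq_top_iff]
      intro v _
      obtain ⟨a, rfl⟩ := S.exists_rep v
      have h4 : (a : X) ∈ M := by rw [h3]; exact a.2
      exact h4.2
  · intro H hH v hv hfix
    have hUsol : Group.IsSolvable U := by haveI := hX; infer_instance
    obtain ⟨x, hxc, hxv⟩ := S.exists_fixed_rep (H := H) le_top hVU.le (hn V hV U) (hn V hV ⊤)
      (Nat.Coprime.coprime_dvd_right (Subgroup.card_dvd_of_le hUN) hH) hUsol (v := v) (by
        intro h hh
        exact hfix h hh)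
    refine ⟨x, hUN x.2, ?_, hxc⟩
    intro h1
    apply hv
    have h3 : x = 1 := Subtype.ext h1
    rw [← hxv, h3, map_one]; rfl

/-- The faithful version: pass to the image of the representation. -/
theorem exists_faithful_chief_rep {X : Type u} [Group X] [Finite X] (hX : Group.IsSolvable X) (N : Subgroup X) [N.Normal]
    {g : X} (hg : g ∈ N) (hgF : g ∉ (Cfsg.fittingSubgroup ↥N).map N.subtype) :
    ∃ (ℓ : ℕ) (_ : Fact ℓ.Prime) (V : Type u) (_ : AddCommGroup V) (_ : Module (ZMod ℓ) V) (_ : Finite V)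
      (H : Type u) (_ : Group H) (_ : Finite H) (f : X →* H)
      (ρ : Representation (ZMod ℓ) H V), Function.Surjective f ∧ Function.Injective ρ ∧ f g ≠ 1 ∧
      (∀ W : Submodule (ZMod ℓ) V, (∀ x, ∀ w ∈ W, ρ x w ∈ W) → W = ⊥ ∨ W = ⊤) ∧ ℓ ∣ Nat.card N ∧
      ∀ B : Subgroup X, (Nat.card B).Coprime (Nat.card N) → ∀ v : V, v ≠ 0 → (∀ y ∈ B, ρ (f y) v = v) →
        ∃ h ∈ N, h ≠ 1 ∧ h ∈ Subgroup.centralizer (B : Set X) := by
  obtain ⟨ℓ, iℓ, V, iV, iM, iF, ρ, h1, h2, h3, h4⟩ := exists_chief_rep hX N hg hgF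
  set e := HH.toEquiv (F := ZMod ℓ) ρ with he
  let e' : X →* e.range := e.rangeRestrict
  have he's : Function.Surjective e' := e.rangeRestrict_surjective
  haveI : Finite e.range := Finite.of_surjective e' he's
  have hcoe : ∀ g, HH.tautRep e.range (e' g) = ρ g := fun _ => rfl
  refine ⟨ℓ, iℓ, V, iV, iM, iF, e.range, inferInstance, inferInstance, e', HH.tautRep e.range, he's,
    HH.tautRep_injective _, ?_, ?_, h3, ?_⟩
  · intro h5
    apply h1
    rw [← hcoe, h5, map_one]
  · intro W hW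
    exact h2 W (fun x w hw => hW (e' x) w hw)
  · intro B hB v hv hfix
    exact h4 B hB v hv hfix

/-- fixed points in an image of a coprime action -/
theorem fixed_map {X : Type u} [Group X] [Finite X] {H : Type v} [Group H] (f : X →* H) (A N : Subgroup X) [N.Normal]
    (hcop : (Nat.card A).Coprime (Nat.card N)) (hsol : Group.IsSolvable A ∨ Group.IsSolvable N) {h : H}
    (hh : h ∈ N.map f) (hfix : ∀ a ∈ A, f a * h * (f a)⁻¹ = h) :
    ∃ c ∈ N ⊓ Subgroup.centralizer (A : Set X), f c = h := by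
  obtain ⟨g, hg, rfl⟩ := hh
  have hn : ∀ (K : Subgroup X), K.Normal → ∀ L : Subgroup X, L ≤ Subgroup.normalizer (K : Set X) := by
    intro K hK L
    haveI := hK
    rw [Subgroup.normalizer_eq_top]
    exact le_top
  obtain ⟨c, hc, hgc⟩ := Cop.fixed_points_quotient A N (hn N inferInstance A) hcop hsol (N ⊓ f.ker) inf_le_left
    (hn _ inferInstance _) (hn _ inferInstance _) g hg (by
      intro a ha
      refine ⟨N.mul_mem (Subgroup.Normal.conj_mem inferInstance g hg a) (N.inv_mem hg), ?_⟩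
      change f (a * g * a⁻¹ * g⁻¹) = 1
      rw [map_mul, map_mul, map_mul, map_inv, map_inv, hfix a ha, mul_inv_cancel])
  refine ⟨c, hc, ?_⟩
  have h1 : f (g⁻¹ * c) = 1 := hgc.2
  rw [map_mul, map_inv, inv_mul_eq_one] at h1
  exact h1.symm

/-- a normal `ℓ`-subgroup acts trivially on an irreducible module in characteristic `ℓ` -/
theorem pCore_eq_bot {ℓ : ℕ} [hℓ : Fact ℓ.Prime] {V : Type v} [AddCommGroup V] [Module (ZMod ℓ) V] [Finite V]
    {H : Type u} [Group H] [Finite H] (ρ : Representation (ZMod ℓ) H V) (hinj : Function.Injective ρ)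
    (hirr : ∀ W : Submodule (ZMod ℓ) V, (∀ x, ∀ w ∈ W, ρ x w ∈ W) → W = ⊥ ∨ W = ⊤) :
    Cfsg.pCore ℓ H = ⊥ := by
  classical
  set P := Cfsg.pCore ℓ H with hP
  have hPn : P.Normal := Solv.pCore_normal ℓ
  have hPp : IsPGroup ℓ P := Solv.pCore_isPGroup ℓ
  by_cases hnt : Nontrivial V
  swap
  · rw [not_nontrivial_iff_subsingleton] at hnt
    rw [eq_bot_iff]
    intro x _
    rw [Subgroup.mem_bot]
    apply hinj
    rw [map_one]
    apply LinearMap.ext
    intro v
    exact Subsingleton.elim _ _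
  let W : Submodule (ZMod ℓ) V :=
    { carrier := {v | ∀ y ∈ P, ρ y v = v}
      add_mem' := by
        intro a b ha hb y hy
        rw [map_add, ha y hy, hb y hy]
      zero_mem' := fun y _ => map_zero _
      smul_mem' := by
        intro c a ha y hy
        rw [map_smul, ha y hy] }
  have hWinv : ∀ x, ∀ w ∈ W, ρ x w ∈ W := by
    intro x w hw y hy
    have h1 := hw _ (hPn.conj_mem y hy x⁻¹)
    have h2 : ρ y (ρ x w) = ρ x (ρ (x⁻¹ * y * x⁻¹⁻¹) w) := by
      rw [← HH.rho_mul, ← HH.rho_mul]; congr 2; group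
    rw [h2, h1]
  have hWne : W ≠ ⊥ := by
    letI : MulAction P V :=
      { smul := fun y v => ρ y v
        one_smul := fun v => by
          change ρ ((1 : P) : H) v = v
          rw [Subgroup.coe_one, map_one]; rfl
        mul_smul := fun a b v => by
          change ρ ((a * b : P) : H) v = ρ a (ρ b v)
          rw [Subgroup.coe_mul, HH.rho_mul] }
    have hdvd : ℓ ∣ Nat.card V := by
      have h1 : IsPGroup ℓ (Multiplicative V) := by
        rw [isPGroup_iff_pow_pow_eq_one]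
        intro x
        refine ⟨1, ?_⟩
        change Multiplicative.ofAdd ((ℓ ^ 1) • x.toAdd) = 1
        rw [pow_one, ← Nat.cast_smul_eq_nsmul (ZMod ℓ), CharP.cast_eq_zero, zero_smul]; rfl
      haveI : Nontrivial (Multiplicative V) := hnt
      obtain ⟨m, hm0, hm⟩ := (IsPGroup.nontrivial_iff_card h1).1 ‹_›
      have h2 : Nat.card V = ℓ ^ m := hm
      rw [h2]; exact dvd_pow_self ℓ hm0.ne'
    intro hbot
    have h0 : (0 : V) ∈ MulAction.fixedPoints P V := by
      rw [MulAction.mem_fixedPoints]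
      intro y
      exact map_zero _
    obtain ⟨b, hb, hb0⟩ := hPp.exists_fixed_point_of_prime_dvd_card_of_fixed_point V hdvd h0
    apply hb0
    have h3 : b ∈ W := by
      intro y hy
      exact (MulAction.mem_fixedPoints.1 hb) ⟨y, hy⟩
    rw [hbot, Submodule.mem_bot] at h3
    exact h3.symm
  rcases hirr W hWinv with h1 | h1
  · exact absurd h1 hWne
  · rw [eq_bot_iff]
    intro y hy
    rw [Subgroup.mem_bot]
    apply hinj
    rw [map_one]
    apply LinearMap.ext
    intro v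
    have h2 : v ∈ W := by rw [h1]; trivial
    exact h2 y hy

theorem fitting_coprime {H : Type u} [Group H] [Finite H] {ℓ : ℕ} [hℓ : Fact ℓ.Prime] (h : Cfsg.pCore ℓ H = ⊥) :
    (Nat.card (Cfsg.fittingSubgroup H)).Coprime ℓ := by
  have h1 := Solv.coprime_relIndex_pCore_iSup (G := H) ℓ
  rw [← Solv.fitting_eq_iSup_pCore, h, Subgroup.relIndex_bot_left] at h1
  exact h1

/-- a coprime group of operators acting trivially on the Fitting subgroup acts trivially -/
theorem commutator_fitting {X : Type u} [Group X] [Finite X] (A N : Subgroup X) [N.Normal] (hN : Group.IsSolvable N)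
    (hcop : (Nat.card A).Coprime (Nat.card N)) (h : ⁅(Cfsg.fittingSubgroup ↥N).map N.subtype, A⁆ = ⊥) :
    ⁅N, A⁆ = ⊥ := by
  have hn : ∀ (K : Subgroup X), K.Normal → ∀ L : Subgroup X, L ≤ Subgroup.normalizer (K : Set X) := by
    intro K hK L
    haveI := hK
    rw [Subgroup.normalizer_eq_top]
    exact le_top
  set F := (Cfsg.fittingSubgroup ↥N).map N.subtype with hF
  haveI hFn : F.Normal := by rw [hF]; infer_instance
  have hFN : F ≤ N := Subgroup.map_subtype_le _
  have hCF : ∀ g ∈ N, (∀ y ∈ F, y * g = g * y) → g ∈ F := by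
    intro g hg hy
    have h1 : (⟨g, hg⟩ : N) ∈ Subgroup.centralizer (Cfsg.fittingSubgroup N : Set N) := by
      rw [Subgroup.mem_centralizer_iff]
      intro y hyF
      apply Subtype.ext
      exact hy y ⟨y, hyF, rfl⟩
    exact ⟨⟨g, hg⟩, Solv.centralizer_fitting_le h1, rfl⟩
  have h1 : ⁅⁅A, N⁆, F⁆ = ⊥ := by
    apply Subgroup.commutator_commutator_eq_bot_of_rotate
    · rw [eq_bot_iff, ← h]
      exact Subgroup.commutator_mono (Subgroup.commutator_le_right N F) le_rfl
    · rw [h, Subgroup.commutator_bot_left]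
  have h2 : ⁅N, A⁆ ≤ F := by
    intro g hg
    have hgN : g ∈ N := Subgroup.commutator_le_left N A hg
    apply hCF g hgN
    intro y hy
    rw [Subgroup.commutator_comm] at h1
    have h3 := Subgroup.commutator_mem_commutator hy (by rw [Subgroup.commutator_comm]; exact hg : g ∈ ⁅A, N⁆)
    rw [h1, Subgroup.mem_bot, commutatorElement_eq_one_iff_mul_comm] at h3
    exact h3
  have h3 := Cop.commutator_commutator_eq (A := A) (K := N) (hn N inferInstance A) hcop (Or.inr hN)
  rw [eq_bot_iff, ← h3, ← h]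
  exact Subgroup.commutator_mono h2 le_rfl

end Cfsg.Agent.H62.ChiefRep
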