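import Cfsg.Agent.H62.Mazurov

set_option autoImplicit false
set_option linter.style.haveILetI false
set_option linter.unusedSectionVars false

/-!
Mazurov's lemma, second part.
-/

namespace Cfsg.Agent.H62

open Subgroup
open scoped Pointwise commutatorElement

/-- automorphisms act on the abelianization -/
def abAut (P : Type*) [Group P] : MulAut P →* MulAut (Abelianization P) where
  toFun e := e.abelianizationCongr
  map_one' := by
    ext x
    induction x using QuotientGroup.induction_on with
    | H x => rfl
  map_mul' a b := by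
    ext x
    induction x using QuotientGroup.induction_on with
    | H x => rfl

theorem abAut_of {P : Type*} [Group P] (e : MulAut P) (w : P) :
    abAut P e (Abelianization.of w) = Abelianization.of (e w) := rfl

theorem mazurov_core {G : Type*} [Group G] [Finite G] {p : ℕ} [hp : Fact p.Prime] {P R : Subgroup G}
    (hP : IsPGroup p P) (hRP : R ≤ normalizer (P : Set G)) (hcop : (Nat.card R).Coprime (Nat.card P))
    {x : G} {n : ℕ} (hn : 0 < n) (hxP : x ∈ normalizer (P : Set G)) (hxR : x ∈ normalizer (R : Set G))
    (hfree : ∀ i, 0 < i → i < n → ∀ f ∈ R, x ^ i * f = f * x ^ i → f = 1)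
    (hpow : ∀ w ∈ P, (w * x) ^ n = 1) : R ≤ centralizer (P : Set G) := by
  classical
  letI act : MulDistribMulAction (normalizer (P : Set G)) (Abelianization P) :=
    MulDistribMulAction.compHom _ ((abAut P).comp P.normalizerMonoidHom)
  have hact : ∀ (g : normalizer (P : Set G)) (w : P), g • (Abelianization.of w) =
      Abelianization.of (⟨(g : G) * w * (g : G)⁻¹, (mem_normalizer_iff.1 g.2 _).1 w.2⟩ : P) := by
    intro g w
    rfl
  set X : normalizer (P : Set G) := ⟨x, hxP⟩ with hX
  have hxiP : ∀ i, x ^ i ∈ normalizer (P : Set G) := fun i => pow_mem hxP i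
  have key : ∀ (w : P) (k : ℕ), ∃ e : P, (e : G) = ((w : G) * x) ^ k * (x ^ k)⁻¹ ∧
      Abelianization.of e = ∏ i ∈ Finset.range k, X ^ i • Abelianization.of w := by
    intro w k
    induction k with
    | zero => exact ⟨1, by simp, by simp⟩
    | succ k ih =>
      obtain ⟨e, he1, he2⟩ := ih
      refine ⟨e * ⟨x ^ k * w * (x ^ k)⁻¹, (mem_normalizer_iff.1 (hxiP k) _).1 w.2⟩, ?_, ?_⟩
      · change (e : G) * (x ^ k * w * (x ^ k)⁻¹) = _
        rw [he1, pow_succ, pow_succ]
        group
      · rw [map_mul, Finset.prod_range_succ, ← he2, hact]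
        rfl
  have hnorm : ∀ v : Abelianization P, ∏ i ∈ Finset.range n, X ^ i • v = 1 := by
    intro v
    obtain ⟨w, rfl⟩ : ∃ w : P, Abelianization.of w = v := QuotientGroup.mk_surjective v
    obtain ⟨e, he1, he2⟩ := key w n
    rw [← he2]
    have h1 := hpow w w.2
    have h2 : x ^ n = 1 := by simpa using hpow 1 P.one_mem
    have h3 : e = 1 := by
      apply Subtype.ext
      rw [he1, h1, h2]; simp
    rw [h3, map_one]
  have h4 := act_trivially_of_norm (L := normalizer (P : Set G)) (V := Abelianization P)
    (R.subgroupOf (normalizer (P : Set G))) X n hn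
    (by
      intro f hf
      exact (mem_normalizer_iff.1 hxR _).1 hf)
    (by
      intro i hi0 hin f hf hfx
      have h5 : x ^ i * (f : G) = f * x ^ i := congrArg Subtype.val hfx
      exact Subtype.ext (hfree i hi0 hin f hf h5))
    hnorm
    (by
      have h5 : Nat.card (R.subgroupOf (normalizer (P : Set G))) = Nat.card R :=
        Nat.card_congr (Subgroup.subgroupOfEquivOfLe hRP).toEquiv
      rw [h5]
      exact Nat.Coprime.coprime_dvd_right (Subgroup.card_quotient_dvd_card _) hcop)
  have hcop' : (Nat.card R).Coprime (Nat.card (frattini P)) :=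
    Nat.Coprime.coprime_dvd_right (Subgroup.card_subgroup_dvd_card _) hcop
  apply Cop.le_centralizer_of_frattini hRP hcop'
  intro a ha k hk
  have h6 := h4 ⟨a, hRP ha⟩ ha (Abelianization.of (⟨k, hk⟩ : P))
  rw [hact] at h6
  have h7 : (⟨a * k * a⁻¹, (mem_normalizer_iff.1 (hRP ha) _).1 hk⟩ : P) * (⟨k, hk⟩ : P)⁻¹ ∈
      commutator P := by
    rw [← Abelianization.ker_of, MonoidHom.mem_ker, map_mul, map_inv, h6, mul_inv_cancel]
  exact ⟨_, Solv.commutator_le_frattini_of_pGroup hP h7, rfl⟩

/-- the lifting part: a coprime supplement in the preimage of a subgroup -/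
theorem exists_lift_coprime {G : Type*} [Group G] [Finite G] (N : Subgroup G) [N.Normal]
    (Rb : Subgroup (G ⧸ N)) (hcop : (Nat.card N).Coprime (Nat.card Rb)) :
    ∃ R : Subgroup G, R.map (QuotientGroup.mk' N) = Rb ∧ Nat.card R = Nat.card Rb ∧
      N ⊔ R = Rb.comap (QuotientGroup.mk' N) := by
  set π := QuotientGroup.mk' N with hπ
  have hπs : Function.Surjective π := QuotientGroup.mk'_surjective N
  set R' := Rb.comap π with hR'
  have hNR' : N ≤ R' := by
    intro x hx
    have : π x = 1 := (QuotientGroup.eq_one_iff x).2 hx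
    rw [hR', mem_comap, this]; exact one_mem _
  have hidx : (N.subgroupOf R').index = Nat.card Rb := by
    have h1 : N.subgroupOf R' = (π.comp R'.subtype).ker := by
      ext x
      rw [MonoidHom.mem_ker, mem_subgroupOf, MonoidHom.comp_apply]
      exact (QuotientGroup.eq_one_iff _).symm
    rw [h1, Subgroup.index_ker]
    have h2 : (π.comp R'.subtype).range = Rb := by
      rw [MonoidHom.range_comp, R'.range_subtype, hR', Subgroup.map_comap_eq_self_of_surjective hπs]
    rw [h2]
  have hcardN : Nat.card (N.subgroupOf R') = Nat.card N :=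
    Nat.card_congr (Subgroup.subgroupOfEquivOfLe hNR').toEquiv
  haveI : (N.subgroupOf R').Normal := inferInstance
  obtain ⟨H, hH⟩ := Subgroup.exists_right_complement'_of_coprime (N := N.subgroupOf R')
    (by rw [hcardN, hidx]; exact hcop)
  have hsup : N ⊔ H.map R'.subtype = R' := by
    have h1 := hH.sup_eq_top
    have h2 := congrArg (Subgroup.map R'.subtype) h1
    rw [Subgroup.map_sup, Hall.map_subgroupOf_subtype hNR', ← MonoidHom.range_eq_map,
      R'.range_subtype] at h2
    exact h2
  refine ⟨H.map R'.subtype, ?_, ?_, hsup⟩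
  · have h1 := congrArg (Subgroup.map π) hsup
    have h3 : R'.map π = Rb := by rw [hR', Subgroup.map_comap_eq_self_of_surjective hπs]
    rw [Subgroup.map_sup, h3] at h1
    have h2 : N.map π = ⊥ := by
      rw [eq_bot_iff]
      rintro _ ⟨x, hx, rfl⟩
      exact (QuotientGroup.eq_one_iff x).2 hx
    rw [h2, bot_sup_eq] at h1
    exact h1
  · rw [Cop.card_map_subtype, ← hH.symm.index_eq_card, hidx]

end Cfsg.Agent.H62
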