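import Mathlib

import Cfsg.Agent.Solv.MinNormal

/-!
Subsets with small setwise stabilizer in permutation groups of odd order (owner: helper62)
-/

set_option autoImplicit false
set_option linter.unusedSectionVars false
set_option linter.style.haveILetI false

namespace Cfsg.Agent.H62.TV

open scoped Pointwise
open MulAction

universe u v w

/-- some subset has a setwise stabilizer acting trivially -/
def Sep (G : Type v) (Ω : Type u) [Group G] [MulAction G Ω] : Prop :=
  ∃ D : Set Ω, ∀ g : G, (∀ x, x ∈ D ↔ g • x ∈ D) → ∀ x : Ω, g • x = x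

theorem out_mem {G : Type v} [Group G] (H : Subgroup G) (g : G) (x : G ⧸ H) :
    ((g • x).out)⁻¹ * g * x.out ∈ H := by
  rw [mul_assoc, ← QuotientGroup.eq]
  rw [QuotientGroup.out_eq']
  conv_lhs => rw [← QuotientGroup.out_eq' x]
  rfl

theorem colour {G : Type v} [Group G] (H : Subgroup G) {X : Type w} [MulAction H X] (p q : X)
    (hpq : ∀ h : H, h • p ≠ q) (D : Set (G ⧸ H))
    (F : G ⧸ H → X) (hF1 : ∀ x ∈ D, F x = p) (hF2 : ∀ x, x ∉ D → F x = q)
    (g : G)
    (hg : ∀ x, F (g • x) = (⟨_, out_mem H g x⟩ : H) • F x) (x : G ⧸ H) : x ∈ D ↔ g • x ∈ D := by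
  constructor
  · intro hx
    by_contra h
    have h1 := hg x
    rw [hF1 x hx, hF2 _ h] at h1
    exact hpq _ h1.symm
  · intro hx
    by_contra h
    have h1 := hg x
    rw [hF2 x h, hF1 _ hx] at h1
    exact hpq (⟨_, out_mem H g x⟩ : H)⁻¹ (by rw [h1, inv_smul_smul])

theorem wreath {G : Type v} [Group G] (H : Subgroup G) {X : Type w} [MulAction H X] (p q : X)
    (hpq : ∀ h : H, h • p ≠ q) (D : Set (G ⧸ H))
    (hD : ∀ g : G, (∀ x, x ∈ D ↔ g • x ∈ D) → ∀ x : G ⧸ H, g • x = x)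
    (F : G ⧸ H → X) (hF1 : ∀ x ∈ D, F x = p) (hF2 : ∀ x, x ∉ D → F x = q)
    (g : G)
    (hg : ∀ x, F (g • x) = (⟨_, out_mem H g x⟩ : H) • F x) :
    (∀ x : G ⧸ H, g • x = x) ∧ ∀ x, (⟨_, out_mem H g x⟩ : H) • F x = F x := by
  have h1 := hD g (colour H p q hpq D F hF1 hF2 g hg)
  refine ⟨h1, fun x => ?_⟩
  rw [← hg x, h1 x]

theorem wreath_swap {G : Type v} [Group G] (H : Subgroup G) {X : Type w} [MulAction H X] (p q : X)
    (hpq : ∀ h : H, h • p ≠ q) (D : Set (G ⧸ H))
    (F F' : G ⧸ H → X) (hF1 : ∀ x ∈ D, F x = p) (hF2 : ∀ x, x ∉ D → F x = q)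
    (hF1' : ∀ x ∈ D, F' x = q) (hF2' : ∀ x, x ∉ D → F' x = p)
    (g : G)
    (hg : ∀ x, F' (g • x) = (⟨_, out_mem H g x⟩ : H) • F x) (x : G ⧸ H) :
    x ∈ D ↔ g • x ∉ D := by
  constructor
  · intro hx h
    have h1 := hg x
    rw [hF1 x hx, hF1' _ h] at h1
    exact hpq _ h1.symm
  · intro hx
    by_contra h
    have h1 := hg x
    rw [hF2 x h, hF2' _ hx] at h1
    exact hpq (⟨_, out_mem H g x⟩ : H)⁻¹ (by rw [h1, inv_smul_smul])

/-- an element of odd order whose square acts trivially acts trivially -/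
theorem sq_triv {G : Type v} [Group G] (hodd : Odd (Nat.card G)) {X : Type w} [MulAction G X]
    (g : G) (x : X) (h : g • g • x = x) : g • x = x := by
  obtain ⟨m, hm⟩ := hodd
  have h1 : g ^ (2 * m + 1) = 1 := by rw [← hm]; exact pow_card_eq_one'
  have h2 : ∀ n : ℕ, (g ^ (2 * n)) • x = x := by
    intro n
    induction n with
    | zero => rw [mul_zero, pow_zero, one_smul]
    | succ n ih =>
      have e : g ^ (2 * (n + 1)) = g ^ (2 * n) * (g * g) := by rw [← pow_two, ← pow_add]; ring_nf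
      rw [e, mul_smul, mul_smul, h, ih]
  have h3 := h2 m
  have h4 : g • x = g • (g ^ (2 * m)) • x := by rw [h3]
  rw [h4, ← mul_smul, ← pow_succ', h1, one_smul]

/-- the statement for all groups of odd order acting on `Ω` -/
def PP (Ω : Type u) : Prop := ∀ G : Subgroup (Equiv.Perm Ω), Odd (Nat.card G) → Sep G Ω

theorem sep_of_PP {Ω : Type u} (h : PP Ω) (G : Type v) [Group G] [MulAction G Ω]
    (hodd : Odd (Nat.card G)) : Sep G Ω := by
  have hfin : Finite G := Nat.finite_of_card_ne_zero (by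
    intro h0; rw [h0] at hodd; exact absurd hodd (by decide))
  let φ : G →* Equiv.Perm Ω := MulAction.toPermHom G Ω
  have h1 : Odd (Nat.card φ.range) := by
    obtain ⟨c, hc⟩ := Subgroup.card_dvd_of_surjective φ.rangeRestrict φ.rangeRestrict_surjective
    rw [hc] at hodd
    exact Nat.Odd.of_mul_left hodd
  obtain ⟨D, hD⟩ := h φ.range h1
  refine ⟨D, fun g hg x => ?_⟩
  exact hD ⟨φ g, ⟨g, rfl⟩⟩ hg x

/-! ### the affine case -/

section aff

variable {V : Type u} [AddCommGroup V] {r : ℕ} [hr : Fact r.Prime]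
  [Module (ZMod r) V] {k : ℕ} (b : Module.Basis (Fin k) (ZMod r) V)

theorem coord (c : ZMod r) (j m : Fin k) : b.repr (c • b j) m = if j = m then c else 0 := by
  rw [map_smul, Module.Basis.repr_self, Finsupp.smul_single, smul_eq_mul, mul_one,
    Finsupp.single_apply]

theorem coord_eq {c d : ZMod r} {j m : Fin k} (h : c • b j = d • b m) (hc : c ≠ 0) :
    j = m ∧ c = d := by
  have h1 := congrArg (fun x => b.repr x j) h
  simp only [coord, if_true] at h1
  by_cases hjm : m = j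
  · rw [if_pos hjm] at h1
    exact ⟨hjm.symm, h1⟩
  · rw [if_neg hjm] at h1
    exact absurd h1 hc

theorem two_ne (hr2 : r ≠ 2) : (2 : ZMod r) ≠ 0 := by
  intro h
  have h1 : ((2 : ℕ) : ZMod r) = 0 := by exact_mod_cast h
  rw [ZMod.natCast_eq_zero_iff] at h1
  exact hr2 ((Nat.prime_dvd_prime_iff_eq hr.out Nat.prime_two).mp h1)

theorem neg_one_ne (hr2 : r ≠ 2) : (-1 : ZMod r) ≠ 1 := by
  intro h
  apply two_ne hr2
  have : (1 : ZMod r) + 1 = 0 := by
    nth_rewrite 1 [← h]; ring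
  rw [← this]; norm_num

/-- the exceptional set -/
def DD (I : Set (Fin k)) : Set V :=
  {x | ∃ (j : Fin k) (c : ZMod r), x = c • b j ∧ (c = 0 ∨ c = 1 ∨ (c = -1 ∧ j ∈ I))}

theorem neg_mem_DD (hr2 : r ≠ 2) {I : Set (Fin k)} {j : Fin k} :
    (-1 : ZMod r) • b j ∈ DD b I ↔ j ∈ I := by
  constructor
  · rintro ⟨i, c, hc, h⟩
    have hne : (-1 : ZMod r) ≠ 0 := by
      intro h0
      exact one_ne_zero (neg_eq_zero.mp h0)
    obtain ⟨rfl, rfl⟩ := coord_eq b hc hne
    rcases h with h | h | h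
    · exact absurd h hne
    · exact absurd h (neg_one_ne hr2)
    · exact h.2
  · intro h
    exact ⟨j, -1, rfl, Or.inr (Or.inr ⟨rfl, h⟩)⟩

/-- midpoint condition -/
def QQ (D : Set V) (x : V) : Prop :=
  ∃ a ∈ D, ∃ a' ∈ D, (2 : ZMod r) • x - a ∈ D ∧ (2 : ZMod r) • x - a' ∈ D ∧ a ≠ x ∧ a' ≠ x ∧
    a' ≠ a ∧ a' ≠ (2 : ZMod r) • x - a

theorem QQ_zero (hr2 : r ≠ 2) {I : Set (Fin k)} {i j : Fin k} (hij : i ≠ j) (hi : i ∈ I)
    (hj : j ∈ I) : QQ (r := r) (DD b I) 0 := by
  have h1 : ∀ i ∈ I, (2 : ZMod r) • (0 : V) - (1 : ZMod r) • b i ∈ DD b I := by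
    intro i hi
    have : (2 : ZMod r) • (0 : V) - (1 : ZMod r) • b i = (-1 : ZMod r) • b i := by
      rw [smul_zero, zero_sub, neg_smul]
    rw [this]
    exact (neg_mem_DD b hr2).mpr hi
  have h0 : ∀ i, (1 : ZMod r) • b i ≠ 0 := by
    intro i h
    rw [one_smul] at h
    exact b.ne_zero i h
  refine ⟨(1 : ZMod r) • b i, ⟨i, 1, rfl, Or.inr (Or.inl rfl)⟩, (1 : ZMod r) • b j,
    ⟨j, 1, rfl, Or.inr (Or.inl rfl)⟩, h1 i hi, h1 j hj, h0 i, h0 j, ?_, ?_⟩
  · intro h
    exact hij (coord_eq b h one_ne_zero).1.symm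
  · intro h
    have : (2 : ZMod r) • (0 : V) - (1 : ZMod r) • b i = (-1 : ZMod r) • b i := by
      rw [smul_zero, zero_sub, neg_smul]
    rw [this] at h
    exact hij (coord_eq b h one_ne_zero).1.symm

theorem mid (hr2 : r ≠ 2) {I : Set (Fin k)} {m : Fin k} {e : ZMod r} (he : e = 1 ∨ e = -1)
    {a : V} (ha : a ∈ DD b I) (ha2 : (2 : ZMod r) • (e • b m) - a ∈ DD b I) (hne : a ≠ e • b m) :
    a = 0 ∨ a = -(e • b m) := by
  have he0 : e ≠ 0 := by
    rcases he with rfl | rfl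
    · exact one_ne_zero
    · intro h; exact one_ne_zero (neg_eq_zero.mp h)
  obtain ⟨l, c, rfl, hc⟩ := ha
  by_cases hc0 : c = 0
  · left; rw [hc0, zero_smul]
  by_cases hlm : l = m
  · subst hlm
    right
    have hc1 : c = 1 ∨ c = -1 := by
      rcases hc with h | h | h
      · exact absurd h hc0
      · exact Or.inl h
      · exact Or.inr h.1
    rcases he with rfl | rfl <;> rcases hc1 with rfl | rfl
    · exact absurd rfl hne
    · rw [neg_smul]
    · rw [neg_smul, neg_neg]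
    · exact absurd rfl hne
  · exfalso
    obtain ⟨j, d, hd, -⟩ := ha2
    have h1 := congrArg (fun x => b.repr x m) hd
    have h2 := congrArg (fun x => b.repr x l) hd
    simp only [map_sub, smul_smul, Finsupp.coe_sub, Pi.sub_apply, coord, if_true] at h1 h2
    rw [if_neg hlm, sub_zero] at h1
    rw [if_neg (Ne.symm hlm), zero_sub] at h2
    by_cases hjm : j = m
    · subst hjm
      rw [if_neg (Ne.symm hlm)] at h2
      exact hc0 (neg_eq_zero.mp h2)
    · rw [if_neg hjm] at h1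
      rcases mul_eq_zero.mp h1 with h3 | h3
      · exact two_ne hr2 h3
      · exact he0 h3

theorem two_smul_mem (hr2 : r ≠ 2) {I : Set (Fin k)} {m : Fin k} {e : ZMod r}
    (he : e = 1 ∨ e = -1) (h : (2 : ZMod r) • (e • b m) ∈ DD b I) :
    (2 : ZMod r) • (e • b m) = -(e • b m) := by
  have he0 : e ≠ 0 := by
    rcases he with rfl | rfl
    · exact one_ne_zero
    · intro h; exact one_ne_zero (neg_eq_zero.mp h)
  obtain ⟨j, d, hd, hd'⟩ := h
  rw [smul_smul] at hd ⊢
  have h20 : (2 : ZMod r) * e ≠ 0 := mul_ne_zero (two_ne hr2) he0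
  obtain ⟨rfl, rfl⟩ := coord_eq b hd h20
  have hd2 : 2 * e = 1 ∨ 2 * e = -1 := by
    rcases hd' with h | h | h
    · exact absurd h h20
    · exact Or.inl h
    · exact Or.inr h.1
  have h3 : (2 : ZMod r) * e = -e := by
    rcases he with rfl | rfl <;> rcases hd2 with h | h
    · exfalso
      have : (1 : ZMod r) = 0 := by linear_combination h
      exact one_ne_zero this
    · exact h
    · rw [neg_neg]; exact h
    · exfalso
      have : (1 : ZMod r) = 0 := by linear_combination -h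
      exact one_ne_zero this
  rw [h3, neg_smul]

theorem QQ_eq_zero (hr2 : r ≠ 2) {I : Set (Fin k)} {x : V} (hx : x ∈ DD b I)
    (hQ : QQ (r := r) (DD b I) x) : x = 0 := by
  by_contra hx0
  obtain ⟨m, e, rfl, he⟩ := hx
  have he1 : e = 1 ∨ e = -1 := by
    rcases he with h | h | h
    · exact absurd (by rw [h, zero_smul]) hx0
    · exact Or.inl h
    · exact Or.inr h.1
  obtain ⟨a, ha, a', ha', h1, h2, h3, h4, h5, h6⟩ := hQ
  have ea := mid b hr2 he1 ha h1 h3
  have ea' := mid b hr2 he1 ha' h2 h4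
  rcases ea with rfl | rfl
  · rcases ea' with rfl | rfl
    · exact h5 rfl
    · rw [sub_zero] at h1 h6
      exact h6 (two_smul_mem b hr2 he1 h1).symm
  · rcases ea' with rfl | rfl
    · rw [sub_zero] at h2
      apply h6
      rw [two_smul_mem b hr2 he1 h2, sub_self]
    · exact h5 rfl

end aff

end Cfsg.Agent.H62.TV
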