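import Cfsg.Agent.H62.TVA

/-!
Subsets with small setwise stabilizer in permutation groups of odd order, II (owner: helper62)
-/

set_option autoImplicit false
set_option linter.unusedSectionVars false
set_option linter.style.haveILetI false

namespace Cfsg.Agent.H62.TV

open scoped Pointwise
open MulAction

universe u v w

section aff

variable {V : Type u} [AddCommGroup V] {r : ℕ} [hr : Fact r.Prime]
  [Module (ZMod r) V] {k : ℕ} (b : Module.Basis (Fin k) (ZMod r) V)
  {G : Type v} [Group G] [DistribMulAction G V]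

theorem smul_zmod (g : G) (c : ZMod r) (x : V) : g • (c • x) = c • (g • x) := by
  have h1 : ∀ n : ℕ, g • ((n : ZMod r) • x) = (n : ZMod r) • (g • x) := by
    intro n
    rw [Nat.cast_smul_eq_nsmul, Nat.cast_smul_eq_nsmul]
    exact map_nsmul (DistribSMul.toAddMonoidHom V g) n x
  have h2 : c = ((ZMod.val c : ℕ) : ZMod r) := (ZMod.natCast_zmod_val c).symm
  rw [h2]
  exact h1 _

/-- plus or minus -/
def PMq (x y : V) : Prop := x = y ∨ x = -y

omit [Module (ZMod r) V] in
theorem triv_of_basis [Module (ZMod r) V] (b : Module.Basis (Fin k) (ZMod r) V) (g : G)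
    (h : ∀ i, g • b i = b i) (x : V) : g • x = x := by
  have h1 : x = ∑ i, b.repr x i • b i := (b.sum_repr x).symm
  rw [h1, Finset.smul_sum]
  apply Finset.sum_congr rfl
  intro i _
  rw [smul_zmod, h i]

theorem triv_of_pm (hodd : Odd (Nat.card G)) (g : G) (h : ∀ i, PMq (g • b i) (b i)) (x : V) :
    g • x = x := by
  apply sq_triv hodd
  rw [← mul_smul]
  apply triv_of_basis b
  intro i
  rw [mul_smul]
  rcases h i with h1 | h1
  · rw [h1, h1]
  · rw [h1, smul_neg, h1, neg_neg]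

theorem pm_eq (_hr2 : r ≠ 2) {i j : Fin k} (h : PMq (b i) (b j)) : i = j := by
  have e : b i = (1 : ZMod r) • b i := (one_smul _ _).symm
  rcases h with h | h
  · rw [e] at h
    have h2 : (1 : ZMod r) • b i = (1 : ZMod r) • b j := by rw [h, one_smul]
    exact (coord_eq b h2 one_ne_zero).1
  · rw [e] at h
    have h2 : (1 : ZMod r) • b i = (-1 : ZMod r) • b j := by rw [h, neg_smul, one_smul]
    exact (coord_eq b h2 one_ne_zero).1

omit [Module (ZMod r) V] hr in
theorem PMq.symm {x y : V} (h : PMq x y) : PMq y x := by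
  rcases h with h | h
  · exact Or.inl h.symm
  · exact Or.inr (by rw [h, neg_neg])

omit [Module (ZMod r) V] hr in
theorem PMq.trans {x y z : V} (h : PMq x y) (h' : PMq y z) : PMq x z := by
  rcases h with h | h <;> rcases h' with h' | h'
  · exact Or.inl (h.trans h')
  · exact Or.inr (h.trans h')
  · exact Or.inr (by rw [h, h'])
  · exact Or.inl (by rw [h, h', neg_neg])

omit [Module (ZMod r) V] hr in
theorem PMq.smul {x y : V} (h : PMq x y) (g : G) : PMq (g • x) (g • y) := by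
  rcases h with h | h
  · exact Or.inl (by rw [h])
  · exact Or.inr (by rw [h, smul_neg])

/-- the monomial stabilizer -/
def monS : Subgroup G where
  carrier := {g | (∀ i, ∃ j, PMq (g • b i) (b j)) ∧ ∀ i, ∃ j, PMq (g⁻¹ • b i) (b j)}
  one_mem' := by
    refine ⟨fun i => ⟨i, Or.inl (one_smul _ _)⟩, fun i => ⟨i, Or.inl ?_⟩⟩
    rw [inv_one, one_smul]
  mul_mem' := by
    rintro g h ⟨hg1, hg2⟩ ⟨hh1, hh2⟩
    constructor
    · intro i
      obtain ⟨j, hj⟩ := hh1 i
      obtain ⟨l, hl⟩ := hg1 j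
      refine ⟨l, ?_⟩
      rw [mul_smul]
      exact (hj.smul g).trans hl
    · intro i
      obtain ⟨j, hj⟩ := hg2 i
      obtain ⟨l, hl⟩ := hh2 j
      refine ⟨l, ?_⟩
      rw [mul_inv_rev, mul_smul]
      exact (hj.smul _).trans hl
  inv_mem' := by
    rintro g ⟨hg1, hg2⟩
    refine ⟨hg2, ?_⟩
    rw [inv_inv]
    exact hg1

/-- the pairs -/
def Prs : Type u := {P : Set V // ∃ i, P = {x | PMq x (b i)}}

theorem Prs.card_le [Finite V] : Finite (Prs b) ∧ Nat.card (Prs b) ≤ k := by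
  classical
  let f : Fin k → Prs b := fun i => ⟨{x | PMq x (b i)}, i, rfl⟩
  have hf : Function.Surjective f := by
    rintro ⟨P, i, rfl⟩
    exact ⟨i, rfl⟩
  have hfin : Finite (Prs b) := Finite.of_surjective f hf
  refine ⟨hfin, ?_⟩
  have := Nat.card_le_card_of_surjective f hf
  rwa [Nat.card_fin] at this

theorem Prs.smul_mem (g : (monS b : Subgroup G)) (P : Set V) (hP : ∃ i, P = {x | PMq x (b i)}) :
    ∃ i, (g : G) • P = {x | PMq x (b i)} := by
  obtain ⟨i, rfl⟩ := hP
  obtain ⟨j, hj⟩ := g.2.1 i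
  refine ⟨j, ?_⟩
  ext x
  rw [Set.mem_smul_set_iff_inv_smul_mem]
  constructor
  · intro h
    have h1 := PMq.smul h (g : G)
    rw [smul_inv_smul] at h1
    exact h1.trans hj
  · intro h
    have h1 : PMq x ((g : G) • b i) := PMq.trans h hj.symm
    have h2 := h1.smul (g : G)⁻¹
    rwa [inv_smul_smul] at h2

noncomputable instance Prs.act : MulAction (monS b : Subgroup G) (Prs b) where
  smul g P := ⟨(g : G) • P.1, Prs.smul_mem b g P.1 P.2⟩
  one_smul P := Subtype.ext (one_smul G P.1)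
  mul_smul g h P := Subtype.ext (mul_smul (g : G) (h : G) P.1)

/-- the pair of a basis vector -/
def prs (i : Fin k) : Prs b := ⟨{x | PMq x (b i)}, i, rfl⟩

theorem prs_smul (g : (monS b : Subgroup G)) {i j : Fin k} (h : PMq ((g : G) • b i) (b j)) :
    g • prs b i = prs b j := by
  apply Subtype.ext
  change (g : G) • {x | PMq x (b i)} = {x | PMq x (b j)}
  ext x
  rw [Set.mem_smul_set_iff_inv_smul_mem]
  constructor
  · intro h1
    have h2 := PMq.smul h1 (g : G)
    rw [smul_inv_smul] at h2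
    exact h2.trans h
  · intro h1
    have h2 : PMq x ((g : G) • b i) := PMq.trans h1 h.symm
    have h3 := h2.smul (g : G)⁻¹
    rwa [inv_smul_smul] at h3

theorem prs_inj (hr2 : r ≠ 2) {i j : Fin k} (h : prs b i = prs b j) : i = j := by
  have h1 : b i ∈ (prs b j).1 := by
    rw [← h]
    exact Or.inl rfl
  exact pm_eq b hr2 h1

/-- property of index sets -/
def Good (G : Type v) [Group G] [DistribMulAction G V] (I : Set (Fin k)) : Prop :=
  ∀ g : G, g ∈ (monS b : Subgroup G) → (∀ i j, PMq (g • b i) (b j) → (i ∈ I ↔ j ∈ I)) →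
    ∀ x : V, g • x = x

theorem exists_good [Finite V] (hr2 : r ≠ 2) (hodd : Odd (Nat.card G)) (hk : 2 ≤ k)
    (hP : PP (Prs b)) : ∃ I : Set (Fin k), (∃ i j, i ≠ j ∧ i ∈ I ∧ j ∈ I) ∧ Good b G I := by
  have hfin : Finite G := Nat.finite_of_card_ne_zero (by
    intro h0; rw [h0] at hodd; exact absurd hodd (by decide))
  have hoddS : Odd (Nat.card (monS b : Subgroup G)) := by
    obtain ⟨c, hc⟩ := (monS b : Subgroup G).card_subgroup_dvd_card
    rw [hc] at hodd
    exact Nat.Odd.of_mul_left hodd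
  obtain ⟨D, hD⟩ := sep_of_PP hP (monS b : Subgroup G) hoddS
  set I0 : Set (Fin k) := {i | prs b i ∈ D} with hI0
  have hgood : Good b G I0 := by
    intro g hg h x
    apply triv_of_pm b hodd
    intro i
    have h1 : ∀ P : Prs b, (⟨g, hg⟩ : (monS b : Subgroup G)) • P = P := by
      apply hD
      rintro ⟨P, i, rfl⟩
      obtain ⟨j, hj⟩ := hg.1 i
      have h2 := h i j hj
      change prs b i ∈ D ↔ (⟨g, hg⟩ : (monS b : Subgroup G)) • prs b i ∈ D
      rw [prs_smul b ⟨g, hg⟩ hj]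
      exact h2
    obtain ⟨j, hj⟩ := hg.1 i
    have h3 := h1 (prs b i)
    rw [prs_smul b ⟨g, hg⟩ hj] at h3
    rw [prs_inj b hr2 h3] at hj
    exact hj
  have hcompl : ∀ I : Set (Fin k), Good b G I → Good b G Iᶜ := by
    intro I hI g hg h
    apply hI g hg
    intro i j hij
    have := h i j hij
    rw [Set.mem_compl_iff, Set.mem_compl_iff, not_iff_not] at this
    exact this
  by_cases h1 : ∃ i j, i ≠ j ∧ i ∈ I0 ∧ j ∈ I0
  · exact ⟨I0, h1, hgood⟩
  by_cases h2 : ∃ i j, i ≠ j ∧ i ∈ I0ᶜ ∧ j ∈ I0ᶜ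
  · exact ⟨I0ᶜ, h2, hcompl _ hgood⟩
  refine ⟨Set.univ, ⟨⟨0, by omega⟩, ⟨1, by omega⟩, by simp [Fin.ext_iff], trivial, trivial⟩, ?_⟩
  intro g hg _ x
  apply sq_triv hodd
  rw [← mul_smul]
  apply hgood (g * g) (mul_mem hg hg)
  intro i j hij
  rw [mul_smul] at hij
  obtain ⟨m, hm⟩ := hg.1 i
  obtain ⟨l, hl⟩ := hg.1 m
  have h3 : PMq (g • g • b i) (b l) := (hm.smul g).trans hl
  have h4 : j = l := pm_eq b hr2 (hij.symm.trans h3)
  subst h4
  have hinj : i ≠ m → m ≠ j := by
    intro him hmj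
    subst hmj
    apply him
    have h5 : PMq (g • b i) (g • b m) := hm.trans hl.symm
    have h6 := h5.smul g⁻¹
    rw [inv_smul_smul, inv_smul_smul] at h6
    exact pm_eq b hr2 h6
  by_cases him : i = m
  · subst him
    have h5 : j = i := pm_eq b hr2 (hl.symm.trans hm)
    rw [h5]
  · have hmj := hinj him
    have e1 : i ∈ I0 ↔ ¬ m ∈ I0 := by
      constructor
      · intro hi hm'
        exact h1 ⟨i, m, him, hi, hm'⟩
      · intro hm'
        by_contra hi
        exact h2 ⟨i, m, him, hi, hm'⟩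
    have e2 : j ∈ I0 ↔ ¬ m ∈ I0 := by
      constructor
      · intro hi hm'
        exact h1 ⟨j, m, hmj.symm, hi, hm'⟩
      · intro hm'
        by_contra hi
        exact h2 ⟨j, m, hmj.symm, hi, hm'⟩
    rw [e1, e2]

theorem QQ_map {D : Set V} {g : G} {t : V} (h : ∀ x, x ∈ D ↔ g • x + t ∈ D) {x : V}
    (hQ : QQ (r := r) D x) : QQ (r := r) D (g • x + t) := by
  obtain ⟨a, ha, a', ha', h1, h2, h3, h4, h5, h6⟩ := hQ
  have e : ∀ y : V, (2 : ZMod r) • (g • x + t) - (g • y + t) = g • ((2 : ZMod r) • x - y) + t := by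
    intro y
    rw [smul_sub, smul_zmod, smul_add, two_smul (ZMod r) t]
    abel
  have inj : ∀ y z : V, g • y + t = g • z + t → y = z := by
    intro y z hyz
    have := add_right_cancel hyz
    exact smul_left_cancel g this
  refine ⟨g • a + t, (h a).mp ha, g • a' + t, (h a').mp ha', ?_, ?_, ?_, ?_, ?_, ?_⟩
  · rw [e]; exact (h _).mp h1
  · rw [e]; exact (h _).mp h2
  · exact fun h7 => h3 (inj _ _ h7)
  · exact fun h7 => h4 (inj _ _ h7)
  · exact fun h7 => h5 (inj _ _ h7)
  · rw [e]; exact fun h7 => h6 (inj _ _ h7)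

theorem aff_main [Finite V] (hr2 : r ≠ 2) (_hodd : Odd (Nat.card G)) {I : Set (Fin k)}
    {i0 j0 : Fin k} (hij : i0 ≠ j0) (hi0 : i0 ∈ I) (hj0 : j0 ∈ I) (hI : Good b G I) (g : G) (t : V)
    (h : ∀ x, x ∈ DD b I ↔ g • x + t ∈ DD b I) : (∀ x : V, g • x = x) ∧ t = 0 := by
  have hzero : (0 : V) ∈ DD b I := ⟨i0, 0, by rw [zero_smul], Or.inl rfl⟩
  have ht : t = 0 := by
    have h1 := QQ_map (r := r) h (QQ_zero b hr2 hij hi0 hj0)
    rw [smul_zero, zero_add] at h1
    have h2 := (h 0).mp hzero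
    rw [smul_zero, zero_add] at h2
    exact QQ_eq_zero b hr2 h2 h1
  subst ht
  simp only [add_zero] at h
  refine ⟨?_, rfl⟩
  have hpm : ∀ g : G, (∀ x, x ∈ DD b I ↔ g • x ∈ DD b I) → ∀ i, ∃ j, PMq (g • b i) (b j) := by
    intro g h i
    have h1 : b i ∈ DD b I := ⟨i, 1, (one_smul _ _).symm, Or.inr (Or.inl rfl)⟩
    obtain ⟨j, c, hc, hc'⟩ := (h _).mp h1
    refine ⟨j, ?_⟩
    rcases hc' with rfl | rfl | ⟨rfl, -⟩
    · exfalso
      rw [zero_smul] at hc
      have : b i = 0 := by rwa [smul_eq_zero_iff_eq] at hc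
      exact b.ne_zero i this
    · left; rw [hc, one_smul]
    · right; rw [hc, neg_smul, one_smul]
  have hinv : ∀ x, x ∈ DD b I ↔ g⁻¹ • x ∈ DD b I := by
    intro x
    have := h (g⁻¹ • x)
    rw [smul_inv_smul] at this
    exact this.symm
  have hmem : ∀ g : G, (∀ x, x ∈ DD b I ↔ g • x ∈ DD b I) → ∀ i j, PMq (g • b i) (b j) →
      i ∈ I → j ∈ I := by
    intro g h i j hj hi
    have h1 : b i ∈ DD b I := ⟨i, 1, (one_smul _ _).symm, Or.inr (Or.inl rfl)⟩
    have h2 : (-1 : ZMod r) • b i ∈ DD b I := (neg_mem_DD b hr2).mpr hi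
    have h3 := (h _).mp h1
    have h4 := (h _).mp h2
    rw [neg_smul, one_smul, smul_neg] at h4
    apply (neg_mem_DD b hr2).mp
    rcases hj with h5 | h5
    · rw [h5] at h4
      rwa [neg_smul, one_smul]
    · rw [h5] at h3
      rwa [neg_smul, one_smul]
  apply hI g ⟨hpm g h, hpm g⁻¹ hinv⟩
  intro i j hj
  refine ⟨hmem g h i j hj, ?_⟩
  apply hmem g⁻¹ hinv j i
  have := hj.symm.smul g⁻¹
  rwa [inv_smul_smul] at this

theorem aff_one (hr2 : r ≠ 2) (hodd : Odd (Nat.card G)) (hk : k = 1) (g : G) (t : V)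
    (h : ∀ x, x ∈ ({x | x = 0 ∨ ∃ i, x = b i} : Set V) ↔
      g • x + t ∈ ({x | x = 0 ∨ ∃ i, x = b i} : Set V)) : (∀ x : V, g • x = x) ∧ t = 0 := by
  subst hk
  have hb0 : b 0 ≠ 0 := b.ne_zero 0
  have hD : ∀ x : V, x ∈ ({x | x = 0 ∨ ∃ i, x = b i} : Set V) ↔ x = 0 ∨ x = b 0 := by
    intro x
    rw [Set.mem_ofPred_eq]
    constructor
    · rintro (h | ⟨i, h⟩)
      · exact Or.inl h
      · rw [Subsingleton.elim i 0] at h
        exact Or.inr h
    · rintro (h | h)
      · exact Or.inl h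
      · exact Or.inr ⟨0, h⟩
  simp only [hD] at h
  have h0 := (h 0).mp (Or.inl rfl)
  have h1 := (h (b 0)).mp (Or.inr rfl)
  rw [smul_zero, zero_add] at h0
  rcases h0 with rfl | rfl
  · refine ⟨?_, rfl⟩
    rw [add_zero] at h1
    rcases h1 with h1 | h1
    · rw [smul_eq_zero_iff_eq] at h1
      exact absurd h1 hb0
    · apply triv_of_basis b
      intro i
      rw [Subsingleton.elim i 0]
      exact h1
  · exfalso
    rcases h1 with h1 | h1
    · have h2 : ∀ i, PMq (g • b i) (b i) := by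
        intro i
        rw [Subsingleton.elim i 0]
        exact Or.inr (eq_neg_of_add_eq_zero_left h1)
      have h3 := triv_of_pm b hodd g h2 (b 0)
      rw [h3] at h1
      have h4 : (2 : ZMod r) • b 0 = 0 := by rw [two_smul]; exact h1
      rcases smul_eq_zero.mp h4 with h5 | h5
      · exact two_ne hr2 h5
      · exact hb0 h5
    · have h2 : g • b 0 = 0 := by
        have := add_eq_right.mp h1
        exact this
      rw [smul_eq_zero_iff_eq] at h2
      exact hb0 h2

end aff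

theorem aff {V : Type u} [AddCommGroup V] [Finite V] [Nontrivial V] {r : ℕ} [hr : Fact r.Prime]
    (hr2 : r ≠ 2) [Module (ZMod r) V] {G : Type v} [Group G] [DistribMulAction G V]
    (hodd : Odd (Nat.card G))
    (hIH : ∀ (Ω : Type u) [Finite Ω], Nat.card Ω < Nat.card V → PP Ω) :
    ∃ D : Set V, ∀ (g : G) (t : V), (∀ x, x ∈ D ↔ g • x + t ∈ D) →
      (∀ v : V, g • v = v) ∧ t = 0 := by
  have : Module.Finite (ZMod r) V := Module.Finite.of_finite
  let b := Module.finBasis (ZMod r) V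
  have hpos : 0 < Module.finrank (ZMod r) V := Module.finrank_pos
  have hcard : Nat.card V = r ^ Module.finrank (ZMod r) V := by
    rw [Module.natCard_eq_pow_finrank (K := ZMod r) (V := V), Nat.card_zmod]
  by_cases hk : Module.finrank (ZMod r) V = 1
  · exact ⟨_, fun g t h => aff_one b hr2 hodd hk g t h⟩
  · obtain ⟨hfin, hle⟩ := Prs.card_le b
    have hlt : Nat.card (Prs b) < Nat.card V := by
      apply lt_of_le_of_lt hle
      rw [hcard]
      exact Nat.lt_pow_self hr.out.one_lt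
    obtain ⟨I, ⟨i, j, hij, hi, hj⟩, hI⟩ := exists_good (G := G) b hr2 hodd (by omega)
      (hIH (Prs b) hlt)
    exact ⟨DD b I, fun g t h => aff_main b hr2 hodd hij hi hj hI g t h⟩

end Cfsg.Agent.H62.TV
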