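import Cfsg.Agent.H62.TVB

/-!
Subsets with small setwise stabilizer in permutation groups of odd order, III (owner: helper62)
-/

set_option autoImplicit false
set_option linter.unusedSectionVars false
set_option linter.style.haveILetI false

namespace Cfsg.Agent.H62.TV

open scoped Pointwise
open MulAction

universe u v w

/-- the odd order theorem as a hypothesis -/
def FTH : Prop := ∀ (K : Type u) [Group K] [Finite K], Odd (Nat.card K) → Group.IsSolvable K

theorem odd_of_dvd' {a b : ℕ} (h : a ∣ b) (hb : Odd b) : Odd a := by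
  obtain ⟨c, rfl⟩ := h
  exact Nat.Odd.of_mul_left hb

theorem odd_subgroup {G : Type v} [Group G] (H : Subgroup G) (hodd : Odd (Nat.card G)) :
    Odd (Nat.card H) := odd_of_dvd' H.card_subgroup_dvd_card hodd

/-- an invariant set -/
def invSet {G : Type v} [Group G] {Ω : Type u} [MulAction G Ω] (S : Set Ω)
    (hS : ∀ (g : G) (x : Ω), x ∈ S → g • x ∈ S) : SubMulAction G Ω := ⟨S, fun {g x} hx => hS g x hx⟩

theorem step_intrans {Ω : Type u} [Finite Ω]
    (hIH : ∀ (Ω' : Type u) [Finite Ω'], Nat.card Ω' < Nat.card Ω → PP Ω')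
    {G : Type v} [Group G] [MulAction G Ω] (hodd : Odd (Nat.card G)) (S : Set Ω)
    (hS : ∀ (g : G) (x : Ω), x ∈ S → g • x ∈ S) (hne : S.Nonempty) (hne' : S ≠ Set.univ) :
    Sep G Ω := by
  have hSc : ∀ (g : G) (x : Ω), x ∈ Sᶜ → g • x ∈ Sᶜ := by
    intro g x hx h
    apply hx
    have := hS g⁻¹ _ h
    rwa [inv_smul_smul] at this
  have hcard : Nat.card S + Nat.card (Sᶜ : Set Ω) = Nat.card Ω := by
    rw [Nat.card_coe_set_eq, Nat.card_coe_set_eq]
    exact Set.ncard_add_ncard_compl S
  have hne1 : 0 < Nat.card S := by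
    have : Nonempty S := hne.to_subtype
    exact Nat.card_pos
  have hne2 : 0 < Nat.card (Sᶜ : Set Ω) := by
    have : Nonempty (Sᶜ : Set Ω) := (Set.nonempty_compl.mpr hne').to_subtype
    exact Nat.card_pos
  obtain ⟨D1, hD1⟩ := sep_of_PP (hIH (invSet S hS) (show Nat.card S < _ by omega)) G hodd
  obtain ⟨D2, hD2⟩ := sep_of_PP (hIH (invSet Sᶜ hSc) (show Nat.card (Sᶜ : Set Ω) < _ by omega))
    G hodd
  refine ⟨{x | (∃ hx : x ∈ S, (⟨x, hx⟩ : invSet S hS) ∈ D1) ∨
    (∃ hx : x ∈ Sᶜ, (⟨x, hx⟩ : invSet Sᶜ hSc) ∈ D2)}, fun g hg x => ?_⟩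
  by_cases hx : x ∈ S
  · have h1 := hD1 g (by
      rintro ⟨y, hy⟩
      have h2 := hg y
      simp only [Set.mem_ofPred_eq] at h2
      constructor
      · intro h
        rcases h2.mp (Or.inl ⟨hy, h⟩) with ⟨_, h3⟩ | ⟨h3, _⟩
        · exact h3
        · exact absurd (hS g y hy) h3
      · intro h
        rcases h2.mpr (Or.inl ⟨hS g y hy, h⟩) with ⟨_, h3⟩ | ⟨h3, _⟩
        · exact h3
        · exact absurd hy h3) ⟨x, hx⟩
    exact congrArg Subtype.val h1
  · have h1 := hD2 g (by
      rintro ⟨y, hy⟩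
      have h2 := hg y
      simp only [Set.mem_ofPred_eq] at h2
      constructor
      · intro h
        rcases h2.mp (Or.inr ⟨hy, h⟩) with ⟨h3, _⟩ | ⟨_, h3⟩
        · exact absurd h3 (hSc g y hy)
        · exact h3
      · intro h
        rcases h2.mpr (Or.inr ⟨hSc g y hy, h⟩) with ⟨h3, _⟩ | ⟨_, h3⟩
        · exact absurd h3 hy
        · exact h3) ⟨x, hx⟩
    exact congrArg Subtype.val h1

theorem step_imprim {Ω : Type u} [Finite Ω]
    (hIH : ∀ (Ω' : Type u) [Finite Ω'], Nat.card Ω' < Nat.card Ω → PP Ω')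
    {G : Type u} [Group G] [MulAction G Ω] [IsPretransitive G Ω] (hodd : Odd (Nat.card G))
    (B : Set Ω) (hB : IsBlock G B) (hB1 : ¬ B.Subsingleton) (hB2 : B ≠ Set.univ) :
    Sep G Ω := by
  classical
  have hfinG : Finite G := Nat.finite_of_card_ne_zero (by
    intro h0; rw [h0] at hodd; exact absurd hodd (by decide))
  have hBnt : B.Nontrivial := Set.not_subsingleton_iff.mp hB1
  have hBne : B.Nonempty := hBnt.nonempty
  set H := stabilizer G B with hH
  have hHB : ∀ (h : H) (x : Ω), x ∈ B → h • x ∈ B := by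
    intro h x hx
    have h1 : (h : G) • B = B := h.2
    rw [← h1]
    exact Set.smul_mem_smul_set hx
  have hcardB : B.ncard * (orbit G B).ncard = Nat.card Ω := hB.ncard_block_mul_ncard_orbit_eq hBne
  have hB2' : 2 ≤ B.ncard := (Set.one_lt_ncard (Set.toFinite B)).mpr hBnt
  have hindex : Nat.card (G ⧸ H) = (orbit G B).ncard := by
    rw [← Nat.card_coe_set_eq]
    exact (Nat.card_congr (MulAction.orbitEquivQuotientStabilizer G B)).symm
  have hΩodd : Odd (Nat.card Ω) := by
    obtain ⟨x, -⟩ := hBne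
    apply odd_of_dvd' _ hodd
    rw [← index_stabilizer_of_transitive G x]
    exact Subgroup.index_dvd_card _
  have hBodd : Odd B.ncard := odd_of_dvd' (hB.ncard_dvd_card hBne) hΩodd
  have hpos : 0 < (orbit G B).ncard := by
    rcases Nat.eq_zero_or_pos (orbit G B).ncard with h | h
    · rw [h, mul_zero] at hcardB
      rw [← hcardB] at hΩodd
      exact absurd hΩodd (by decide)
    · exact h
  have hlt1 : Nat.card (G ⧸ H) < Nat.card Ω := by
    rw [hindex, ← hcardB]
    nlinarith
  have hlt2 : Nat.card (invSet B hHB) < Nat.card Ω := by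
    change Nat.card B < _
    rw [Nat.card_coe_set_eq]
    have h1 := Set.ncard_lt_ncard (Set.ssubset_univ_iff.mpr hB2)
    rwa [Set.ncard_univ] at h1
  have hHodd : Odd (Nat.card H) := odd_subgroup H hodd
  obtain ⟨E, hE⟩ := sep_of_PP (hIH (invSet B hHB) hlt2) H hHodd
  obtain ⟨D, hD⟩ := sep_of_PP (hIH (G ⧸ H) hlt1) G hodd
  -- the two colours
  set p : Set Ω := {x | ∃ hx : x ∈ B, (⟨x, hx⟩ : invSet B hHB) ∈ E} with hp
  set q : Set Ω := B \ p with hq
  have hpB : p ⊆ B := by rintro x ⟨hx, -⟩; exact hx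
  have hpq : ∀ h : H, h • p ≠ q := by
    intro h heq
    have h1 : q.ncard = p.ncard := by rw [← heq]; exact Set.ncard_smul_set h p
    have h2 : q.ncard + p.ncard = B.ncard := Set.ncard_sdiff_add_ncard_of_subset hpB (Set.toFinite _)
    rw [h1] at h2
    rw [← h2] at hBodd
    exact absurd hBodd (by rw [Nat.not_odd_iff_even]; exact ⟨_, rfl⟩)
  have hHtriv : ∀ h : H, (h • p = p ∨ h • q = q) → ∀ x ∈ B, h • x = x := by
    intro h hh
    have h1 : ∀ x ∈ B, (x ∈ p ↔ h • x ∈ p) := by
      intro x hx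
      rcases hh with hh | hh
      · conv_rhs => rw [← hh]
        exact (Set.smul_mem_smul_set_iff).symm
      · have h2 : x ∈ q ↔ h • x ∈ q := by
          conv_rhs => rw [← hh]
          exact (Set.smul_mem_smul_set_iff).symm
        have h3 : h • x ∈ B := hHB h x hx
        rw [hq, Set.mem_sdiff, Set.mem_sdiff] at h2
        tauto
    intro x hx
    have h4 := hE h (by
      rintro ⟨y, hy⟩
      have h5 := h1 y hy
      rw [hp, Set.mem_ofPred_eq, Set.mem_ofPred_eq] at h5
      constructor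
      · intro h6
        obtain ⟨_, h7⟩ := h5.mp ⟨hy, h6⟩
        exact h7
      · intro h6
        obtain ⟨_, h7⟩ := h5.mpr ⟨hHB h y hy, h6⟩
        exact h7) ⟨x, hx⟩
    exact congrArg Subtype.val h4
  let F : G ⧸ H → Set Ω := fun x => if x ∈ D then p else q
  have hFB : ∀ β, F β ⊆ B := by
    intro β
    simp only [F]
    split_ifs
    · exact hpB
    · exact Set.sdiff_subset
  set W : Set Ω := {x | ∃ β : G ⧸ H, (β.out)⁻¹ • x ∈ F β} with hW
  have hWF : ∀ (β : G ⧸ H) (y : Ω), y ∈ B → (β.out • y ∈ W ↔ y ∈ F β) := by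
    intro β y hy
    constructor
    · rintro ⟨γ, hγ⟩
      have h1 : γ.out • B = β.out • B := by
        by_contra hne
        have h2 := hB hne
        have e1 : β.out • y ∈ γ.out • B := by
          rw [Set.mem_smul_set_iff_inv_smul_mem]
          exact hFB γ hγ
        exact (Set.disjoint_left.mp h2) e1 (Set.smul_mem_smul_set hy)
      have h2 : γ = β := by
        rw [← QuotientGroup.out_eq' γ, ← QuotientGroup.out_eq' β, QuotientGroup.eq]
        change (γ.out)⁻¹ * β.out ∈ stabilizer G B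
        rw [mem_stabilizer_iff, mul_smul, ← h1, inv_smul_smul]
      subst h2
      rwa [inv_smul_smul] at hγ
    · intro h
      refine ⟨β, ?_⟩
      rwa [inv_smul_smul]
  refine ⟨W, fun g hg => ?_⟩
  have hkey : ∀ x : G ⧸ H, F (g • x) = (⟨_, out_mem H g x⟩ : H) • F x := by
    intro x
    ext z
    set h : H := ⟨_, out_mem H g x⟩ with hh
    rw [Set.mem_smul_set_iff_inv_smul_mem]
    by_cases hz : z ∈ B
    · have hz' : h⁻¹ • z ∈ B := hHB _ _ hz
      rw [← hWF _ z hz, ← hWF _ _ hz']
      have e : g • (x.out • h⁻¹ • z) = (g • x).out • z := by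
        change g • (x.out • (((g • x).out)⁻¹ * g * x.out)⁻¹ • z) = _
        rw [← mul_smul, ← mul_smul]
        congr 1
        group
      rw [← e]
      exact (hg _).symm
    · constructor
      · intro h1; exact absurd (hFB _ h1) hz
      · intro h1
        exfalso
        apply hz
        have h2 := hHB h _ (hFB _ h1)
        rwa [smul_inv_smul] at h2
  obtain ⟨h1, h2⟩ := wreath H p q hpq D hD F (fun x hx => if_pos hx) (fun x hx => if_neg hx) g hkey
  intro x
  obtain ⟨b, hb⟩ := hBne
  obtain ⟨g0, hg0⟩ := exists_smul_eq G b x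
  set β : G ⧸ H := QuotientGroup.mk g0 with hβ
  have hy : (β.out)⁻¹ • x ∈ B := by
    have h3 : (β.out)⁻¹ * g0 ∈ H := by
      rw [← QuotientGroup.eq, QuotientGroup.out_eq']
    rw [← hg0, ← mul_smul]
    exact hHB ⟨_, h3⟩ b hb
  have h3 : (⟨_, out_mem H g β⟩ : H) • p = p ∨ (⟨_, out_mem H g β⟩ : H) • q = q := by
    have h4 := h2 β
    by_cases hβD : β ∈ D
    · left
      simpa only [F, if_pos hβD] using h4
    · right
      simpa only [F, if_neg hβD] using h4
  have h4 := hHtriv _ h3 _ hy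
  change (((g • β).out)⁻¹ * g * β.out) • (β.out)⁻¹ • x = (β.out)⁻¹ • x at h4
  rw [h1 β, mul_smul, smul_inv_smul, mul_smul] at h4
  exact smul_left_cancel _ h4

theorem step_prim (hFT : FTH.{u}) {Ω : Type u} [Finite Ω] [Nontrivial Ω]
    (hIH : ∀ (Ω' : Type u) [Finite Ω'], Nat.card Ω' < Nat.card Ω → PP Ω')
    {G : Type u} [Group G] [Finite G] [MulAction G Ω] [IsPreprimitive G Ω]
    (hfaith : ∀ g : G, (∀ x : Ω, g • x = x) → g = 1) (hodd : Odd (Nat.card G)) :
    Sep G Ω := by
  classical
  have hsol : Group.IsSolvable G := hFT G hodd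
  have hGne : (⊤ : Subgroup G) ≠ ⊥ := by
    intro h
    obtain ⟨x, y, hxy⟩ := exists_pair_ne Ω
    obtain ⟨g, hg⟩ := exists_smul_eq G x y
    have h1 : g ∈ (⊤ : Subgroup G) := trivial
    rw [h, Subgroup.mem_bot] at h1
    rw [h1, one_smul] at hg
    exact hxy hg
  obtain ⟨T, hTn, -, hT1, hmin⟩ := Solv.exists_minimal_normal (⊤ : Subgroup G) inferInstance hGne
  have hsolT : Group.IsSolvable T := inferInstance
  obtain ⟨hTc, r, hr, hTr⟩ := Solv.minimal_normal_of_solvable T hsolT hT1 hmin
  have hcomm : ∀ a ∈ T, ∀ b ∈ T, a * b = b * a := fun a ha b hb =>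
    Solv.comm_of_isMulCommutative hTc ha hb
  haveI : Fact r.Prime := ⟨hr⟩
  have htrans : IsPretransitive T Ω := by
    apply IsQuasiPreprimitive.isPretransitive_of_normal (G := G)
    intro h
    apply hT1
    rw [eq_bot_iff]
    intro t ht
    rw [Subgroup.mem_bot]
    apply hfaith
    intro x
    have hx : x ∈ fixedPoints T Ω := by rw [h]; trivial
    exact hx ⟨t, ht⟩
  obtain ⟨x0⟩ : Nonempty Ω := inferInstance
  have hreg : ∀ t : T, t • x0 = x0 → t = 1 := by
    intro t ht
    apply Subtype.ext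
    apply hfaith
    intro x
    obtain ⟨s, hs⟩ := exists_smul_eq T x0 x
    rw [← hs]
    change (t : G) • (s : G) • x0 = (s : G) • x0
    rw [← mul_smul, hcomm _ t.2 _ s.2, mul_smul]
    congr 1
  have hreg' : ∀ s t : T, s • x0 = t • x0 → s = t := by
    intro s t h
    have h1 : (t⁻¹ * s) • x0 = x0 := by rw [mul_smul, h, inv_smul_smul]
    have h2 := hreg _ h1
    rw [inv_mul_eq_one] at h2
    exact h2.symm
  have hr2 : r ≠ 2 := by
    rintro rfl
    obtain ⟨t, ht, ht1⟩ := (Subgroup.ne_bot_iff_exists_ne_one.mp hT1) |>.elim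
      (fun t ht => (⟨t.1, t.2, fun h => ht (Subtype.ext h)⟩ : ∃ t : G, t ∈ T ∧ t ≠ 1))
    have h1 : orderOf t = 2 := orderOf_eq_prime (hTr t ht) ht1
    have h2 : 2 ∣ Nat.card G := by rw [← h1]; exact orderOf_dvd_natCard t
    exact (Nat.not_even_iff_odd.mpr hodd) (even_iff_two_dvd.mpr h2)
  letI cg : CommGroup T := { (inferInstance : Group T) with
    mul_comm := fun a b => Subtype.ext (hcomm _ a.2 _ b.2) }
  letI md : Module (ZMod r) (Additive T) := AddCommGroup.zmodModule (fun x => by
    change (Additive.toMul x) ^ r = 1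
    exact Subtype.ext (hTr _ (Additive.toMul x).2))
  letI act : DistribMulAction G (Additive T) :=
    { smul := fun g t => Additive.ofMul (⟨g * (Additive.toMul t : T) * g⁻¹,
        hTn.conj_mem _ (Additive.toMul t).2 g⟩ : T)
      one_smul := fun t => Subtype.ext (by
        change 1 * ((Additive.toMul t : T) : G) * 1⁻¹ = ((Additive.toMul t : T) : G)
        group)
      mul_smul := fun a b t => Subtype.ext (by
        change (a * b) * ((Additive.toMul t : T) : G) * (a * b)⁻¹ =
          a * (b * ((Additive.toMul t : T) : G) * b⁻¹) * a⁻¹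
        group)
      smul_zero := fun a => Subtype.ext (by
        change a * 1 * a⁻¹ = 1
        group)
      smul_add := fun a s t => Subtype.ext (by
        change a * (((Additive.toMul s : T) : G) * ((Additive.toMul t : T) : G)) * a⁻¹ =
          (a * ((Additive.toMul s : T) : G) * a⁻¹) * (a * ((Additive.toMul t : T) : G) * a⁻¹)
        group) }
  have hnt : Nontrivial (Additive T) := by
    have : Nontrivial T := (Subgroup.nontrivial_iff_ne_bot T).mpr hT1
    exact this
  have hcard : Nat.card (Additive T) ≤ Nat.card Ω := by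
    apply Nat.card_le_card_of_injective (fun t : Additive T => (Additive.toMul t : T) • x0)
    intro s t h
    exact hreg' _ _ h
  obtain ⟨D, hD⟩ := aff (V := Additive T) (G := G) hr2 hodd
    (fun Ω' _ h => hIH Ω' (lt_of_lt_of_le h hcard))
  refine ⟨{x | ∃ t : T, t • x0 = x ∧ Additive.ofMul t ∈ D}, fun g hg => ?_⟩
  obtain ⟨t1, ht1⟩ := exists_smul_eq T x0 (g • x0)
  have hconj : ∀ t : T, g • (t • x0) =
      ((⟨g * (t : G) * g⁻¹, hTn.conj_mem _ t.2 g⟩ : T) * t1) • x0 := by
    intro t
    rw [mul_smul, ht1]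
    change g • (t : G) • x0 = (g * (t : G) * g⁻¹) • g • x0
    rw [← mul_smul, ← mul_smul]
    congr 1
    group
  have hiff : ∀ t : T, t • x0 ∈ {x | ∃ t : T, t • x0 = x ∧ Additive.ofMul t ∈ D} ↔
      Additive.ofMul t ∈ D := by
    intro t
    constructor
    · rintro ⟨s, hs, hs'⟩
      rw [← hreg' _ _ hs]
      exact hs'
    · intro h
      exact ⟨t, rfl, h⟩
  obtain ⟨h1, h2⟩ := hD g (Additive.ofMul t1) (by
    intro x
    have h3 := hg ((Additive.toMul x : T) • x0)
    rw [hconj, hiff, hiff] at h3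
    exact h3)
  have h3 : t1 = 1 := h2
  intro x
  obtain ⟨t, rfl⟩ := exists_smul_eq T x0 x
  rw [hconj, h3, mul_one]
  congr 1
  exact h1 (Additive.ofMul t)

theorem PP_all (hFT : FTH.{u}) : ∀ (n : ℕ) (Ω : Type u) [Finite Ω], Nat.card Ω = n → PP Ω := by
  intro n
  induction n using Nat.strong_induction_on with
  | _ n ih =>
  intro Ω _ hn G hodd
  have hIH : ∀ (Ω' : Type u) [Finite Ω'], Nat.card Ω' < Nat.card Ω → PP Ω' := by
    intro Ω' _ h
    rw [hn] at h
    exact ih _ h Ω' rfl
  rcases subsingleton_or_nontrivial Ω with hs | hs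
  · exact ⟨∅, fun g _ x => Subsingleton.elim _ _⟩
  by_cases htr : IsPretransitive G Ω
  · by_cases hpr : IsPreprimitive G Ω
    · apply step_prim hFT hIH _ hodd
      intro g h
      apply Subtype.ext
      ext x
      exact h x
    · have h1 : ∃ B : Set Ω, IsBlock G B ∧ ¬ IsTrivialBlock B := by
        by_contra h
        push Not at h
        exact hpr ⟨fun {B} hB => h B hB⟩
      obtain ⟨B, hB, hB'⟩ := h1
      unfold IsTrivialBlock at hB'
      push Not at hB'
      exact step_imprim hIH hodd B hB (Set.not_subsingleton_iff.mpr hB'.1) hB'.2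
  · obtain ⟨x⟩ : Nonempty Ω := inferInstance
    apply step_intrans hIH hodd (orbit G x)
    · intro g y hy
      obtain ⟨h, rfl⟩ := hy
      exact ⟨g * h, mul_smul g h x⟩
    · exact ⟨x, mem_orbit_self x⟩
    · intro h
      apply htr
      constructor
      intro y z
      have hy : y ∈ orbit G x := by rw [h]; trivial
      have hz : z ∈ orbit G x := by rw [h]; trivial
      obtain ⟨a, rfl⟩ := hy
      obtain ⟨b, rfl⟩ := hz
      exact ⟨b * a⁻¹, by rw [← mul_smul]; congr 1; group⟩

end Cfsg.Agent.H62.TV
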