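import Cfsg.Agent.H62.TVC

/-!
Pairs of vectors with trivial common stabilizer: reducible and imprimitive modules (owner: helper62)
-/

set_option autoImplicit false
set_option linter.unusedSectionVars false
set_option linter.style.haveILetI false

namespace Cfsg.Agent.H62.TV

open scoped Pointwise
open MulAction

universe u v w

/-- the stabilizer of the pair acts trivially -/
def Fx (G : Type v) (V : Type u) [Group G] [AddCommGroup V] [DistribMulAction G V] (p : V × V) :
    Prop := ∀ g : G, g • p = p → ∀ v : V, g • v = v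

/-- two such pairs in different orbits -/
def P2 (G : Type v) (V : Type u) [Group G] [AddCommGroup V] [DistribMulAction G V] : Prop :=
  ∃ p q : V × V, Fx G V p ∧ Fx G V q ∧ ∀ g : G, g • p ≠ q

/-- complete reducibility -/
def CR (G : Type v) (V : Type u) [Group G] [AddCommGroup V] [DistribMulAction G V] : Prop :=
  ∀ U : AddSubgroup V, (∀ g : G, ∀ x ∈ U, g • x ∈ U) →
    ∃ W : AddSubgroup V, (∀ g : G, ∀ x ∈ W, g • x ∈ W) ∧ U ⊓ W = ⊥ ∧ U ⊔ W = ⊤

/-- irreducibility -/
def Irr (G : Type v) (V : Type u) [Group G] [AddCommGroup V] [DistribMulAction G V] : Prop :=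
  ∀ U : AddSubgroup V, (∀ g : G, ∀ x ∈ U, g • x ∈ U) → U = ⊥ ∨ U = ⊤

theorem Irr.cr {G : Type v} {V : Type u} [Group G] [AddCommGroup V] [DistribMulAction G V]
    (h : Irr G V) : CR G V := by
  intro U hU
  rcases h U hU with rfl | rfl
  · exact ⟨⊤, fun _ _ _ => trivial, by simp, by simp⟩
  · exact ⟨⊥, fun g x hx => by
      rw [AddSubgroup.mem_bot] at hx ⊢
      rw [hx, smul_zero], by simp, by simp⟩

/-- the statement for all linear groups on `V` -/
def PV (V : Type u) [AddCommGroup V] : Prop :=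
  ∀ G : Subgroup (AddMonoid.End V)ˣ, Odd (Nat.card G) → CR G V → P2 G V

theorem p2_of_PV {V : Type u} [AddCommGroup V] (h : PV V) (G : Type v) [Group G]
    [DistribMulAction G V] (hodd : Odd (Nat.card G)) (hcr : CR G V) : P2 G V := by
  have hfin : Finite G := Nat.finite_of_card_ne_zero (by
    intro h0; rw [h0] at hodd; exact absurd hodd (by decide))
  let φ : G →* (AddMonoid.End V)ˣ := (DistribMulAction.toAddMonoidEnd G V).toHomUnits
  have hφ : ∀ (g : G) (x : V), (⟨φ g, ⟨g, rfl⟩⟩ : φ.range) • x = g • x := fun _ _ => rfl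
  have h1 : Odd (Nat.card φ.range) :=
    odd_of_dvd' (Subgroup.card_dvd_of_surjective φ.rangeRestrict φ.rangeRestrict_surjective) hodd
  have h2 : CR φ.range V := by
    intro U hU
    obtain ⟨W, hW, h3, h4⟩ := hcr U (fun g x hx => hU ⟨φ g, ⟨g, rfl⟩⟩ x hx)
    refine ⟨W, ?_, h3, h4⟩
    rintro ⟨_, ⟨g, rfl⟩⟩ x hx
    exact hW g x hx
  obtain ⟨p, q, hp, hq, hpq⟩ := h φ.range h1 h2
  exact ⟨p, q, fun g hg x => hp ⟨φ g, ⟨g, rfl⟩⟩ hg x, fun g hg x => hq ⟨φ g, ⟨g, rfl⟩⟩ hg x,
    fun g hg => hpq ⟨φ g, ⟨g, rfl⟩⟩ hg⟩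

section sub

variable {G : Type v} {V : Type u} [Group G] [AddCommGroup V] [DistribMulAction G V]

/-- the action on an invariant subgroup -/
@[reducible] def subAct (U : AddSubgroup V) (hU : ∀ g : G, ∀ x ∈ U, g • x ∈ U) :
    DistribMulAction G U where
  smul g x := ⟨g • (x : V), hU g x x.2⟩
  one_smul x := Subtype.ext (one_smul G (x : V))
  mul_smul g h x := Subtype.ext (mul_smul g h (x : V))
  smul_zero g := Subtype.ext (smul_zero g)
  smul_add g x y := Subtype.ext (smul_add g (x : V) y)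

theorem cr_sub (hcr : CR G V) (U : AddSubgroup V) (hU : ∀ g : G, ∀ x ∈ U, g • x ∈ U) :
    @CR G U _ _ (subAct U hU) := by
  letI := subAct U hU
  intro U' hU'
  have hinv : ∀ g : G, ∀ x ∈ U'.map U.subtype, g • x ∈ U'.map U.subtype := by
    rintro g _ ⟨y, hy, rfl⟩
    exact ⟨g • y, hU' g y hy, rfl⟩
  obtain ⟨W, hW, h1, h2⟩ := hcr _ hinv
  refine ⟨W.addSubgroupOf U, ?_, ?_, ?_⟩
  · intro g x hx
    rw [AddSubgroup.mem_addSubgroupOf] at hx ⊢
    exact hW g _ hx
  · rw [eq_bot_iff]
    rintro x ⟨hx1, hx2⟩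
    have hx3 : (x : V) ∈ W := AddSubgroup.mem_addSubgroupOf.mp hx2
    have h3 : (x : V) ∈ (U'.map U.subtype) ⊓ W := ⟨⟨x, hx1, rfl⟩, hx3⟩
    rw [h1, AddSubgroup.mem_bot] at h3
    rw [AddSubgroup.mem_bot]
    exact Subtype.ext h3
  · rw [eq_top_iff]
    intro x _
    have h3 : (x : V) ∈ (U'.map U.subtype) ⊔ W := by rw [h2]; trivial
    obtain ⟨_, ⟨a, ha, rfl⟩, b, hb, hab⟩ := AddSubgroup.mem_sup.mp h3
    have hbU : b ∈ U := by
      have : b = (x : V) - (a : V) := by
        rw [← hab]; change b = (a : V) + b - a; abel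
      rw [this]
      exact U.sub_mem x.2 a.2
    rw [AddSubgroup.mem_sup]
    exact ⟨a, ha, ⟨b, hbU⟩, hb, Subtype.ext hab⟩

theorem direct_eq {U W : AddSubgroup V} (h : U ⊓ W = ⊥) {a a' b b' : V} (ha : a ∈ U) (ha' : a' ∈ U)
    (hb : b ∈ W) (hb' : b' ∈ W) (hab : a + b = a' + b') : a = a' ∧ b = b' := by
  have h1 : a - a' = b' - b := by
    rw [sub_eq_sub_iff_add_eq_add, hab, add_comm]
  have h2 : a - a' ∈ U ⊓ W := ⟨U.sub_mem ha ha', by rw [h1]; exact W.sub_mem hb' hb⟩
  rw [h, AddSubgroup.mem_bot] at h2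
  have h3 : a = a' := sub_eq_zero.mp h2
  refine ⟨h3, ?_⟩
  rw [h3] at hab
  exact add_left_cancel hab

theorem step_red [Finite V]
    (hIH : ∀ (V' : Type u) [AddCommGroup V'] [Finite V'] [Nontrivial V'],
      Nat.card V' < Nat.card V → PV V')
    (hodd : Odd (Nat.card G)) (hcr : CR G V) (U : AddSubgroup V)
    (hU : ∀ g : G, ∀ x ∈ U, g • x ∈ U) (hU1 : U ≠ ⊥) (hU2 : U ≠ ⊤) : P2 G V := by
  obtain ⟨W, hW, h1, h2⟩ := hcr U hU
  have hW1 : W ≠ ⊥ := by
    rintro rfl
    exact hU2 (by simpa using h2)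
  have hW2 : W ≠ ⊤ := by
    rintro rfl
    exact hU1 (by simpa using h1)
  have hlt : ∀ U : AddSubgroup V, U ≠ ⊤ → Nat.card U < Nat.card V := by
    intro U hU
    apply lt_of_le_of_ne (Nat.card_le_card_of_injective _ U.subtype_injective)
    intro h
    exact hU (AddSubgroup.eq_top_of_card_eq U h)
  letI a1 := subAct U hU
  letI a2 := subAct W hW
  haveI : Nontrivial U := (AddSubgroup.nontrivial_iff_ne_bot U).mpr hU1
  haveI : Nontrivial W := (AddSubgroup.nontrivial_iff_ne_bot W).mpr hW1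
  obtain ⟨p, q, hp, hq, hpq⟩ := p2_of_PV (hIH U (hlt U hU2)) G hodd (cr_sub hcr U hU)
  obtain ⟨s, -, hs, -, -⟩ := p2_of_PV (hIH W (hlt W hW2)) G hodd (cr_sub hcr W hW)
  have hdir : ∀ (g : G) (p q : U × U), g • (((p.1 : V) + (s.1 : V), (p.2 : V) + (s.2 : V)) : V × V) =
      (((q.1 : V) + (s.1 : V), (q.2 : V) + (s.2 : V)) : V × V) → g • p = q ∧ g • s = s := by
    intro g p q h
    have h3 := congrArg Prod.fst h
    have h4 := congrArg Prod.snd h
    simp only [Prod.smul_mk, smul_add] at h3 h4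
    obtain ⟨e1, e2⟩ := direct_eq h1 (hU g _ p.1.2) q.1.2 (hW g _ s.1.2) s.1.2 h3
    obtain ⟨e3, e4⟩ := direct_eq h1 (hU g _ p.2.2) q.2.2 (hW g _ s.2.2) s.2.2 h4
    exact ⟨Prod.ext (Subtype.ext e1) (Subtype.ext e3), Prod.ext (Subtype.ext e2) (Subtype.ext e4)⟩
  have hfx : ∀ p : U × U, Fx G U p →
      Fx G V (((p.1 : V) + (s.1 : V), (p.2 : V) + (s.2 : V)) : V × V) := by
    intro p hp g hg x
    obtain ⟨h3, h4⟩ := hdir g p p hg
    have h5 := hp g h3
    have h6 := hs g h4
    have hx : x ∈ U ⊔ W := by rw [h2]; trivial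
    obtain ⟨a, ha, b, hb, rfl⟩ := AddSubgroup.mem_sup.mp hx
    rw [smul_add]
    congr 1
    · exact congrArg Subtype.val (h5 ⟨a, ha⟩)
    · exact congrArg Subtype.val (h6 ⟨b, hb⟩)
  exact ⟨_, _, hfx p hp, hfx q hq, fun g hg => hpq g (hdir g p q hg).1⟩

end sub

theorem odd_no_swap {X : Type w} [Finite X] (hodd : Odd (Nat.card X)) (f : X ≃ X) (D : Set X)
    (h : ∀ x, x ∈ D ↔ f x ∉ D) : False := by
  have h1 : f '' D = Dᶜ := by
    ext y
    rw [Set.mem_compl_iff]
    constructor
    · rintro ⟨x, hx, rfl⟩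
      exact (h x).mp hx
    · intro hy
      refine ⟨f.symm y, (h _).mpr ?_, f.apply_symm_apply y⟩
      rwa [f.apply_symm_apply]
  have h2 : (f '' D).ncard = D.ncard := Set.ncard_image_of_injective D f.injective
  have h3 := Set.ncard_add_ncard_compl D
  rw [← h1, h2] at h3
  rw [← h3] at hodd
  exact (Nat.not_even_iff_odd.mpr hodd) ⟨_, rfl⟩

section ind

variable {G : Type v} {V : Type u} [Group G] [AddCommGroup V] [DistribMulAction G V]
  (W : AddSubgroup V)

theorem stab_mem (h : stabilizer G W) (x : V) (hx : x ∈ W) : (h : G) • x ∈ W := by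
  have h1 : (h : G) • W = W := h.2
  have h2 : (h : G) • x ∈ (h : G) • W := AddSubgroup.smul_mem_pointwise_smul x _ W hx
  exact Eq.mp (congrArg (fun K : AddSubgroup V => (h : G) • x ∈ K) h1) h2

noncomputable instance actW : DistribMulAction (stabilizer G W) W :=
  subAct (G := stabilizer G W) W (fun h x hx => stab_mem W h x hx)

theorem actW_coe (h : stabilizer G W) (x : W) : ((h • x : W) : V) = (h : G) • (x : V) := rfl

variable [Fintype (G ⧸ stabilizer G W)]

/-- the sum of the components -/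
noncomputable def Ph (x : G ⧸ stabilizer G W → W) : V := ∑ β, β.out • (x β : V)

theorem Ph_sub (x y : G ⧸ stabilizer G W → W) : Ph W (x - y) = Ph W x - Ph W y := by
  simp only [Ph, Pi.sub_apply, AddSubgroup.coe_sub, smul_sub, Finset.sum_sub_distrib]

theorem Ph_add (x y : G ⧸ stabilizer G W → W) : Ph W (x + y) = Ph W x + Ph W y := by
  simp only [Ph, Pi.add_apply, AddSubgroup.coe_add, smul_add, Finset.sum_add_distrib]

/-- the action on the families -/
noncomputable def stAct (g : G) (x : G ⧸ stabilizer G W → W) : G ⧸ stabilizer G W → W := fun γ =>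
  (⟨_, out_mem (stabilizer G W) g (g⁻¹ • γ)⟩ : stabilizer G W) • x (g⁻¹ • γ)

theorem stAct_smul (g : G) (x : G ⧸ stabilizer G W → W) (β : G ⧸ stabilizer G W) :
    stAct W g x (g • β) = (⟨_, out_mem (stabilizer G W) g β⟩ : stabilizer G W) • x β := by
  have h1 : ∀ γ, γ = β → (⟨_, out_mem (stabilizer G W) g γ⟩ : stabilizer G W) • x γ =
      (⟨_, out_mem (stabilizer G W) g β⟩ : stabilizer G W) • x β := by
    rintro γ rfl
    rfl
  exact h1 _ (inv_smul_smul g β)

theorem smul_Ph (g : G) (x : G ⧸ stabilizer G W → W) : g • Ph W x = Ph W (stAct W g x) := by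
  unfold Ph
  rw [Finset.smul_sum, ← Equiv.sum_comp (MulAction.toPerm g : Equiv.Perm (G ⧸ stabilizer G W))
    (fun γ => γ.out • ((stAct W g x γ : W) : V))]
  apply Finset.sum_congr rfl
  intro β _
  rw [MulAction.toPerm_apply, stAct_smul, actW_coe, ← mul_smul, ← mul_smul]
  congr 1
  group

variable {W}

theorem Ph_inj (hind : iSupIndep (fun w : {U : AddSubgroup V // ∃ g : G, U = g • W} =>
    (w : AddSubgroup V))) : Function.Injective (Ph (G := G) W) := by
  classical
  have hinj : Function.Injective (fun β : G ⧸ stabilizer G W =>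
      (⟨β.out • W, β.out, rfl⟩ : {U : AddSubgroup V // ∃ g : G, U = g • W})) := by
    intro β γ h
    have h1 : β.out • W = γ.out • W := congrArg Subtype.val h
    rw [← QuotientGroup.out_eq' β, ← QuotientGroup.out_eq' γ, QuotientGroup.eq]
    rw [mem_stabilizer_iff, mul_smul, ← h1, inv_smul_smul]
  have h2 := hind.comp hinj
  rw [iSupIndep_def] at h2
  have key : ∀ x : G ⧸ stabilizer G W → W, Ph W x = 0 → x = 0 := by
    intro x hx
    funext β
    have hmem : ∀ γ, γ.out • (x γ : V) ∈ γ.out • W := fun γ =>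
      AddSubgroup.smul_mem_pointwise_smul _ _ W (x γ).2
    have h3 : β.out • (x β : V) = -∑ γ ∈ Finset.univ.erase β, γ.out • (x γ : V) := by
      rw [eq_neg_iff_add_eq_zero]
      exact (Finset.add_sum_erase Finset.univ (fun γ : G ⧸ stabilizer G W => γ.out • (x γ : V))
        (Finset.mem_univ β)).trans hx
    have h4 : β.out • (x β : V) ∈ ⨆ (j) (_ : j ≠ β), (j.out • W : AddSubgroup V) := by
      rw [h3]
      apply AddSubgroup.neg_mem
      apply AddSubgroup.sum_mem
      intro γ hγ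
      exact AddSubgroup.mem_iSup_of_mem γ (AddSubgroup.mem_iSup_of_mem
        (Finset.ne_of_mem_erase hγ) (hmem γ))
    have h5 := (AddSubgroup.disjoint_def.mp (h2 β)) (hmem β) h4
    rw [smul_eq_zero_iff_eq] at h5
    exact Subtype.ext h5
  intro x y h
  have h1 : Ph W (x - y) = 0 := by rw [Ph_sub, h, sub_self]
  exact sub_eq_zero.mp (key _ h1)

/-- families with values in a subgroup -/
noncomputable def indS (U : AddSubgroup W) : AddSubgroup V where
  carrier := {v | ∃ x : G ⧸ stabilizer G W → W, (∀ β, x β ∈ U) ∧ Ph W x = v}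
  zero_mem' := ⟨0, fun _ => U.zero_mem, by simp [Ph]⟩
  add_mem' := by
    rintro _ _ ⟨x, hx, rfl⟩ ⟨y, hy, rfl⟩
    exact ⟨x + y, fun β => U.add_mem (hx β) (hy β), Ph_add W x y⟩
  neg_mem' := by
    rintro _ ⟨x, hx, rfl⟩
    refine ⟨-x, fun β => U.neg_mem (hx β), ?_⟩
    have := Ph_sub W 0 x
    rw [zero_sub] at this
    rw [this]
    have h0 : Ph W (0 : G ⧸ stabilizer G W → W) = 0 := by simp [Ph]
    rw [h0, zero_sub]

theorem indS_irr (hirr : Irr G V)
    (hind : iSupIndep (fun w : {U : AddSubgroup V // ∃ g : G, U = g • W} => (w : AddSubgroup V)))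
    (U : AddSubgroup W) (hU : ∀ h : stabilizer G W, ∀ x ∈ U, h • x ∈ U) :
    U = ⊥ ∨ (U = ⊤ ∧ indS (G := G) U = ⊤) := by
  classical
  have hinv : ∀ g : G, ∀ x ∈ indS (G := G) U, g • x ∈ indS (G := G) U := by
    rintro g _ ⟨x, hx, rfl⟩
    refine ⟨stAct W g x, fun β => hU _ _ (hx _), (smul_Ph W g x).symm⟩
  have hinj := Ph_inj hind
  let β0 : G ⧸ stabilizer G W := QuotientGroup.mk 1
  rcases hirr _ hinv with h | h
  · left
    rw [eq_bot_iff]
    intro x hx
    have h1 : Ph (G := G) W (Pi.single β0 x) ∈ indS (G := G) U := by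
      refine ⟨_, fun β => ?_, rfl⟩
      by_cases hβ : β = β0
      · subst hβ; rw [Pi.single_eq_same]; exact hx
      · rw [Pi.single_eq_of_ne hβ]; exact U.zero_mem
    rw [h, AddSubgroup.mem_bot] at h1
    have h2 : Ph (G := G) W (0 : G ⧸ stabilizer G W → W) = 0 := by simp [Ph]
    have h3 := hinj (h1.trans h2.symm)
    have h4 := congrFun h3 β0
    rw [Pi.single_eq_same] at h4
    rw [AddSubgroup.mem_bot]
    exact h4
  · right
    refine ⟨?_, h⟩
    rw [eq_top_iff]
    intro x _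
    have h1 : Ph (G := G) W (Pi.single β0 x) ∈ indS (G := G) U := by rw [h]; trivial
    obtain ⟨y, hy, hy'⟩ := h1
    have h2 := hinj hy'
    have h3 := congrFun h2 β0
    rw [Pi.single_eq_same] at h3
    rw [← h3]
    exact hy β0

theorem Ph_surj (hirr : Irr G V) (hW1 : W ≠ ⊥)
    (hind : iSupIndep (fun w : {U : AddSubgroup V // ∃ g : G, U = g • W} => (w : AddSubgroup V))) :
    Function.Surjective (Ph (G := G) W) := by
  rcases indS_irr hirr hind ⊤ (fun _ _ _ => trivial) with h | ⟨-, h⟩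
  · exfalso
    have : Nontrivial W := (AddSubgroup.nontrivial_iff_ne_bot W).mpr hW1
    exact top_ne_bot h
  · intro v
    have hv : v ∈ indS (G := G) (⊤ : AddSubgroup W) := by rw [h]; trivial
    obtain ⟨x, -, hx⟩ := hv
    exact ⟨x, hx⟩

theorem irr_W (hirr : Irr G V)
    (hind : iSupIndep (fun w : {U : AddSubgroup V // ∃ g : G, U = g • W} => (w : AddSubgroup V))) :
    Irr (stabilizer G W) W := by
  intro U hU
  rcases indS_irr hirr hind U hU with h | ⟨h, -⟩
  · exact Or.inl h
  · exact Or.inr h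

end ind

/-- imprimitivity data give a power -/
theorem card_pow {G : Type v} {V : Type u} [Group G] [AddCommGroup V] [Finite V]
    [DistribMulAction G V] (hodd : Odd (Nat.card G)) {W : AddSubgroup V} (hirr : Irr G V)
    (hW1 : W ≠ ⊥) (hW2 : W ≠ ⊤)
    (hind : iSupIndep (fun w : {U : AddSubgroup V // ∃ g : G, U = g • W} => (w : AddSubgroup V))) :
    ∃ n : ℕ, Odd n ∧ n ≠ 1 ∧ Nat.card V = Nat.card W ^ n := by
  classical
  have hfin : Finite G := Nat.finite_of_card_ne_zero (by
    intro h0; rw [h0] at hodd; exact absurd hodd (by decide))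
  letI := Fintype.ofFinite (G ⧸ stabilizer G W)
  have h1 : Function.Bijective (Ph (G := G) W) := ⟨Ph_inj hind, Ph_surj hirr hW1 hind⟩
  have h2 := Nat.card_eq_of_bijective _ h1
  rw [Nat.card_fun] at h2
  refine ⟨_, odd_of_dvd' (Subgroup.card_quotient_dvd_card _) hodd, ?_, h2.symm⟩
  intro h3
  rw [h3, pow_one] at h2
  exact hW2 (AddSubgroup.eq_top_of_card_eq W h2)

theorem step_imp (hFT : FTH.{u}) {G : Type u} {V : Type u} [Group G] [AddCommGroup V] [Finite V]
    [DistribMulAction G V]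
    (hIH : ∀ (V' : Type u) [AddCommGroup V'] [Finite V'] [Nontrivial V'],
      Nat.card V' < Nat.card V → PV V')
    (hodd : Odd (Nat.card G)) {W : AddSubgroup V} (hirr : Irr G V)
    (hW1 : W ≠ ⊥) (hW2 : W ≠ ⊤)
    (hind : iSupIndep (fun w : {U : AddSubgroup V // ∃ g : G, U = g • W} => (w : AddSubgroup V))) :
    P2 G V := by
  classical
  have hfin : Finite G := Nat.finite_of_card_ne_zero (by
    intro h0; rw [h0] at hodd; exact absurd hodd (by decide))
  letI := Fintype.ofFinite (G ⧸ stabilizer G W)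
  have hinj := Ph_inj hind
  have hsurj := Ph_surj hirr hW1 hind
  haveI : Nontrivial W := (AddSubgroup.nontrivial_iff_ne_bot W).mpr hW1
  have hlt : Nat.card W < Nat.card V := by
    apply lt_of_le_of_ne (Nat.card_le_card_of_injective _ W.subtype_injective)
    intro h
    exact hW2 (AddSubgroup.eq_top_of_card_eq W h)
  obtain ⟨p, q, hp, hq, hpq⟩ := p2_of_PV (hIH W hlt) (stabilizer G W)
    (odd_subgroup (stabilizer G W) hodd) (irr_W hirr hind).cr
  have hqp : ∀ h : stabilizer G W, h • q ≠ p := by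
    intro h hh
    exact hpq h⁻¹ (by rw [← hh, inv_smul_smul])
  obtain ⟨D, hD⟩ := sep_of_PP (PP_all hFT _ (G ⧸ stabilizer G W) rfl) G hodd
  let F : G ⧸ stabilizer G W → W × W := fun β => if β ∈ D then p else q
  let F' : G ⧸ stabilizer G W → W × W := fun β => if β ∈ D then q else p
  let Pr : (G ⧸ stabilizer G W → W × W) → V × V := fun F =>
    (Ph W (fun β => (F β).1), Ph W (fun β => (F β).2))
  have hPr : ∀ (g : G) (E E' : G ⧸ stabilizer G W → W × W), g • Pr E = Pr E' →
      ∀ x, E' (g • x) = (⟨_, out_mem (stabilizer G W) g x⟩ : stabilizer G W) • E x := by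
    intro g E E' h x
    have h1 := congrArg Prod.fst h
    have h2 := congrArg Prod.snd h
    change g • Ph W _ = Ph W _ at h1
    change g • Ph W _ = Ph W _ at h2
    rw [smul_Ph] at h1 h2
    have h3 := congrFun (hinj h1) (g • x)
    have h4 := congrFun (hinj h2) (g • x)
    rw [stAct_smul] at h3 h4
    exact Prod.ext h3.symm h4.symm
  have hfin2 : ∀ (g : G), (∀ x : G ⧸ stabilizer G W, g • x = x) →
      (∀ (x : G ⧸ stabilizer G W) (y : W),
        (⟨_, out_mem (stabilizer G W) g x⟩ : stabilizer G W) • y = y) → ∀ v : V, g • v = v := by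
    intro g h1 h2 v
    obtain ⟨x, rfl⟩ := hsurj v
    rw [smul_Ph]
    congr 1
    funext β
    have h3 := stAct_smul W g x β
    rw [h2 β] at h3
    rw [h1 β] at h3
    exact h3
  refine ⟨Pr F, Pr F', ?_, ?_, ?_⟩
  · intro g hg
    obtain ⟨h1, h2⟩ := wreath (stabilizer G W) p q hpq D hD F (fun x hx => if_pos hx)
      (fun x hx => if_neg hx) g (hPr g F F hg)
    apply hfin2 g h1
    intro x
    have h3 := h2 x
    by_cases hx : x ∈ D
    · simp only [F, if_pos hx] at h3
      exact hp _ h3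
    · simp only [F, if_neg hx] at h3
      exact hq _ h3
  · intro g hg
    obtain ⟨h1, h2⟩ := wreath (stabilizer G W) q p hqp D hD F' (fun x hx => if_pos hx)
      (fun x hx => if_neg hx) g (hPr g F' F' hg)
    apply hfin2 g h1
    intro x
    have h3 := h2 x
    by_cases hx : x ∈ D
    · simp only [F', if_pos hx] at h3
      exact hq _ h3
    · simp only [F', if_neg hx] at h3
      exact hp _ h3
  · intro g hg
    have h1 := wreath_swap (stabilizer G W) p q hpq D F F' (fun x hx => if_pos hx)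
      (fun x hx => if_neg hx) (fun x hx => if_pos hx) (fun x hx => if_neg hx) g (hPr g F F' hg)
    exact odd_no_swap (odd_of_dvd' (Subgroup.card_quotient_dvd_card _) hodd)
      (MulAction.toPerm g : Equiv.Perm (G ⧸ stabilizer G W)) D h1

end Cfsg.Agent.H62.TV
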