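import Cfsg.Agent.H62.TVD

/-!
Pairs of vectors with trivial common stabilizer: counting (owner: helper62)
-/

set_option autoImplicit false
set_option linter.unusedSectionVars false
set_option linter.style.haveILetI false

namespace Cfsg.Agent.H62.TV

open scoped Pointwise
open MulAction

universe u v w

section

variable {G : Type v} {V : Type u} [Group G] [AddCommGroup V] [DistribMulAction G V]

/-- fixed vectors -/
def fixG (V : Type u) [AddCommGroup V] [DistribMulAction G V] (g : G) : AddSubgroup V where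
  carrier := {v | g • v = v}
  zero_mem' := smul_zero g
  add_mem' := fun {a b} ha hb => by
    change g • (a + b) = a + b
    rw [smul_add, show g • a = a from ha, show g • b = b from hb]
  neg_mem' := fun {a} ha => by
    change g • (-a) = -a
    rw [smul_neg, show g • a = a from ha]

theorem mem_fixG {g : G} {v : V} : v ∈ fixG V g ↔ g • v = v := Iff.rfl

theorem inv_fix {X : Type w} [MulAction G X] {g : G} {x : X} (h : g • x = x) : g⁻¹ • x = x := by
  rw [inv_smul_eq_iff, h]

theorem inv_ne_self (hodd : Odd (Nat.card G)) {g : G} (hg : g ≠ 1) : g⁻¹ ≠ g := by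
  intro h
  have h1 : g ^ 2 = 1 := by
    rw [pow_two]
    nth_rewrite 1 [← h]
    exact inv_mul_cancel g
  have h2 : orderOf g = 2 := orderOf_eq_prime h1 hg
  have hfin : Finite G := Nat.finite_of_card_ne_zero (by
    intro h0; rw [h0] at hodd; exact absurd hodd (by decide))
  have h3 : 2 ∣ Nat.card G := by rw [← h2]; exact orderOf_dvd_natCard g
  exact (Nat.not_even_iff_odd.mpr hodd) (even_iff_two_dvd.mpr h3)

theorem count [Finite V] [Fintype G] [DecidableEq G] (hodd : Odd (Nat.card G)) (f : G → ℕ)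
    (hf : ∀ g : G, g ≠ 1 → Nat.card (fixG V g) ^ 2 ≤ f g)
    (hsum : (∑ g, if g = 1 then 0 else f g) + 2 * Nat.card G < 2 * Nat.card V ^ 2) : P2 G V := by
  classical
  let Bad : Type u := {p : V × V // ∃ g : G, g ≠ 1 ∧ g • p = p}
  let S : Type (max u v) := Σ g : {g : G // g ≠ 1}, (fixG V g.1 × fixG V g.1)
  let F : Bad × Bool → S := fun x => match x.2 with
    | true => ⟨⟨x.1.2.choose, x.1.2.choose_spec.1⟩,
        (⟨x.1.1.1, congrArg Prod.fst x.1.2.choose_spec.2⟩,
          ⟨x.1.1.2, congrArg Prod.snd x.1.2.choose_spec.2⟩)⟩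
    | false => ⟨⟨x.1.2.choose⁻¹, inv_ne_one.mpr x.1.2.choose_spec.1⟩,
        (⟨x.1.1.1, congrArg Prod.fst (inv_fix x.1.2.choose_spec.2)⟩,
          ⟨x.1.1.2, congrArg Prod.snd (inv_fix x.1.2.choose_spec.2)⟩)⟩
  let P : S → V × V := fun s => ((s.2.1 : V), (s.2.2 : V))
  have hP : ∀ x, P (F x) = x.1.1 := by
    rintro ⟨x, b⟩
    cases b <;> rfl
  have hinj : Function.Injective F := by
    rintro ⟨x, b⟩ ⟨y, c⟩ h
    have h1 : x = y := by
      apply Subtype.ext
      have := congrArg P h
      rwa [hP, hP] at this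
    subst h1
    have h2 : (F (x, b)).1.1 = (F (x, c)).1.1 := by rw [h]
    have h3 := inv_ne_self hodd x.2.choose_spec.1
    cases b <;> cases c
    · rfl
    · exact absurd h2 h3
    · exact absurd h2.symm h3
    · rfl
  have hBadS : 2 * Nat.card Bad ≤ Nat.card S := by
    have h1 := Nat.card_le_card_of_injective F hinj
    rw [Nat.card_prod, Nat.card_eq_fintype_card (α := Bool), Fintype.card_bool] at h1
    omega
  have hS : Nat.card S ≤ ∑ g, if g = 1 then 0 else f g := by
    have h1 : Nat.card S = ∑ g : {g : G // g ≠ 1}, Nat.card (fixG V g.1) ^ 2 := by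
      rw [Nat.card_sigma]
      apply Finset.sum_congr rfl
      intro g _
      rw [Nat.card_prod, pow_two]
    rw [h1]
    have h2 : ∑ g : {g : G // g ≠ 1}, Nat.card (fixG V g.1) ^ 2 ≤ ∑ g : {g : G // g ≠ 1}, f g.1 :=
      Finset.sum_le_sum (fun g _ => hf g.1 g.2)
    refine h2.trans ?_
    have h3 : (∑ g, if g = 1 then 0 else f g) = ∑ g ∈ Finset.univ.filter (fun g : G => g ≠ 1), f g := by
      rw [Finset.sum_filter]
      apply Finset.sum_congr rfl
      intro g _
      by_cases hg : g = 1
      · simp [hg]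
      · simp [hg]
    rw [h3]
    apply le_of_eq
    exact (Finset.sum_subtype _ (by simp) f).symm
  -- good pairs
  let Gd : Set (V × V) := {p | ∀ g : G, g • p = p → g = 1}
  have hGd : Nat.card Bad + Gd.ncard = Nat.card V ^ 2 := by
    have h1 : Nat.card Bad = (Gdᶜ).ncard := by
      rw [← Nat.card_coe_set_eq]
      apply Nat.card_congr
      apply Equiv.subtypeEquivRight
      intro p
      change (∃ g : G, g ≠ 1 ∧ g • p = p) ↔ ¬ (∀ g : G, g • p = p → g = 1)
      push Not
      constructor
      · rintro ⟨g, h1, h2⟩; exact ⟨g, h2, h1⟩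
      · rintro ⟨g, h1, h2⟩; exact ⟨g, h2, h1⟩
    rw [h1, add_comm, Set.ncard_add_ncard_compl, Nat.card_prod, pow_two]
  have hlt : Nat.card G < Gd.ncard := by
    by_contra h
    push Not at h
    omega
  have hne : Gd.Nonempty := by
    rw [← Set.ncard_pos]
    omega
  obtain ⟨p, hp⟩ := hne
  have hex : ∃ q ∈ Gd, ∀ g : G, g • p ≠ q := by
    by_contra h
    push Not at h
    have h1 : Gd ⊆ Set.range (fun g : G => g • p) := by
      intro q hq
      obtain ⟨g, hg⟩ := h q hq
      exact ⟨g, hg⟩
    have h2 := Set.ncard_le_ncard h1 (Set.toFinite _)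
    have h3 : (Set.range (fun g : G => g • p)).ncard ≤ Nat.card G := by
      rw [← Set.image_univ, ← Set.ncard_univ]
      exact Set.ncard_image_le (Set.toFinite _)
    omega
  obtain ⟨q, hq, hpq⟩ := hex
  refine ⟨p, q, ?_, ?_, hpq⟩
  · intro g hg x
    rw [hp g hg, one_smul]
  · intro g hg x
    rw [hq g hg, one_smul]

theorem count' [Finite V] [Finite G] (hodd : Odd (Nat.card G)) (A C : Subgroup G) (hAC : A ≤ C)
    (a b x y : ℕ) (hx : Nat.card C = Nat.card A + x) (hy : Nat.card G = Nat.card C + y) (hA : ∀ g ∈ A, g ≠ 1 → Nat.card (fixG V g) = 1)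
    (hC : ∀ g ∈ C, g ∉ A → Nat.card (fixG V g) ^ 2 ≤ a)
    (hG : ∀ g, g ∉ C → Nat.card (fixG V g) ^ 2 ≤ b)
    (hsum : Nat.card A + x * a + y * b + 2 * Nat.card G < 2 * Nat.card V ^ 2) :
    P2 G V := by
  classical
  letI := Fintype.ofFinite G
  apply count hodd (fun g => if g ∈ A then 1 else if g ∈ C then a else b)
  · intro g hg
    split_ifs with h1 h2
    · rw [hA g h1 hg]; norm_num
    · exact hC g h2 h1
    · exact hG g h2
  · refine lt_of_le_of_lt ?_ hsum
    apply Nat.add_le_add_right
    have h1 : (∑ g : G, if g = 1 then 0 else if g ∈ A then 1 else if g ∈ C then a else b) ≤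
        ∑ g : G, (if g ∈ A then 1 else if g ∈ C then a else b) := by
      apply Finset.sum_le_sum
      intro g _
      split_ifs <;> omega
    refine h1.trans ?_
    have key : ∀ (H : Subgroup G) (n : ℕ), (∑ g : G, if g ∈ H then n else 0) = Nat.card H * n := by
      intro H n
      rw [← Finset.sum_filter, Finset.sum_const, smul_eq_mul, Nat.card_eq_fintype_card,
        Fintype.card_subtype]
    have h4 : (∑ _g : G, b) = Nat.card G * b := by
      rw [Finset.sum_const, smul_eq_mul, Finset.card_univ, Nat.card_eq_fintype_card]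
    have h5 : (∑ g : G, ((if g ∈ A then 1 else if g ∈ C then a else b) +
        (if g ∈ A then a else 0) + (if g ∈ C then b else 0))) =
        ∑ g : G, ((if g ∈ A then 1 else 0) + (if g ∈ C then a else 0) + b) := by
      apply Finset.sum_congr rfl
      intro g _
      by_cases hgA : g ∈ A
      · have hgC := hAC hgA
        rw [if_pos hgA, if_pos hgA, if_pos hgC, if_pos hgA, if_pos hgC]
      · by_cases hgC : g ∈ C
        · rw [if_neg hgA, if_pos hgC, if_neg hgA, if_pos hgC, if_neg hgA, if_pos hgC]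
          omega
        · rw [if_neg hgA, if_neg hgC, if_neg hgA, if_neg hgC, if_neg hgA, if_neg hgC]
          omega
    simp only [Finset.sum_add_distrib] at h5
    rw [key, key, key, key, h4, hy, hx] at h5
    have h6 : (∑ g : G, (if g ∈ A then 1 else if g ∈ C then a else b)) =
        Nat.card A + x * a + y * b := by
      have h7 : (∑ g : G, (if g ∈ A then 1 else if g ∈ C then a else b)) + Nat.card A * a +
          (Nat.card A + x) * b = (Nat.card A + x * a + y * b) + Nat.card A * a +
          (Nat.card A + x) * b := by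
        rw [h5]; ring
      omega
    exact h6.le

theorem card_inf [Finite V] (U W : AddSubgroup V) :
    Nat.card U * Nat.card W ≤ Nat.card V * Nat.card (U ⊓ W : AddSubgroup V) := by
  let f : U →+ V ⧸ W := (QuotientAddGroup.mk' W).comp U.subtype
  have h1 : Nat.card U = Nat.card f.ker * Nat.card f.range := by
    rw [← AddSubgroup.index_ker, AddSubgroup.card_mul_index]
  have h2 : Nat.card f.range ≤ Nat.card (V ⧸ W) :=
    Nat.card_le_card_of_injective _ f.range.subtype_injective
  have h3 : Nat.card f.ker ≤ Nat.card (U ⊓ W : AddSubgroup V) := by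
    apply Nat.card_le_card_of_injective (fun x : f.ker => (⟨((x : U) : V), (x : U).2, by
      have h4 : f (x : U) = 0 := x.2
      exact (QuotientAddGroup.eq_zero_iff _).mp h4⟩ : (U ⊓ W : AddSubgroup V)))
    intro x y h
    exact Subtype.ext (Subtype.ext (congrArg (fun z : (U ⊓ W : AddSubgroup V) => (z : V)) h))
  have h4 : Nat.card V = Nat.card (V ⧸ W) * Nat.card W :=
    AddSubgroup.card_eq_card_quotient_mul_card_addSubgroup W
  rw [h1, h4]
  calc Nat.card f.ker * Nat.card f.range * Nat.card W
      ≤ Nat.card (U ⊓ W : AddSubgroup V) * Nat.card (V ⧸ W) * Nat.card W := by gcongr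
    _ = _ := by ring

theorem card_fix_conj [Finite V] (g x : G) :
    Nat.card (fixG V (x * g * x⁻¹)) = Nat.card (fixG V g) := by
  apply Nat.card_congr
  refine ⟨fun y => ⟨x⁻¹ • (y : V), ?_⟩, fun y => ⟨x • (y : V), ?_⟩, ?_, ?_⟩
  · have h := y.2
    rw [mem_fixG] at h ⊢
    conv_rhs => rw [← h]
    rw [← mul_smul, ← mul_smul]
    congr 1; group
  · have h := y.2
    rw [mem_fixG] at h ⊢
    rw [← mul_smul, inv_mul_cancel_right, mul_smul, h]
  · intro y
    exact Subtype.ext (smul_inv_smul x (y : V))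
  · intro y
    exact Subtype.ext (inv_smul_smul x (y : V))

theorem fix_comm [Finite V] (g x : G) : Nat.card (fixG V g) ^ 2 ≤
    Nat.card V * Nat.card (fixG V (x * g * x⁻¹ * g⁻¹)) := by
  have h1 := card_inf (fixG V g) (fixG V (x * g * x⁻¹))
  rw [card_fix_conj, ← pow_two] at h1
  refine h1.trans (Nat.mul_le_mul_left _ ?_)
  apply Nat.card_le_card_of_injective (fun y : (fixG V g ⊓ fixG V (x * g * x⁻¹) : AddSubgroup V) =>
    (⟨(y : V), by
      obtain ⟨y, hy1, hy2⟩ := y
      have hy1' : g • y = y := hy1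
      have hy2' : (x * g * x⁻¹) • y = y := hy2
      rw [mem_fixG, mul_smul, inv_fix hy1', hy2']⟩ : fixG V (x * g * x⁻¹ * g⁻¹)))
  intro y z h
  exact Subtype.ext (congrArg (fun w : fixG V (x * g * x⁻¹ * g⁻¹) => (w : V)) h)

/-- three translates of the fixed space are independent -/
theorem fix_three [Finite V] (h x z : G) (hz : x * h * x⁻¹ = z * h) (hzx : z * x = x * z)
    (hzh : z * h = h * z) (hz1 : fixG V z = ⊥) (hz2 : fixG V (z * z) = ⊥) :
    Nat.card (fixG V h) ^ 3 ≤ Nat.card V := by
  have e1 : (z : G) * h = x * h * x⁻¹ := hz.symm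
  have e2 : z * z * h = x * x * h * (x * x)⁻¹ := by
    have : x * x * h * (x * x)⁻¹ = x * (x * h * x⁻¹) * x⁻¹ := by group
    rw [this, hz]
    calc z * z * h = z * (x * h * x⁻¹) := by rw [hz, mul_assoc]
      _ = (z * x) * h * x⁻¹ := by group
      _ = _ := by rw [hzx]; group
  have c1 : Nat.card (fixG V (z * h)) = Nat.card (fixG V h) := by rw [e1, card_fix_conj]
  have c2 : Nat.card (fixG V (z * z * h)) = Nat.card (fixG V h) := by rw [e2, card_fix_conj]
  have fz : ∀ v : V, z • v = v → v = 0 := by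
    intro v hv
    have : v ∈ fixG V z := hv
    rwa [hz1, AddSubgroup.mem_bot] at this
  have fz2 : ∀ v : V, z • z • v = v → v = 0 := by
    intro v hv
    have : v ∈ fixG V (z * z) := by rw [mem_fixG, mul_smul]; exact hv
    rwa [hz2, AddSubgroup.mem_bot] at this
  have d1 : fixG V h ⊓ fixG V (z * h) = ⊥ := by
    rw [eq_bot_iff]
    rintro v ⟨h1, h2⟩
    have h1' : h • v = v := h1
    have h2' : (z * h) • v = v := h2
    rw [mul_smul, h1'] at h2'
    rw [AddSubgroup.mem_bot]
    exact fz v h2'
  have d2 : (fixG V h ⊔ fixG V (z * h)) ⊓ fixG V (z * z * h) = ⊥ := by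
    rw [eq_bot_iff]
    rintro v ⟨h1, h2⟩
    obtain ⟨a, ha, b, hb, rfl⟩ := AddSubgroup.mem_sup.mp h1
    have ha' : h • a = a := ha
    have hb' : z • h • b = b := by rw [← mul_smul]; exact hb
    have h2' : z • z • h • (a + b) = a + b := by
      rw [← mul_smul, ← mul_smul]; exact h2
    have h3 : z • z • a + z • b = a + b := by
      rw [← h2', smul_add h a b, ha', smul_add, smul_add, hb']
    -- z z a - a = b - z b
    have h4 : z • z • a - a = b - z • b := by
      rw [sub_eq_sub_iff_add_eq_add, h3, add_comm]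
    have hza : ∀ v : V, h • z • v = z • h • v := by
      intro v; rw [← mul_smul, ← mul_smul, hzh]
    have m1 : z • z • a - a ∈ fixG V h := by
      rw [mem_fixG, smul_sub, hza, hza, ha']
    have m2 : b - z • b ∈ fixG V (z * h) := by
      rw [mem_fixG, mul_smul, smul_sub, smul_sub, hza, hb']
    have m3 : z • z • a - a ∈ fixG V h ⊓ fixG V (z * h) := ⟨m1, by rw [h4]; exact m2⟩
    rw [d1, AddSubgroup.mem_bot] at m3
    have a0 : a = 0 := fz2 a (sub_eq_zero.mp m3)
    have b0 : b = 0 := by
      rw [m3] at h4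
      exact fz b (sub_eq_zero.mp h4.symm).symm
    rw [a0, b0, add_zero]
    exact zero_mem _
  have k1 := card_inf (fixG V h) (fixG V (z * h))
  have hsup : ∀ U W : AddSubgroup V, U ⊓ W = ⊥ → Nat.card U * Nat.card W ≤
      Nat.card (U ⊔ W : AddSubgroup V) := by
    intro U W hUW
    rw [← Nat.card_prod]
    apply Nat.card_le_card_of_injective (fun p : U × W => (⟨(p.1 : V) + (p.2 : V),
      AddSubgroup.add_mem _ (AddSubgroup.mem_sup_left p.1.2) (AddSubgroup.mem_sup_right p.2.2)⟩ :
      (U ⊔ W : AddSubgroup V)))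
    intro p q hpq
    have h5 := congrArg (fun z : (U ⊔ W : AddSubgroup V) => (z : V)) hpq
    obtain ⟨h6, h7⟩ := direct_eq hUW p.1.2 q.1.2 p.2.2 q.2.2 h5
    exact Prod.ext (Subtype.ext h6) (Subtype.ext h7)
  have k2 := hsup _ _ d1
  have k3 := hsup _ _ d2
  have k4 : Nat.card ((fixG V h ⊔ fixG V (z * h)) ⊔ fixG V (z * z * h) : AddSubgroup V) ≤
      Nat.card V := Nat.card_le_card_of_injective _ (AddSubgroup.subtype_injective _)
  rw [c1] at k2
  rw [c2] at k3
  calc Nat.card (fixG V h) ^ 3 = (Nat.card (fixG V h) * Nat.card (fixG V h)) *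
        Nat.card (fixG V h) := by ring
    _ ≤ Nat.card (fixG V h ⊔ fixG V (z * h) : AddSubgroup V) * Nat.card (fixG V h) := by gcongr
    _ ≤ _ := k3.trans k4

end

end Cfsg.Agent.H62.TV
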