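import Cfsg.Agent.Cop.GenAb
import Cfsg.Agent.H34.Fact2

set_option autoImplicit false
set_option linter.style.haveILetI false
set_option linter.unusedSectionVars false

/-!
Quadratic offender inequality in groups not involving the symmetric group of degree three.
-/

namespace Cfsg.Agent.H62

open Subgroup
open H34 (fixedBy mem_fixedBy fixedBy_anti)

section

variable {U : Type*} [CommGroup U] [Finite U]

theorem exists_fixed_of_two_group (hU : ∀ u : U, u * u = 1) (B : Subgroup (MulAut U)) (hB : IsPGroup 2 B)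
    (D : Subgroup U) (hD : D ≠ ⊥) (hinv : ∀ b ∈ B, ∀ d ∈ D, b d ∈ D) :
    ∃ d ∈ D, d ≠ 1 ∧ ∀ b ∈ B, b d = d := by
  classical
  haveI : Fact (Nat.Prime 2) := ⟨Nat.prime_two⟩
  letI act : MulAction B D :=
    { smul := fun b d => ⟨(b : MulAut U) d, hinv b b.2 d d.2⟩
      one_smul := fun d => rfl
      mul_smul := fun a b d => rfl }
  have hdvd : 2 ∣ Nat.card D := by
    obtain ⟨⟨d, hd⟩, hd1'⟩ := Subgroup.ne_bot_iff_exists_ne_one.1 hD
    have hd1 : d ≠ 1 := fun h => hd1' (Subtype.ext h)
    have h1 : orderOf d = 2 := orderOf_eq_prime (by rw [sq]; exact hU d) hd1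
    rw [← h1, ← Subgroup.orderOf_mk d hd]
    exact orderOf_dvd_natCard _
  have h1 : (1 : D) ∈ MulAction.fixedPoints B D := by
    intro b
    exact Subtype.ext (map_one (b : MulAut U))
  obtain ⟨d, hd, hd1⟩ := hB.exists_fixed_point_of_prime_dvd_card_of_fixed_point D hdvd h1
  refine ⟨d, d.2, fun h => hd1 (Subtype.ext h.symm), ?_⟩
  intro b hb
  exact congrArg Subtype.val (hd ⟨b, hb⟩)

/-- the map `u ↦ x u * u⁻¹` -/
def cm (x : MulAut U) : U →* U where
  toFun u := x u * u⁻¹
  map_one' := by simp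
  map_mul' a b := by
    rw [map_mul, mul_inv]
    exact mul_mul_mul_comm _ _ _ _

theorem cm_apply (x : MulAut U) (u : U) : cm x u = x u * u⁻¹ := rfl

theorem axb (hU : ∀ u : U, u * u = 1) (B : Subgroup (MulAut U)) (hB : IsPGroup 2 B) (x : MulAut U)
    (hx : Odd (orderOf x)) (hxB : ∀ b ∈ B, b * x = x * b)
    (hfix : ∀ u, (∀ b ∈ B, b u = u) → x u = u) : x = 1 := by
  by_contra hne
  have hD : (cm x).range ≠ ⊥ := by
    intro h
    apply hne
    ext u
    have h1 : cm x u ∈ (cm x).range := ⟨u, rfl⟩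
    rw [h, mem_bot, cm_apply] at h1
    exact mul_inv_eq_one.1 h1
  obtain ⟨d, ⟨u, rfl⟩, hd1, hd⟩ := exists_fixed_of_two_group hU B hB _ hD (by
    rintro b hb _ ⟨u, rfl⟩
    refine ⟨b u, ?_⟩
    rw [cm_apply, cm_apply, map_mul, map_inv]
    have h1 := DFunLike.congr_fun (hxB b hb) u
    rw [MulAut.mul_apply, MulAut.mul_apply] at h1
    rw [h1])
  apply hd1
  rw [cm_apply]
  exact H34.fixed_commutator_eq_one hU x hx u (hfix _ hd)

theorem fixedBy_eq_inf {A B : Subgroup (MulAut U)} {a : MulAut U} (h : B ⊔ zpowers a = A) (u : U) :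
    u ∈ fixedBy A ↔ u ∈ fixedBy B ∧ a u = u := by
  constructor
  · intro hu
    refine ⟨fun b hb => hu b (h ▸ mem_sup_left hb), hu a (h ▸ mem_sup_right (mem_zpowers a))⟩
  · rintro ⟨h1, h2⟩
    have h3 : A ≤ MulAction.stabilizer (MulAut U) u := by
      rw [← h, sup_le_iff, zpowers_le]
      exact ⟨fun b hb => h1 b hb, h2⟩
    intro a ha
    exact h3 ha

theorem cube_fix {x : MulAut U} (hU : ∀ u : U, u * u = 1) (hx : Odd (orderOf x)) (D : Subgroup U)
    (hD : D ≤ (cm x).range) (hinv : ∀ d ∈ D, x d ∈ D) (hcard : Nat.card D ≤ 4) {d : U} (hd : d ∈ D) :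
    x (x (x d)) = d := by
  classical
  have hfix : ∀ e ∈ D, x e = e → e = 1 := by
    intro e he hxe
    obtain ⟨u, rfl⟩ := hD he
    exact H34.fixed_commutator_eq_one hU x hx u hxe
  by_cases hd1 : d = 1
  · subst hd1; simp
  set e := x d with he
  have heD : e ∈ D := hinv d hd
  have hed : e ≠ d := fun h => hd1 (hfix d hd h)
  have he1 : e ≠ 1 := fun h => hd1 (by
    have : x d = x 1 := by rw [← he, h, map_one]
    exact x.injective this)
  have hsD : d * e ∈ D := mul_mem hd heD
  have hs1 : d * e ≠ 1 := by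
    intro h
    apply hed
    rw [mul_eq_one_iff_eq_inv'.1 h, ← mul_eq_one_iff_eq_inv.1 (hU d)]
  have hsd : d * e ≠ d := fun h => he1 (mul_eq_left.1 h)
  have hse : d * e ≠ e := fun h => hd1 (mul_eq_right.1 h)
  have hwD : x e ∈ D := hinv e heD
  have hw1 : x e ≠ 1 := fun h => he1 (by
    have : x e = x 1 := by rw [h, map_one]
    exact x.injective this)
  have hwe : x e ≠ e := fun h => he1 (hfix e heD h)
  have hwd : x e ≠ d := by
    intro h
    apply hs1
    apply hfix _ hsD
    rw [map_mul, ← he, h, mul_comm]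
  have hws : x e = d * e := by
    by_contra hws
    have h5 : ({1, d, e, d * e, x e} : Finset U).card = 5 := by
      rw [Finset.card_insert_of_notMem, Finset.card_insert_of_notMem, Finset.card_insert_of_notMem,
        Finset.card_insert_of_notMem, Finset.card_singleton]
      · simpa using fun h => hws h.symm
      · simp only [Finset.mem_insert, Finset.mem_singleton, not_or]
        exact ⟨fun h => hse h.symm, fun h => hwe h.symm⟩
      · simp only [Finset.mem_insert, Finset.mem_singleton, not_or]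
        exact ⟨fun h => hed h.symm, fun h => hsd h.symm, fun h => hwd h.symm⟩
      · simp only [Finset.mem_insert, Finset.mem_singleton, not_or]
        exact ⟨fun h => hd1 h.symm, fun h => he1 h.symm, fun h => hs1 h.symm, fun h => hw1 h.symm⟩
    have h6 : ((({1, d, e, d * e, x e} : Finset U) : Set U)) ⊆ (D : Set U) := by
      intro y hy
      simp only [Finset.coe_insert, Finset.coe_singleton, Set.mem_insert_iff, Set.mem_singleton_iff] at hy
      rcases hy with rfl | rfl | rfl | rfl | rfl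
      · exact one_mem _
      · exact hd
      · exact heD
      · exact hsD
      · exact hwD
    have h7 := Set.ncard_le_ncard h6 (Set.toFinite _)
    rw [Set.ncard_coe_finset, h5] at h7
    have h8 : (D : Set U).ncard = Nat.card D := rfl
    omega
  rw [hws, map_mul, ← he, hws]
  calc e * (d * e) = d * (e * e) := mul_left_comm _ _ _
    _ = d := by rw [hU e, mul_one]

theorem cube_fix' {x : MulAut U} (hU : ∀ u : U, u * u = 1) (hx : Odd (orderOf x)) (W : Subgroup U)
    (hinv : ∀ d ∈ W, x d ∈ W) (hcard : Nat.card (W.map (cm x)) ≤ 4) {u : U} (hu : u ∈ W) :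
    (x ^ 3) u = u := by
  have h1 : x (x (x (x u * u⁻¹))) = x u * u⁻¹ := by
    refine cube_fix hU hx (W.map (cm x)) ?_ ?_ hcard ⟨u, hu, rfl⟩
    · rintro _ ⟨w, _, rfl⟩; exact ⟨w, rfl⟩
    · rintro _ ⟨w, hw, rfl⟩
      refine ⟨x w, hinv w hw, ?_⟩
      rw [cm_apply, cm_apply, map_mul, map_inv]
  have hpow : ∀ v : U, (x ^ 3) v = x (x (x v)) := by
    intro v; rw [pow_succ, pow_succ, pow_one]; rfl
  have h2 : x ((x ^ 3) u * u⁻¹) = (x ^ 3) u * u⁻¹ := by
    rw [hpow]
    simp only [map_mul, map_inv] at h1 ⊢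
    -- h1 : x x x x u * (x x x u)⁻¹ = x u * u⁻¹
    have h3 : x (x (x (x u))) = x u * u⁻¹ * x (x (x u)) := mul_inv_eq_iff_eq_mul.1 h1
    rw [h3, mul_inv_eq_iff_eq_mul]
    rw [mul_assoc, mul_comm (x u), mul_assoc, mul_comm (u⁻¹) _]
    rw [mul_assoc, mul_assoc, mul_comm u⁻¹]
  have h4 : (x ^ 3) ((x ^ 3) u * u⁻¹) = (x ^ 3) u * u⁻¹ := by
    conv_lhs => rw [hpow, h2, h2, h2]
  have h5 : Odd (orderOf (x ^ 3)) := hx.of_dvd_nat (orderOf_pow_dvd 3)
  exact mul_inv_eq_one.1 (H34.fixed_commutator_eq_one hU (x ^ 3) h5 u h4)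

theorem isPGroup_two_of_sq {G : Type*} [Group G] (A : Subgroup G) (h : ∀ a ∈ A, a * a = 1) : IsPGroup 2 A := by
  rintro ⟨a, ha⟩
  exact ⟨1, Subtype.ext (by rw [pow_one, sq]; exact h a ha)⟩

theorem card_mul_relIndex' {G : Type*} [Group G] {B A : Subgroup G} (h : B ≤ A) :
    Nat.card B * B.relIndex A = Nat.card A := by
  have := Subgroup.relIndex_mul_relIndex ⊥ B A bot_le h
  rwa [Subgroup.relIndex_bot_left, Subgroup.relIndex_bot_left] at this

theorem relIndex_ne_zero' {G : Type*} [Group G] [Finite G] (B A : Subgroup G) : B.relIndex A ≠ 0 :=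
  Subgroup.index_ne_zero_of_finite

theorem sq_le_aux (hU : ∀ u : U, u * u = 1) (F : Subgroup (MulAut U)) (hF : Odd (Nat.card F)) :
    ∀ (n : ℕ) (A : Subgroup (MulAut U)), Nat.card A = n → A ≤ normalizer (F : Set (MulAut U)) →
    (∀ a ∈ A, ∀ b ∈ A, a * b = b * a) → (∀ a ∈ A, a * a = 1) →
    A ⊓ centralizer (F : Set (MulAut U)) = ⊥ →
    (∀ a ∈ A, ∀ x ∈ F, a * x * a⁻¹ = x⁻¹ → x ^ 3 = 1 → x = 1) →
    Nat.card A ^ 2 ≤ (fixedBy A).index := by
  haveI : Fact (Nat.Prime 2) := ⟨Nat.prime_two⟩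
  intro n
  induction n using Nat.strong_induction_on with
  | _ n ih =>
  intro A hn hAF hcomm hsq hfaith hno
  have hA2 : IsPGroup 2 A := isPGroup_two_of_sq A hsq
  have hcop : (Nat.card A).Coprime (Nat.card F) := by
    obtain ⟨k, hk⟩ := IsPGroup.iff_card.1 hA2
    rw [hk]
    exact Nat.Coprime.pow_left k (Nat.coprime_two_left.2 hF)
  by_cases hA1 : A = ⊥
  · subst hA1
    simp [Nat.one_le_iff_ne_zero, Subgroup.index_ne_zero_of_finite]
  have hcA : IsMulCommutative A := ⟨⟨fun a b => Subtype.ext (hcomm a a.2 b b.2)⟩⟩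
  have hgen := Cop.le_genT hcA _ F rfl hAF hcop
  obtain ⟨B, hB, x0, hx0, hx0A⟩ : ∃ B ∈ Cop.cycQuot A, ∃ x0 ∈ F ⊓ centralizer (B : Set (MulAut U)),
      x0 ∉ centralizer (A : Set (MulAut U)) := by
    by_contra hcon
    push Not at hcon
    apply hA1
    rw [← hfaith]
    refine (inf_eq_left.2 ?_).symm
    rw [le_centralizer_iff]
    refine hgen.trans ?_
    unfold Cop.genT
    exact iSup₂_le fun B hB x hx => hcon B hB x hx
  obtain ⟨hBA, a, haA, hBa⟩ := hB
  have hax0 : a * x0 ≠ x0 * a := by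
    intro h
    apply hx0A
    rw [← hBa]
    have h1 : B ⊔ zpowers a ≤ centralizer {x0} := by
      rw [sup_le_iff, zpowers_le]
      refine ⟨fun b hb => ?_, ?_⟩
      · rw [mem_centralizer_singleton_iff]; exact mem_centralizer_iff.1 hx0.2 b hb
      · rw [mem_centralizer_singleton_iff]; exact h
    rw [mem_centralizer_iff]
    intro y hy
    exact mem_centralizer_singleton_iff.1 (h1 hy)
  have haa : a * a = 1 := hsq a haA
  have hainv : a⁻¹ = a := inv_eq_of_mul_eq_one_left haa
  -- the cardinality of B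
  have hcardA : Nat.card A ≤ 2 * Nat.card B := by
    have h1 : zpowers a ≤ normalizer (B : Set (MulAut U)) := by
      rw [zpowers_le, mem_normalizer_iff]
      intro y
      constructor
      · intro hy
        rw [hcomm a haA y (hBA hy), mul_inv_cancel_right]; exact hy
      · intro hy
        have h2 : y = a⁻¹ * (a * y * a⁻¹) * a := by group
        have h3 : a⁻¹ * (a * y * a⁻¹) = (a * y * a⁻¹) * a⁻¹ := hcomm _ (inv_mem haA) _ (hBA hy)
        rw [h2, h3, inv_mul_cancel_right]; exact hy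
    have h2 := Cop.relIndex_sup_eq h1
    rw [sup_comm, hBa] at h2
    have h3 : B.relIndex (zpowers a) ≤ 2 := by
      refine (Nat.le_of_dvd Nat.card_pos (Subgroup.relIndex_dvd_card _ _)).trans ?_
      rw [Nat.card_zpowers]
      exact orderOf_le_of_pow_eq_one (by norm_num) (by rw [sq]; exact haa)
    have h4 := card_mul_relIndex' hBA
    rw [← h4, h2, mul_comm]
    exact Nat.mul_le_mul_right _ h3
  have hBne : B ≠ A := by
    intro h
    subst h
    exact hx0A hx0.2
  have hBlt : Nat.card B < n := by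
    rw [← hn]
    exact lt_of_le_of_ne (Subgroup.card_le_of_le hBA)
      (fun h => hBne (Subgroup.eq_of_le_of_card_ge hBA h.ge))
  have hIH := ih _ hBlt B rfl (hBA.trans hAF) (fun a ha b hb => hcomm a (hBA ha) b (hBA hb))
    (fun a ha => hsq a (hBA ha)) (eq_bot_iff.2 ((inf_le_inf_right _ hBA).trans hfaith.le))
    (fun a ha x hx => hno a (hBA ha) x hx)
  -- the inverted element
  set x := a * x0 * a⁻¹ * x0⁻¹ with hx
  have hxF : x ∈ F := mul_mem ((mem_normalizer_iff.1 (hAF haA) _).1 hx0.1) (inv_mem hx0.1)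
  have hx1 : x ≠ 1 := by
    intro h
    apply hax0
    have h1 : a * x0 * a⁻¹ = x0 := mul_inv_eq_one.1 h
    exact mul_inv_eq_iff_eq_mul.1 h1
  have hinv : a * x * a⁻¹ = x⁻¹ := by
    rw [hx]
    simp only [hainv, mul_inv_rev, inv_inv]
    calc a * (a * x0 * a * x0⁻¹) * a = (a * a) * (x0 * a * x0⁻¹ * a) := by group
      _ = x0 * (a * (x0⁻¹ * a)) := by rw [haa]; group
  have hodd : Odd (orderOf x) := by
    refine hF.of_dvd_nat ?_
    rw [← Subgroup.orderOf_mk x hxF]
    exact orderOf_dvd_natCard _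
  have hxB : ∀ b ∈ B, b * x = x * b := by
    intro b hb
    have h1 : b * a = a * b := hcomm b (hBA hb) a haA
    have h2 : b * x0 = x0 * b := mem_centralizer_iff.1 hx0.2 b hb
    have c1 : Commute b a := h1
    have c2 : Commute b x0 := h2
    exact ((c1.mul_right c2).mul_right c1.inv_right).mul_right c2.inv_right
  have hB2 : IsPGroup 2 B := isPGroup_two_of_sq B (fun b hb => hsq b (hBA hb))
  -- the main estimate
  have hle : fixedBy A ≤ fixedBy B := fixedBy_anti hBA
  have hkey : 4 ≤ (fixedBy A).relIndex (fixedBy B) := by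
    by_contra hlt
    push Not at hlt
    have hpow : (fixedBy A).relIndex (fixedBy B) ≤ 2 := by
      have h2U : IsPGroup 2 (fixedBy B) := by
        rintro ⟨u, hu⟩
        exact ⟨1, Subtype.ext (by rw [pow_one, sq]; exact hU u)⟩
      obtain ⟨k, hk⟩ := IsPGroup.iff_card.1 h2U
      have h1 : (fixedBy A).relIndex (fixedBy B) ∣ 2 ^ k := by
        rw [← hk]; exact Subgroup.relIndex_dvd_card _ _
      obtain ⟨j, -, hj⟩ := (Nat.dvd_prime_pow Nat.prime_two).1 h1
      rw [hj] at hlt ⊢
      have : j < 2 := by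
        by_contra hj2
        have := Nat.pow_le_pow_right (n := 2) (by norm_num) (not_lt.1 hj2)
        omega
      interval_cases j <;> norm_num
    set U' := fixedBy B with hU'
    have hxU' : ∀ u ∈ U', x u ∈ U' := by
      intro u hu b hb
      have h1 : b (x u) = x (b u) := DFunLike.congr_fun (hxB b hb) u
      rw [hu b hb] at h1
      exact h1
    have hxmap : U'.map x.toMonoidHom = U' := by
      apply Subgroup.eq_of_le_of_card_ge
      · rintro _ ⟨u, hu, rfl⟩; exact hxU' u hu
      · exact (Nat.card_congr (U'.equivMapOfInjective _ x.injective).toEquiv).le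
    have hrel : ((fixedBy A).map x.toMonoidHom).relIndex U' ≤ 2 := by
      have h1 := Subgroup.relIndex_map_map_of_injective (fixedBy A) U' (f := x.toMonoidHom) x.injective
      rw [hxmap] at h1
      rw [h1]; exact hpow
    have hinf : (fixedBy A ⊓ (fixedBy A).map x.toMonoidHom).relIndex U' ≤ 4 :=
      (Subgroup.relIndex_inf_le).trans (Nat.mul_le_mul hpow hrel)
    have hker : fixedBy A ⊓ (fixedBy A).map x.toMonoidHom ≤ (cm x).ker := by
      rintro u ⟨hu1, v, hv, hvu⟩
      rw [MonoidHom.mem_ker, cm_apply, mul_inv_eq_one]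
      have e1 : a u = u := hu1 a haA
      have e2 : a v = v := hv a haA
      have hvu' : x v = u := hvu
      -- x x = (x a x⁻¹) a⁻¹
      have e3 : (x * a * x⁻¹) u = u := by
        rw [← hvu']
        simp only [MulAut.mul_apply, MulAut.inv_apply_self]
        rw [e2]
      have e4 : x * x = x * a * x⁻¹ * a⁻¹ := by
        have : a * x⁻¹ * a⁻¹ = x := by
          have := congrArg (·⁻¹) hinv
          simpa [mul_assoc] using this
        calc x * x = x * (a * x⁻¹ * a⁻¹) := by rw [this]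
          _ = x * a * x⁻¹ * a⁻¹ := by group
      have e5 : (x * x) u = u := by
        rw [e4, hainv, MulAut.mul_apply, e1, e3]
      have e6 : x ∈ zpowers (x ^ 2) := by
        have h1 : (Nat.gcd 2 (orderOf x)) = 1 := Nat.coprime_two_left.2 hodd
        exact (mem_zpowers_pow_iff).2 h1
      have e7 : zpowers (x ^ 2) ≤ MulAction.stabilizer (MulAut U) u := by
        rw [zpowers_le, sq]
        exact e5
      exact e7 e6
    have hcard : Nat.card (U'.map (cm x)) ≤ 4 := by
      rw [← Subgroup.relIndex_ker]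
      exact (Subgroup.relIndex_le_of_le_left hker (relIndex_ne_zero' _ _)).trans hinf
    have hx3 : x ^ 3 = 1 := by
      apply axb hU B hB2 (x ^ 3) (hodd.of_dvd_nat (orderOf_pow_dvd 3))
      · intro b hb
        exact (Commute.pow_right (hxB b hb) 3)
      · intro u hu
        exact cube_fix' hU hodd U' hxU' hcard hu
    exact hx1 (hno a haA x hxF hinv hx3)
  have h1 := Subgroup.relIndex_mul_index hle
  calc Nat.card A ^ 2 ≤ (2 * Nat.card B) ^ 2 := Nat.pow_le_pow_left hcardA 2
    _ = 4 * Nat.card B ^ 2 := by ring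
    _ ≤ (fixedBy A).relIndex (fixedBy B) * (fixedBy B).index := Nat.mul_le_mul hkey hIH
    _ = _ := h1

end

end Cfsg.Agent.H62
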