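import Cfsg.Agent.H62.W9
import Cfsg.Agent.H80.StrongEmb
import Cfsg.Prelude.Def_CaseTheorems

set_option autoImplicit false
set_option linter.style.haveILetI false
set_option linter.unusedSectionVars false
set_option linter.unusedVariables false

/-!
Maximal 2-local subgroups are strongly embedded.
-/

namespace Cfsg.Agent.H62

open Subgroup Cfsg
open H33 (cj mem_cj conj_mem_cj cj_mul cj_mono IsSyl mem_norm_iff)
open H34 (maxEA fixedBy)

universe u

section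

variable {G : Type u} [Group G] [Finite G]

/-- Theorem W -/
theorem thmW {T V : Subgroup G} (hV : EA V) (hVT : V ≤ T) (hTV : T ≤ normalizer (V : Set G)) (hsq : Sq V T)
    (hJ : normalizer (JJ T : Set G) ≤ normalizer (V : Set G)) :
    ∀ (n : ℕ) (H : Subgroup G), Nat.card H ≤ n → Loc T H → H ≤ normalizer (V : Set G) := by
  intro n
  induction n with
  | zero => intro H h; exact absurd (Nat.card_pos (α := H)) (by omega)
  | succ n ih =>
    intro H hn h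
    by_contra hcon
    refine MC.false (T := T) (H := H) (V := V) ⟨h, hV, hVT, hTV, hsq, hJ, ?_, hcon⟩
    intro K hTK hKH hne
    apply ih K _ (h.sub hTK hKH)
    by_contra hc
    apply hne
    exact Subgroup.eq_of_le_of_card_ge hKH (by omega)

theorem JJ_ne_bot {T : Subgroup G} (hT : IsPGroup 2 T) (h : T ≠ ⊥) : JJ T ≠ ⊥ := by
  obtain ⟨A, hA⟩ := H34.maxEA_nonempty 2 T
  intro hbot
  have h1 : A ≤ JJ T := le_sSup hA
  rw [hbot, le_bot_iff] at h1
  have h2 := hA.2.2 (omZ T) (omZ_le T) (EA_iff.1 (EA_omZ T))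
  rw [h1, Subgroup.card_bot] at h2
  have h3 := Subgroup.card_le_one_iff_eq_bot (omZ T)
  exact omZ_ne_bot hT h (h3.1 h2)

theorem JJ_le (T : Subgroup G) : JJ T ≤ T := sSup_le fun A hA => hA.1

theorem norm_JJ' (T : Subgroup G) : normalizer (T : Set G) ≤ normalizer (JJ T : Set G) :=
  fun _ hn => norm_JJ le_rfl (fun A hA => hA.1) hn

theorem isTwoLocal_of {T : Subgroup G} (hT : IsPGroup 2 T) (h : T ≠ ⊥) :
    IsTwoLocal (normalizer (T : Set G)) := ⟨T, hT, h, rfl⟩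

theorem exists_max {N : Subgroup G} (hN : IsTwoLocal N) : ∃ M, IsMaximalTwoLocal M ∧ N ≤ M := by
  have hfin : {M : Subgroup G | IsTwoLocal M ∧ N ≤ M}.Finite := Set.toFinite _
  obtain ⟨M, ⟨hM, hNM⟩, hmax⟩ := Set.exists_max_image _ (fun X : Subgroup G => Nat.card X) hfin ⟨N, hN, le_rfl⟩
  exact ⟨M, ⟨hM, fun N' hN' h => (Subgroup.eq_of_le_of_card_ge h (hmax N' ⟨hN', hNM.trans h⟩)).symm⟩, hNM⟩

/-- S4-free and characteristic 2 imply S3-free -/
theorem not_involves_S3 {Γ : Type*} [Group Γ] [Finite Γ] (h2 : IsOfCharacteristicTwo Γ)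
    (h4 : ¬ Involves (Equiv.Perm (Fin 4)) Γ) : ¬ Involves (Equiv.Perm (Fin 3)) Γ := by
  haveI : Fact (Nat.Prime 2) := ⟨Nat.prime_two⟩
  haveI : Fact (Nat.Prime 3) := ⟨Nat.prime_three⟩
  intro h3
  obtain ⟨x, y, ⟨a, hx⟩, ⟨b, hy⟩, hy1, hxy⟩ := exists_inverted_of_involves_S3 h3
  apply h4
  rw [S2759.result]
  refine ⟨pCore 2 Γ, Solv.pCore_isPGroup 2, ?_⟩
  set N := normalizer (pCore 2 Γ : Set Γ) with hN
  have hNt : N = ⊤ := normalizer_eq_top (pCore 2 Γ)
  haveI hCn : ((centralizer (pCore 2 Γ : Set Γ)).subgroupOf N).Normal := by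
    rw [hN]; infer_instance
  refine H46.involves_trans involves_S3_dihedral ?_
  rw [(S2758.result (G := N ⧸ (centralizer (pCore 2 Γ : Set Γ)).subgroupOf N) (p := 3) (by norm_num)).2]
  set X : N := ⟨x, by rw [hNt]; exact mem_top x⟩
  set Y : N := ⟨y, by rw [hNt]; exact mem_top y⟩
  refine ⟨QuotientGroup.mk X, QuotientGroup.mk Y, ?_, ?_, ?_, ?_⟩
  · have h5 : orderOf (QuotientGroup.mk X : N ⧸ (centralizer (pCore 2 Γ : Set Γ)).subgroupOf N) ∣ 2 ^ a := by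
      refine (orderOf_map_dvd (QuotientGroup.mk' _) X).trans ?_
      rw [← hx, Subgroup.orderOf_mk]
    obtain ⟨k, -, hk⟩ := (Nat.dvd_prime_pow Nat.prime_two).1 h5
    exact ⟨k, hk⟩
  · have h5 : orderOf (QuotientGroup.mk Y : N ⧸ (centralizer (pCore 2 Γ : Set Γ)).subgroupOf N) ∣ 3 ^ b := by
      refine (orderOf_map_dvd (QuotientGroup.mk' _) Y).trans ?_
      rw [← hy, Subgroup.orderOf_mk]
    obtain ⟨k, -, hk⟩ := (Nat.dvd_prime_pow Nat.prime_three).1 h5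
    exact ⟨k, hk⟩
  · intro h5
    have h6 : Y ∈ (centralizer (pCore 2 Γ : Set Γ)).subgroupOf N := (QuotientGroup.eq_one_iff Y).1 h5
    have h7 : y ∈ pCore 2 Γ := h2 (mem_subgroupOf.1 h6)
    obtain ⟨k, hk⟩ := (Solv.pCore_isPGroup (G := Γ) 2) ⟨y, h7⟩
    refine pow_two_pow_ne_one hy1 ?_ k (congrArg Subtype.val hk)
    rw [hy]; exact (by decide : Odd 3).pow
  · have h5 : X * Y * X⁻¹ = Y⁻¹ := Subtype.ext hxy
    rw [← QuotientGroup.mk_mul, ← QuotientGroup.mk_inv, ← QuotientGroup.mk_mul, h5]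
    rfl

variable (hloc : ∀ M : Subgroup G, IsTwoLocal M → Group.IsSolvable M ∧ IsOfCharacteristicTwo ↥M ∧
  ¬ Involves (Equiv.Perm (Fin 4)) ↥M)

include hloc

theorem loc_of_local {S M : Subgroup G} (hM : IsTwoLocal M) (hS : IsSyl 2 S M) : Loc S M := by
  obtain ⟨h1, h2, h3⟩ := hloc M hM
  refine ⟨hS, h1, not_involves_S3 h2 h3, ?_⟩
  rintro x ⟨hx, hxc⟩
  refine ⟨⟨x, hx⟩, h2 (mem_centralizer_iff.2 ?_), rfl⟩
  intro z hz
  exact Subtype.ext (mem_centralizer_iff.1 hxc (z : G) ⟨z, hz, rfl⟩)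

/-- a Sylow 2-subgroup of `G` lies in a unique maximal 2-local subgroup. -/
theorem uniq_syl {T : Subgroup G} (hT : IsSyl 2 T ⊤) (hT1 : T ≠ ⊥) {M₁ M₂ : Subgroup G}
    (h1 : IsMaximalTwoLocal M₁) (h2 : IsMaximalTwoLocal M₂) (hT1' : T ≤ M₁) (hT2 : T ≤ M₂) : M₁ = M₂ := by
  have hJ1 := JJ_ne_bot hT.2.1 hT1
  set N := normalizer (JJ T : Set G) with hN
  have hNl : IsTwoLocal N := isTwoLocal_of (hT.2.1.to_le (JJ_le T)) hJ1
  have hTN : T ≤ N := le_normalizer.trans (norm_JJ' T)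
  have hL := loc_of_local hloc hNl (hT.mono hTN le_top)
  set V := ncl N (omZ T) with hV
  obtain ⟨hEA, hVo, -⟩ := ncl_omZ hL
  have hVT : V ≤ T := hVo.trans (o2_le_syl hL.syl)
  have hNV : N ≤ normalizer (V : Set G) := norm_ncl _ _
  have hV1 : V ≠ ⊥ := by
    intro h
    apply omZ_ne_bot hT.2.1 hT1
    rw [eq_bot_iff, ← h]; exact le_ncl _ _
  have key : ∀ M : Subgroup G, IsMaximalTwoLocal M → T ≤ M → normalizer (V : Set G) = M := by
    intro M hM hTM
    apply hM.2 _ (isTwoLocal_of hEA.isPGroup hV1)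
    exact thmW hEA hVT (hTN.trans hNV) (sq_of_loc hL) hNV _ M le_rfl
      (loc_of_local hloc hM.1 (hT.mono hTM le_top))
  rw [← key M₁ h1 hT1', ← key M₂ h2 hT2]

/-- uniqueness for 2-subgroups all of whose maximal 2-local overgroups contain a Sylow 2-subgroup of `G` -/
theorem uniq_sub {s : ℕ} (hs : ∀ M : Subgroup G, IsMaximalTwoLocal M → ∀ S, IsSyl 2 S M → s ≤ Nat.card S →
    IsSyl 2 S ⊤) : ∀ (n : ℕ) (U : Subgroup G), IsPGroup 2 U → U ≠ ⊥ → s ≤ Nat.card U → Nat.card G ≤ n + Nat.card U →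
    ∀ M₁ M₂ : Subgroup G, IsMaximalTwoLocal M₁ → IsMaximalTwoLocal M₂ → U ≤ M₁ → U ≤ M₂ → M₁ = M₂ := by
  haveI : Fact (Nat.Prime 2) := ⟨Nat.prime_two⟩
  intro n
  induction n with
  | zero =>
    intro U hU hU1 hsU hn M₁ M₂ _ _ h3 h4
    have h5 : U = ⊤ := Subgroup.eq_top_of_le_card U (by omega)
    rw [h5] at h3 h4
    rw [top_le_iff.1 h3, top_le_iff.1 h4]
  | succ n ih =>
    intro U hU hU1 hsU hn M₁ M₂ h1 h2 hUM1 hUM2
    by_cases hUS : IsSyl 2 U ⊤
    · exact uniq_syl hloc hUS hU1 h1 h2 hUM1 hUM2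
    obtain ⟨M₃, h3, hM3⟩ := exists_max (isTwoLocal_of hU hU1)
    have key : ∀ M : Subgroup G, IsMaximalTwoLocal M → U ≤ M → M = M₃ := by
      intro M hM hUM
      obtain ⟨S, hUS', hS⟩ := IsSyl.exists_of_le hUM hU
      have hSt := hs M hM S hS (hsU.trans (Subgroup.card_le_of_le hUS'))
      have hlt : U < S := lt_of_le_of_ne hUS' (fun h => hUS (by rw [h]; exact hSt))
      have h4 := H33.lt_inf_normalizer hS.2.1 hlt
      have h5 : Nat.card U < Nat.card (S ⊓ normalizer (U : Set G) : Subgroup G) := by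
        refine lt_of_le_of_ne (Subgroup.card_le_of_le h4.le) ?_
        intro h6
        exact h4.ne (Subgroup.eq_of_le_of_card_ge h4.le h6.ge)
      apply ih (S ⊓ normalizer (U : Set G)) (hS.2.1.to_le inf_le_left)
        (fun h => hU1 (eq_bot_iff.2 (h ▸ h4.le))) (by omega) (by omega) M M₃ hM h3
        (inf_le_left.trans hS.1) (inf_le_right.trans hM3)
    rw [key M₁ h1 hUM1, key M₂ h2 hUM2]

/-- every maximal 2-local subgroup contains a Sylow 2-subgroup of `G` -/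
theorem max_full {M : Subgroup G} (hM : IsMaximalTwoLocal M) {S : Subgroup G} (hS : IsSyl 2 S M) : IsSyl 2 S ⊤ := by
  haveI : Fact (Nat.Prime 2) := ⟨Nat.prime_two⟩
  by_contra hcon
  have hfin : {X : Subgroup G | ∃ M, IsMaximalTwoLocal M ∧ IsSyl 2 X M ∧ ¬ IsSyl 2 X ⊤}.Finite := Set.toFinite _
  obtain ⟨S, ⟨M, hM, hS, hS'⟩, hmax⟩ := Set.exists_max_image _ (fun X : Subgroup G => Nat.card X) hfin
    ⟨S, M, hM, hS, hcon⟩
  have hs : ∀ M : Subgroup G, IsMaximalTwoLocal M → ∀ X, IsSyl 2 X M → Nat.card S + 1 ≤ Nat.card X → IsSyl 2 X ⊤ := by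
    intro M' hM' X hX hc
    by_contra h
    have : Nat.card X ≤ Nat.card S := hmax X ⟨M', hM', hX, h⟩
    omega
  have hu := uniq_sub hloc hs (Nat.card G)
  -- `S ≠ 1`
  have hS1 : S ≠ ⊥ := by
    obtain ⟨Q, hQ, hQ1, hMQ⟩ := hM.1
    have hQM : Q ≤ M := by rw [hMQ]; exact le_normalizer
    have := hS.card_le hQM hQ
    intro h
    rw [h, Subgroup.card_bot, Subgroup.card_le_one_iff_eq_bot] at this
    exact hQ1 this
  obtain ⟨T, hST, hT⟩ := IsSyl.exists_of_le (p := 2) (le_top : S ≤ ⊤) hS.2.1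
  have hlt : S < T := lt_of_le_of_ne hST (fun h => hS' (by rw [h]; exact hT))
  have h4 := H33.lt_inf_normalizer hT.2.1 hlt
  set U := T ⊓ normalizer (S : Set G) with hU
  have hUp : IsPGroup 2 U := hT.2.1.to_le inf_le_left
  have hUc : Nat.card S + 1 ≤ Nat.card U := by
    have : Nat.card S < Nat.card U := by
      refine lt_of_le_of_ne (Subgroup.card_le_of_le h4.le) ?_
      intro h6
      exact h4.ne (Subgroup.eq_of_le_of_card_ge h4.le h6.ge)
    omega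
  have hU1 : U ≠ ⊥ := fun h => hS1 (eq_bot_iff.2 (h ▸ h4.le))
  obtain ⟨M₁, hM1, hUM1⟩ := exists_max (isTwoLocal_of hUp hU1)
  have hUM1' : U ≤ M₁ := le_normalizer.trans hUM1
  have key : ∀ X : Subgroup G, IsPGroup 2 X → X ≠ ⊥ → normalizer (S : Set G) ≤ normalizer (X : Set G) →
      normalizer (X : Set G) ≤ M₁ := by
    intro X hX hX1 hn
    obtain ⟨M₂, hM2, hXM2⟩ := exists_max (isTwoLocal_of hX hX1)
    have := hu U hUp hU1 hUc (by omega) M₂ M₁ hM2 hM1 ((inf_le_right.trans hn).trans hXM2) hUM1'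
    rwa [← this]
  have hL := loc_of_local hloc hM.1 hS
  have k1 := key (omZ S) (EA_omZ S).isPGroup (omZ_ne_bot hS.2.1 hS1) (norm_omZ S)
  have k2 := key (JJ S) (hS.2.1.to_le (JJ_le S)) (JJ_ne_bot hS.2.1 hS1) (norm_JJ' S)
  have hMM : M ≤ M₁ := by
    intro x hx
    obtain ⟨c, hc, n, hn, rfl⟩ := factor hL hx
    exact mul_mem (k1 (H33.cent_le_norm' _ hc.2)) (k2 hn.2)
  have hMM' := hM.2 M₁ hM1.1 hMM
  have := hS.card_le (hUM1'.trans hMM'.le) hUp
  omega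

end

end Cfsg.Agent.H62
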