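import Cfsg.Agent.H62.W1
import Cfsg.Agent.H46.Involves
import Cfsg.Agent.S2758
import Cfsg.Agent.S2759
import Cfsg.Agent.H11.Hol
import Cfsg.Agent.ZJ.SolvFact

set_option autoImplicit false
set_option linter.style.haveILetI false
set_option linter.unusedSectionVars false

/-!
The graded offender inequality for solvable groups not involving the symmetric group of degree three.
-/

namespace Cfsg.Agent.H62

open Subgroup Cfsg
open H34 (fixedBy mem_fixedBy fixedBy_anti)

universe u v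

theorem involves_S3_dihedral : Involves (Equiv.Perm (Fin 3)) (DihedralGroup 3) := by
  obtain ⟨K, f, hf⟩ := H46.involves_iff.1 S2759.S3_dihedral
  have h3 : Nat.card (Equiv.Perm (Fin 3)) = 6 := by
    rw [Nat.card_eq_fintype_card, Fintype.card_perm, Fintype.card_fin]; rfl
  have hD : Nat.card (DihedralGroup 3) = 6 := by rw [DihedralGroup.nat_card]
  have h1 : Nat.card (DihedralGroup 3) ≤ Nat.card K := Nat.card_le_card_of_surjective f hf
  have h2 : K = ⊤ := by
    apply Subgroup.eq_top_of_le_card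
    rw [h3, ← hD]; exact h1
  subst h2
  have hbij : Function.Bijective f := by
    rw [Nat.bijective_iff_surjective_and_card]
    refine ⟨hf, ?_⟩
    rw [hD, Subgroup.card_top, h3]
  let e := MulEquiv.ofBijective f hbij
  exact H46.involves_of_surjective ((Subgroup.topEquiv : (⊤ : Subgroup (Equiv.Perm (Fin 3))) ≃* _).toMonoidHom.comp
    e.symm.toMonoidHom) (((Subgroup.topEquiv : (⊤ : Subgroup (Equiv.Perm (Fin 3))) ≃* _).surjective).comp
      e.symm.surjective)

theorem involves_S3_of_inverted {G : Type*} [Group G] {x y : G}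
    (hx : ∃ k : ℕ, orderOf x = 2 ^ k) (hy3 : y ^ 3 = 1) (hy1 : y ≠ 1) (hxy : x * y * x⁻¹ = y⁻¹) :
    Involves (Equiv.Perm (Fin 3)) G := by
  haveI : Fact (Nat.Prime 3) := ⟨Nat.prime_three⟩
  refine H46.involves_trans involves_S3_dihedral ?_
  refine H46.involves_dihedral_of_inverted (p := 3) (by norm_num) hx ⟨1, ?_⟩ hy1 hxy
  rw [pow_one]; exact orderOf_eq_prime hy3 hy1

theorem exists_inverted_of_involves_S3 {G : Type*} [Group G] [Finite G]
    (h : Involves (Equiv.Perm (Fin 3)) G) :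
    ∃ x y : G, (∃ k : ℕ, orderOf x = 2 ^ k) ∧ (∃ k : ℕ, orderOf y = 3 ^ k) ∧ y ≠ 1 ∧
      x * y * x⁻¹ = y⁻¹ := by
  haveI : Fact (Nat.Prime 3) := ⟨Nat.prime_three⟩
  exact (S2758.result (G := G) (p := 3) (by norm_num)).2.1 (H46.involves_trans S2759.S3_dihedral h)

section

variable {H : Type v} [Group H]

/-- fixed points of a subgroup acting through a homomorphism -/
def fx {U : Type u} [CommGroup U] (φ : H →* MulAut U) (A : Subgroup H) : Subgroup U := fixedBy (A.map φ)

theorem mem_fx {U : Type u} [CommGroup U] {φ : H →* MulAut U} {A : Subgroup H} {u : U} :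
    u ∈ fx φ A ↔ ∀ a ∈ A, φ a u = u := by
  constructor
  · intro h a ha; exact h _ ⟨a, ha, rfl⟩
  · rintro h _ ⟨a, ha, rfl⟩; exact h a ha

/-- action on an invariant subgroup -/
def subAct {U : Type u} [Group U] (φ : H →* MulAut U) (U1 : Subgroup U)
    (hinv : ∀ h, ∀ u ∈ U1, φ h u ∈ U1) : H →* MulAut U1 where
  toFun h :=
    { toFun := fun u => ⟨φ h u, hinv h u u.2⟩
      invFun := fun u => ⟨φ h⁻¹ u, hinv h⁻¹ u u.2⟩
      left_inv := by
        intro u
        apply Subtype.ext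
        change φ h⁻¹ (φ h u) = u
        rw [← MulAut.mul_apply, ← map_mul, inv_mul_cancel, map_one, MulAut.one_apply]
      right_inv := by
        intro u
        apply Subtype.ext
        change φ h (φ h⁻¹ u) = u
        rw [← MulAut.mul_apply, ← map_mul, mul_inv_cancel, map_one, MulAut.one_apply]
      map_mul' := by
        intro a b
        exact Subtype.ext (map_mul (φ h) (a : U) (b : U)) }
  map_one' := by
    ext u
    change φ 1 (u : U) = u
    rw [map_one, MulAut.one_apply]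
  map_mul' a b := by
    ext u
    change φ (a * b) (u : U) = φ a (φ b u)
    rw [map_mul, MulAut.mul_apply]

theorem subAct_apply {U : Type u} [Group U] (φ : H →* MulAut U) (U1 : Subgroup U)
    (hinv : ∀ h, ∀ u ∈ U1, φ h u ∈ U1) (h : H) (u : U1) : ((subAct φ U1 hinv h u : U1) : U) = φ h u := rfl

theorem index_fx_le {U : Type u} [CommGroup U] [Finite U] (φ : H →* MulAut U) (U1 : Subgroup U)
    (hinv : ∀ h, ∀ u ∈ U1, φ h u ∈ U1) (A : Subgroup H) :
    (fx (subAct φ U1 hinv) A).index * (fx (H91.quotAct φ U1 hinv) A).index ≤ (fx φ A).index := by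
  have h1 : (fx (subAct φ U1 hinv) A) = (fx φ A).subgroupOf U1 := by
    ext u
    rw [mem_fx, mem_subgroupOf, mem_fx]
    constructor
    · intro h a ha; exact congrArg Subtype.val (h a ha)
    · intro h a ha; exact Subtype.ext (h a ha)
  have h2 : fx φ A ⊔ U1 ≤ (fx (H91.quotAct φ U1 hinv) A).comap (QuotientGroup.mk' U1) := by
    refine sup_le ?_ ?_
    · intro u hu
      rw [mem_comap, mem_fx]
      intro a ha
      change H91.quotAct φ U1 hinv a ((u : U) : U ⧸ U1) = ((u : U) : U ⧸ U1)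
      rw [H91.quotAct_mk, mem_fx.1 hu a ha]
    · intro u hu
      rw [mem_comap]
      have : QuotientGroup.mk' U1 u = 1 := (QuotientGroup.eq_one_iff u).2 hu
      rw [this]; exact one_mem _
  have h3 : (fx (H91.quotAct φ U1 hinv) A).index ≤ (fx φ A ⊔ U1).index := by
    rw [← Subgroup.index_comap_of_surjective _ (QuotientGroup.mk'_surjective U1)]
    exact Subgroup.index_antitone h2
  have h4 : (fx φ A).relIndex U1 = (fx φ A).relIndex (fx φ A ⊔ U1) :=
    (Subgroup.relIndex_sup_left _ _).symm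
  have h5 := Subgroup.relIndex_mul_index (le_sup_left : fx φ A ≤ fx φ A ⊔ U1)
  rw [h1]
  change (fx φ A).relIndex U1 * _ ≤ _
  rw [h4, ← h5]
  exact Nat.mul_le_mul_left _ h3

theorem sq_le_core {U : Type u} [CommGroup U] [Finite U] (hU : ∀ u : U, u * u = 1)
    (Γ : Subgroup (MulAut U)) (hS3 : ¬ Involves (Equiv.Perm (Fin 3)) Γ)
    (hcent : Subgroup.centralizer ((pPrimeCore 2 Γ : Subgroup Γ) : Set Γ) ≤ pPrimeCore 2 Γ)
    (A : Subgroup (MulAut U)) (hAΓ : A ≤ Γ)
    (hcomm : ∀ a ∈ A, ∀ b ∈ A, a * b = b * a) (hsq : ∀ a ∈ A, a * a = 1) :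
    Nat.card A ^ 2 ≤ (fixedBy A).index := by
  haveI : Fact (Nat.Prime 2) := ⟨Nat.prime_two⟩
  set F := (pPrimeCore 2 Γ).map Γ.subtype with hFdef
  have hcardF : Nat.card F = Nat.card (pPrimeCore 2 Γ) := Cop.card_map_subtype _
  have hF : Odd (Nat.card F) := by
    rw [hcardF]
    exact Nat.coprime_two_right.1 (Solv.pPrimeCore_card_coprime (G := Γ) 2)
  have hn2 : (pPrimeCore 2 Γ).Normal := inferInstance
  have hnorm : Γ ≤ normalizer (F : Set (MulAut U)) := by
    intro g hg
    rw [mem_normalizer_iff]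
    intro y
    constructor
    · rintro ⟨z, hz, rfl⟩
      exact ⟨(⟨g, hg⟩ : Γ) * z * (⟨g, hg⟩ : Γ)⁻¹, hn2.conj_mem z hz _, rfl⟩
    · rintro ⟨z, hz, hzy⟩
      refine ⟨(⟨g, hg⟩ : Γ)⁻¹ * z * (⟨g, hg⟩ : Γ), ?_, ?_⟩
      · have := hn2.conj_mem z hz (⟨g, hg⟩ : Γ)⁻¹
        simpa using this
      · change g⁻¹ * (z : MulAut U) * g = y
        have hzy' : (z : MulAut U) = g * y * g⁻¹ := hzy
        rw [hzy']; group
  refine sq_le_aux hU F hF _ A rfl (hAΓ.trans hnorm) hcomm hsq ?_ ?_
  · rw [eq_bot_iff]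
    rintro y ⟨hy, hyc⟩
    have h1 : (⟨y, hAΓ hy⟩ : Γ) ∈ centralizer ((pPrimeCore 2 Γ : Subgroup Γ) : Set Γ) := by
      rw [mem_centralizer_iff]
      intro z hz
      exact Subtype.ext (mem_centralizer_iff.1 hyc z ⟨z, hz, rfl⟩)
    have h2 := hcent h1
    have h3 : y ∈ F := ⟨_, h2, rfl⟩
    have h4 : orderOf y ∣ Nat.card F := by
      rw [← Subgroup.orderOf_mk y h3]; exact orderOf_dvd_natCard _
    have h5 : orderOf y ∣ 2 := orderOf_dvd_of_pow_eq_one (by rw [sq]; exact hsq y hy)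
    have h6 : orderOf y ∣ 1 := by
      have h7 : Nat.Coprime 2 (Nat.card F) := Nat.coprime_two_left.2 hF
      rw [← h7]
      exact Nat.dvd_gcd h5 h4
    rw [mem_bot]
    exact orderOf_eq_one_iff.1 (Nat.dvd_one.1 h6)
  · intro a ha x hx hax hx3
    by_contra hx1
    apply hS3
    have hxΓ : x ∈ Γ := by obtain ⟨z, _, rfl⟩ := hx; exact z.2
    refine involves_S3_of_inverted (x := (⟨a, hAΓ ha⟩ : Γ)) (y := ⟨x, hxΓ⟩) ?_ (Subtype.ext hx3)
      (fun h => hx1 (congrArg Subtype.val h)) (Subtype.ext hax)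
    have h1 : orderOf (⟨a, hAΓ ha⟩ : Γ) ∣ 2 ^ 1 :=
      orderOf_dvd_of_pow_eq_one (Subtype.ext (by rw [pow_one, sq]; exact hsq a ha))
    obtain ⟨k, _, hk⟩ := (Nat.dvd_prime_pow Nat.prime_two).1 h1
    exact ⟨k, hk⟩

/-- the irreducible (more generally: reduced) case -/
theorem sq_le_reduced {U : Type u} [CommGroup U] [Finite U] (hU : ∀ u : U, u * u = 1)
    (Γ : Subgroup (MulAut U)) (hs : Group.IsSolvable Γ) (hS3 : ¬ Involves (Equiv.Perm (Fin 3)) Γ)
    (hred : pCore 2 Γ = ⊥) (A : Subgroup (MulAut U)) (hAΓ : A ≤ Γ)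
    (hcomm : ∀ a ∈ A, ∀ b ∈ A, a * b = b * a) (hsq : ∀ a ∈ A, a * a = 1) :
    Nat.card A ^ 2 ≤ (fixedBy A).index := by
  haveI : Fact (Nat.Prime 2) := ⟨Nat.prime_two⟩
  exact sq_le_core hU Γ hS3 (H11.centralizer_pPrimeCore_le (G := Γ) (p := 2)
    (ZJ.isPSolvable_of_isSolvable (G := Γ) 2 hs) hred) A hAΓ hcomm hsq

/-- The graded offender inequality. -/
theorem gs [Finite H] (hs : Group.IsSolvable H) (hS3 : ¬ Involves (Equiv.Perm (Fin 3)) H) (A : Subgroup H) :
    ∀ (n : ℕ) (U : Type u) [CommGroup U] [Finite U] (φ : H →* MulAut U), Nat.card U = n →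
    (∀ u : U, u * u = 1) → (∀ a ∈ A, ∀ b ∈ A, φ (a * b) = φ (b * a)) → (∀ a ∈ A, φ (a * a) = 1) →
    ∃ D : Subgroup H, D.Normal ∧ (∀ d ∈ D, ∃ k : ℕ, φ (d ^ 2 ^ k) = 1) ∧
      D.relIndex A ^ 2 ≤ (fx φ A).index := by
  haveI : Fact (Nat.Prime 2) := ⟨Nat.prime_two⟩
  intro n
  induction n using Nat.strong_induction_on with
  | _ n ih =>
  intro U _ _ φ hn hU hcomm hsq
  by_cases hirr : ∀ U1 : Subgroup U, (∀ h, ∀ u ∈ U1, φ h u ∈ U1) → U1 = ⊥ ∨ U1 = ⊤
  · refine ⟨φ.ker, inferInstance, fun d hd => ⟨0, ?_⟩, ?_⟩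
    · rw [pow_zero, pow_one]; exact hd
    · rw [Subgroup.relIndex_ker]
      refine sq_le_reduced hU φ.range ?_ ?_ ?_ (A.map φ) (Subgroup.map_le_range φ A) ?_ ?_
      · exact Group.isSolvable_of_surjective φ.rangeRestrict_surjective
      · intro h
        exact hS3 (H46.involves_of_surj h φ.rangeRestrict φ.rangeRestrict_surjective)
      · -- O_2 of the image is trivial
        set P := (pCore 2 φ.range).map φ.range.subtype with hP
        have hP2 : IsPGroup 2 P := (Solv.pCore_isPGroup 2).map _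
        have hcn : (pCore 2 φ.range).Normal := inferInstance
        have hinv : ∀ h, ∀ u ∈ fixedBy P, φ h u ∈ fixedBy P := by
          rintro h u hu _ ⟨z, hz, rfl⟩
          have h1 : (⟨φ h, ⟨h, rfl⟩⟩ : φ.range)⁻¹ * z * (⟨φ h, ⟨h, rfl⟩⟩ : φ.range) ∈ pCore 2 φ.range := by
            have := hcn.conj_mem z hz (⟨φ h, ⟨h, rfl⟩⟩ : φ.range)⁻¹
            simpa using this
          have h2 : ((φ h)⁻¹ * (z : MulAut U) * φ h) u = u := hu _ ⟨_, h1, rfl⟩
          change (z : MulAut U) (φ h u) = φ h u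
          calc (z : MulAut U) (φ h u) = (φ h * ((φ h)⁻¹ * (z : MulAut U) * φ h)) u := by
                rw [← MulAut.mul_apply]; congr 1; group
            _ = φ h u := by rw [MulAut.mul_apply, h2]
        have key : fixedBy P = ⊤ := by
          rcases hirr _ hinv with h | h
          · by_cases hUt : (⊤ : Subgroup U) = ⊥
            · rw [h, hUt]
            · exfalso
              obtain ⟨d, _, hd1, hd⟩ := exists_fixed_of_two_group hU P hP2 ⊤ hUt
                (fun _ _ _ _ => mem_top _)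
              apply hd1
              have h1 : d ∈ fixedBy P := hd
              rw [h, mem_bot] at h1
              exact h1
          · exact h
        rw [eq_bot_iff]
        intro z hz
        rw [mem_bot]
        apply Subtype.ext
        ext u
        have h1 : u ∈ fixedBy P := by rw [key]; trivial
        exact h1 _ ⟨z, hz, rfl⟩
      · rintro _ ⟨a, ha, rfl⟩ _ ⟨b, hb, rfl⟩
        rw [← map_mul, ← map_mul]; exact hcomm a ha b hb
      · rintro _ ⟨a, ha, rfl⟩
        rw [← map_mul]; exact hsq a ha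
  · push Not at hirr
    obtain ⟨U1, hinv, hbot, htop⟩ := hirr
    have hc1 : Nat.card U1 < n := by
      rw [← hn]
      refine lt_of_le_of_ne (Subgroup.card_le_card_group U1) (fun h => htop ?_)
      exact Subgroup.eq_top_of_card_eq U1 h
    have hc2 : Nat.card (U ⧸ U1) < n := by
      rw [← hn, ← Subgroup.index_eq_card]
      have h1 := U1.card_mul_index
      have h2 : 1 < Nat.card U1 := by
        rw [Subgroup.one_lt_card_iff_ne_bot]; exact hbot
      have h3 : 0 < U1.index := Nat.pos_of_ne_zero Subgroup.index_ne_zero_of_finite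
      nlinarith
    obtain ⟨D1, hD1n, hD1, hD1i⟩ := ih _ hc1 U1 (subAct φ U1 hinv) rfl
      (fun u => Subtype.ext (hU u))
      (by
        intro a ha b hb
        ext u
        rw [subAct_apply, subAct_apply, hcomm a ha b hb])
      (by
        intro a ha
        ext u
        rw [subAct_apply, hsq a ha]; rfl)
    obtain ⟨D2, hD2n, hD2, hD2i⟩ := ih _ hc2 (U ⧸ U1) (H91.quotAct φ U1 hinv) rfl
      (by
        intro u
        obtain ⟨y, rfl⟩ := QuotientGroup.mk_surjective u
        rw [← QuotientGroup.mk_mul, hU y]; rfl)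
      (by
        intro a ha b hb
        ext u
        obtain ⟨y, rfl⟩ := QuotientGroup.mk_surjective u
        rw [H91.quotAct_mk, H91.quotAct_mk, hcomm a ha b hb])
      (by
        intro a ha
        ext u
        obtain ⟨y, rfl⟩ := QuotientGroup.mk_surjective u
        rw [H91.quotAct_mk, hsq a ha]; rfl)
    refine ⟨D1 ⊓ D2, inferInstance, ?_, ?_⟩
    · rintro d ⟨hd1, hd2⟩
      obtain ⟨k1, hk1⟩ := hD1 d hd1
      obtain ⟨k2, hk2⟩ := hD2 d hd2
      refine ⟨k1 + k2 + 1, ?_⟩
      set e := d ^ 2 ^ (k1 + k2) with he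
      have he1 : subAct φ U1 hinv e = 1 := by
        have : e = (d ^ 2 ^ k1) ^ 2 ^ k2 := by rw [he, pow_add, pow_mul]
        rw [this, map_pow, hk1, one_pow]
      have he2 : H91.quotAct φ U1 hinv e = 1 := by
        have : e = (d ^ 2 ^ k2) ^ 2 ^ k1 := by rw [he, pow_add, mul_comm, pow_mul]
        rw [this, map_pow, hk2, one_pow]
      have he3 : d ^ 2 ^ (k1 + k2 + 1) = e * e := by
        rw [he, ← sq, ← pow_mul, pow_succ 2]
      rw [he3, map_mul]
      ext u
      change φ e (φ e u) = u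
      have h1 : ((φ e u : U) : U ⧸ U1) = (u : U ⧸ U1) := by
        have := DFunLike.congr_fun he2 ((u : U) : U ⧸ U1)
        rw [H91.quotAct_mk] at this
        exact this
      have h2 : u⁻¹ * φ e u ∈ U1 := QuotientGroup.eq.1 h1.symm
      have h3 : φ e (u⁻¹ * φ e u) = u⁻¹ * φ e u := by
        have := congrArg Subtype.val (DFunLike.congr_fun he1 (⟨u⁻¹ * φ e u, h2⟩ : U1))
        rw [subAct_apply] at this
        exact this
      have h4 : φ e u = u * (u⁻¹ * φ e u) := by group
      have h5 : (u⁻¹ * φ e u) * (u⁻¹ * φ e u) = 1 := hU _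
      calc φ e (φ e u) = φ e (u * (u⁻¹ * φ e u)) := by rw [← h4]
        _ = φ e u * φ e (u⁻¹ * φ e u) := map_mul _ _ _
        _ = u * ((u⁻¹ * φ e u) * (u⁻¹ * φ e u)) := by rw [h3]; group
        _ = u := by rw [h5, mul_one]
    · calc (D1 ⊓ D2).relIndex A ^ 2 ≤ (D1.relIndex A * D2.relIndex A) ^ 2 :=
            Nat.pow_le_pow_left (Subgroup.relIndex_inf_le) 2
        _ = D1.relIndex A ^ 2 * D2.relIndex A ^ 2 := by ring
        _ ≤ (fx (subAct φ U1 hinv) A).index * (fx (H91.quotAct φ U1 hinv) A).index :=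
            Nat.mul_le_mul hD1i hD2i
        _ ≤ _ := index_fx_le φ U1 hinv A

end

end Cfsg.Agent.H62
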