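import Cfsg.Agent.H62.W2
import Cfsg.Agent.H33.Frattini
import Cfsg.Agent.H34.ClassTwo

set_option autoImplicit false
set_option linter.style.haveILetI false
set_option linter.unusedSectionVars false

/-!
Relative set-up: 2-subgroups, closures and sections inside an ambient finite group.
-/

namespace Cfsg.Agent.H62

open Subgroup Cfsg
open H33 (cj mem_cj conj_mem_cj cj_mul cj_mono IsSyl mem_norm_iff)
open H34 (maxEA)

variable {G : Type*} [Group G]

/-- elementary abelian 2-subgroups -/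
def EA (V : Subgroup G) : Prop := (∀ a ∈ V, ∀ b ∈ V, a * b = b * a) ∧ ∀ a ∈ V, a * a = 1

theorem EA_iff {V : Subgroup G} : EA V ↔ IsElementaryAbelian 2 V := by
  rw [H34.isElementaryAbelian_iff]
  simp only [EA, sq]

theorem EA.mono {V W : Subgroup G} (h : EA V) (hW : W ≤ V) : EA W :=
  ⟨fun a ha b hb => h.1 a (hW ha) b (hW hb), fun a ha => h.2 a (hW ha)⟩

theorem EA.isPGroup {V : Subgroup G} (h : EA V) : IsPGroup 2 V := isPGroup_two_of_sq V h.2

theorem EA.cj {V : Subgroup G} (h : EA V) (g : G) : EA (cj g V) := by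
  constructor
  · intro a ha b hb
    rw [mem_cj] at ha hb
    have := h.1 _ ha _ hb
    calc a * b = g * ((g⁻¹ * a * g) * (g⁻¹ * b * g)) * g⁻¹ := by group
      _ = g * ((g⁻¹ * b * g) * (g⁻¹ * a * g)) * g⁻¹ := by rw [this]
      _ = b * a := by group
  · intro a ha
    rw [mem_cj] at ha
    calc a * a = g * ((g⁻¹ * a * g) * (g⁻¹ * a * g)) * g⁻¹ := by group
      _ = 1 := by rw [h.2 _ ha]; group

/-- the closure of the `H`-conjugates of `V` -/
def ncl (H V : Subgroup G) : Subgroup G := ⨆ h : H, cj (h : G) V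

theorem cj_le_ncl {H V : Subgroup G} {h : G} (hh : h ∈ H) : cj h V ≤ ncl H V :=
  le_iSup (fun h : H => cj (h : G) V) ⟨h, hh⟩

theorem le_ncl (H V : Subgroup G) : V ≤ ncl H V := by
  have := cj_le_ncl (V := V) H.one_mem
  rwa [H33.cj_one] at this

theorem ncl_le {H V K : Subgroup G} (h : ∀ x ∈ H, cj x V ≤ K) : ncl H V ≤ K :=
  iSup_le fun x => h x x.2

theorem ncl_le_of_norm {H V K : Subgroup G} (hK : H ≤ normalizer (K : Set G)) (hV : V ≤ K) : ncl H V ≤ K := by
  apply ncl_le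
  intro x hx
  rw [← mem_norm_iff.1 (hK hx)]
  exact cj_mono hV

theorem norm_ncl (H V : Subgroup G) : H ≤ normalizer (ncl H V : Set G) := by
  intro g hg
  rw [mem_norm_iff]
  apply le_antisymm
  · unfold ncl
    rw [H33.cj, Subgroup.map_iSup]
    apply iSup_le
    intro x
    change cj g (cj (x : G) V) ≤ _
    rw [← cj_mul]
    exact cj_le_ncl (H.mul_mem hg x.2)
  · apply ncl_le
    intro x hx
    have h1 : cj x V = cj g (cj (g⁻¹ * x) V) := by rw [← cj_mul]; congr 1; group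
    rw [h1]
    exact cj_mono (cj_le_ncl (H.mul_mem (H.inv_mem hg) hx))

theorem ncl_le_self {H V : Subgroup G} (hV : V ≤ H) : ncl H V ≤ H :=
  ncl_le_of_norm le_normalizer hV

theorem mem_ncl_induction {H V : Subgroup G} {p : G → Prop} (h1 : p 1) (hm : ∀ a b, p a → p b → p (a * b))
    (hi : ∀ a, p a → p a⁻¹) (hc : ∀ h ∈ H, ∀ v ∈ V, p (h * v * h⁻¹)) : ∀ x ∈ ncl H V, p x := by
  let K : Subgroup G := { carrier := {x | p x}, one_mem' := h1, mul_mem' := fun ha hb => hm _ _ ha hb,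
                          inv_mem' := fun ha => hi _ ha }
  have : ncl H V ≤ K := by
    apply ncl_le
    intro x hx
    rw [H33.cj_le_iff]
    intro v hv
    exact hc x hx v hv
  intro x hx
  exact this hx

/-- if all conjugates commute with each other the closure is elementary abelian -/
theorem EA_ncl {H V : Subgroup G} (hV : EA V) (hc : ∀ h ∈ H, ∀ a ∈ V, ∀ b ∈ cj h V, a * b = b * a) :
    EA (ncl H V) := by
  have h0 : ∀ x ∈ H, ∀ y ∈ H, cj y V ≤ centralizer (cj x V : Set G) := by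
    intro x hx y hy b hb
    rw [mem_centralizer_iff]
    intro a ha
    have ha' : x⁻¹ * a * x ∈ V := mem_cj.1 ha
    have hb' : x⁻¹ * b * x ∈ cj (x⁻¹ * y) V := by
      rw [mem_cj] at hb ⊢
      have : (x⁻¹ * y)⁻¹ * (x⁻¹ * b * x) * (x⁻¹ * y) = y⁻¹ * b * y := by group
      rw [this]; exact hb
    have h1 := hc (x⁻¹ * y) (H.mul_mem (H.inv_mem hx) hy) _ ha' _ hb'
    calc a * b = x * ((x⁻¹ * a * x) * (x⁻¹ * b * x)) * x⁻¹ := by group
      _ = x * ((x⁻¹ * b * x) * (x⁻¹ * a * x)) * x⁻¹ := by rw [h1]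
      _ = b * a := by group
  have h1 : ncl H V ≤ centralizer (ncl H V : Set G) := by
    apply ncl_le
    intro y hy
    rw [le_centralizer_iff]
    apply ncl_le
    intro x hx
    rw [le_centralizer_iff]
    exact h0 x hx y hy
  have hab : ∀ a ∈ ncl H V, ∀ b ∈ ncl H V, a * b = b * a := fun a ha b hb =>
    mem_centralizer_iff.1 (h1 hb) a ha
  refine ⟨hab, ?_⟩
  let K : Subgroup G := { carrier := {x | x ∈ ncl H V ∧ x * x = 1}, one_mem' := ⟨one_mem _, mul_one 1⟩,
                          mul_mem' := by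
                            rintro a b ⟨ha, ha2⟩ ⟨hb, hb2⟩
                            refine ⟨mul_mem ha hb, ?_⟩
                            calc a * b * (a * b) = a * (b * a) * b := by group
                              _ = (a * a) * (b * b) := by rw [hab b hb a ha]; group
                              _ = 1 := by rw [ha2, hb2, mul_one]
                          inv_mem' := by
                            rintro a ⟨ha, ha2⟩
                            refine ⟨inv_mem ha, ?_⟩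
                            have := congrArg (·⁻¹) ha2
                            simpa using this }
  have h2 : ncl H V ≤ K := by
    apply ncl_le
    intro x hx a ha
    exact ⟨cj_le_ncl hx ha, (hV.cj x).2 a ha⟩
  intro a ha
  exact (h2 ha).2

/-- `O_2(H)` inside the ambient group -/
def o2 (H : Subgroup G) : Subgroup G := (pCore 2 H).map H.subtype

theorem o2_le (H : Subgroup G) : o2 H ≤ H := map_subtype_le _

theorem norm_o2 (H : Subgroup G) : H ≤ normalizer (o2 H : Set G) := by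
  intro g hg
  have hn : (pCore 2 H).Normal := inferInstance
  rw [mem_normalizer_iff]
  intro y
  constructor
  · rintro ⟨z, hz, rfl⟩
    exact ⟨(⟨g, hg⟩ : H) * z * (⟨g, hg⟩ : H)⁻¹, hn.conj_mem z hz _, rfl⟩
  · rintro ⟨z, hz, hzy⟩
    refine ⟨(⟨g, hg⟩ : H)⁻¹ * z * (⟨g, hg⟩ : H), ?_, ?_⟩
    · have := hn.conj_mem z hz (⟨g, hg⟩ : H)⁻¹
      simpa using this
    · change g⁻¹ * (z : G) * g = y
      have hzy' : (z : G) = g * y * g⁻¹ := hzy
      rw [hzy']; group

theorem isPGroup_o2 (H : Subgroup G) : IsPGroup 2 (o2 H) := by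
  haveI : Fact (Nat.Prime 2) := ⟨Nat.prime_two⟩
  exact (Solv.pCore_isPGroup 2).map _

theorem normal_subgroupOf {H P : Subgroup G} (hn : H ≤ normalizer (P : Set G)) :
    (P.subgroupOf H).Normal := by
  constructor
  intro x hx y
  exact (mem_normalizer_iff.1 (hn y.2) (x : G)).1 hx

theorem le_o2 {H P : Subgroup G} (hPH : P ≤ H) (hP : IsPGroup 2 P) (hn : H ≤ normalizer (P : Set G)) :
    P ≤ o2 H := by
  haveI : Fact (Nat.Prime 2) := ⟨Nat.prime_two⟩
  have h1 : P.subgroupOf H ≤ pCore 2 H :=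
    Solv.le_pCore (normal_subgroupOf hn) (hP.comap_of_injective H.subtype H.subtype_injective)
  intro x hx
  exact ⟨⟨x, hPH hx⟩, h1 hx, rfl⟩

/-- The hypothesis on the local subgroups. -/
structure Loc (T H : Subgroup G) : Prop where
  syl : IsSyl 2 T H
  solv : Group.IsSolvable H
  free : ¬ Involves (Equiv.Perm (Fin 3)) H
  c2 : H ⊓ centralizer (o2 H : Set G) ≤ o2 H

section

variable [Finite G]

theorem o2_le_syl {T H : Subgroup G} (h : IsSyl 2 T H) : o2 H ≤ T := by
  haveI : Fact (Nat.Prime 2) := ⟨Nat.prime_two⟩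
  obtain ⟨x, hx, hxT⟩ := h.conj_le (o2_le H) (isPGroup_o2 H)
  rwa [mem_norm_iff.1 (norm_o2 H hx)] at hxT

/-- normal 2-subgroups lie in the Sylow subgroup -/
theorem le_syl_of_norm {T H P : Subgroup G} (h : IsSyl 2 T H) (hPH : P ≤ H) (hP : IsPGroup 2 P)
    (hn : H ≤ normalizer (P : Set G)) : P ≤ T := (le_o2 hPH hP hn).trans (o2_le_syl h)

theorem Loc.sub {T H K : Subgroup G} (h : Loc T H) (hTK : T ≤ K) (hKH : K ≤ H) : Loc T K := by
  refine ⟨h.syl.mono hTK hKH, ?_, ?_, ?_⟩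
  · haveI := h.solv
    exact Group.isSolvable_of_isSolvable_injective (f := Subgroup.inclusion hKH)
      (Subgroup.inclusion_injective hKH)
  · intro hf
    exact h.free (H46.involves_of_injective hf (Subgroup.inclusion hKH) (Subgroup.inclusion_injective hKH))
  · have h1 : o2 H ≤ o2 K := le_o2 ((o2_le_syl h.syl).trans hTK) (isPGroup_o2 H)
      (hKH.trans (norm_o2 H))
    intro x hx
    apply h1
    apply h.c2
    exact ⟨hKH hx.1, centralizer_le h1 hx.2⟩

/-- `Ω₁(Z(T))` -/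
def omZ (T : Subgroup G) : Subgroup G where
  carrier := {t | t ∈ T ∧ (∀ s ∈ T, t * s = s * t) ∧ t * t = 1}
  one_mem' := ⟨one_mem _, fun s _ => by simp, mul_one 1⟩
  mul_mem' := by
    rintro a b ⟨ha, ha1, ha2⟩ ⟨hb, hb1, hb2⟩
    refine ⟨mul_mem ha hb, fun s hs => ?_, ?_⟩
    · calc a * b * s = a * (b * s) := mul_assoc _ _ _
        _ = (a * s) * b := by rw [hb1 s hs]; group
        _ = s * (a * b) := by rw [ha1 s hs]; group
    · calc a * b * (a * b) = a * (b * a) * b := by group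
        _ = (a * a) * (b * b) := by rw [hb1 a ha]; group
        _ = 1 := by rw [ha2, hb2, mul_one]
  inv_mem' := by
    rintro a ⟨ha, ha1, ha2⟩
    have : a⁻¹ = a := inv_eq_of_mul_eq_one_left ha2
    rw [this]
    exact ⟨ha, ha1, ha2⟩

theorem omZ_le (T : Subgroup G) : omZ T ≤ T := fun _ h => h.1

theorem EA_omZ (T : Subgroup G) : EA (omZ T) := ⟨fun a ha b hb => ha.2.1 b hb.1, fun a ha => ha.2.2⟩

theorem omZ_ne_bot {T : Subgroup G} (hT : IsPGroup 2 T) (h : T ≠ ⊥) : omZ T ≠ ⊥ := by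
  haveI : Fact (Nat.Prime 2) := ⟨Nat.prime_two⟩
  have h1 := H33.center_ne_bot hT h
  obtain ⟨⟨z, hz⟩, hz1'⟩ := Subgroup.ne_bot_iff_exists_ne_one.1 h1
  have hz1 : z ≠ 1 := fun h => hz1' (Subtype.ext h)
  obtain ⟨k, hk⟩ := hT ⟨z, hz.1⟩
  have hk' : z ^ 2 ^ k = 1 := congrArg Subtype.val hk
  -- an involution in ⟨z⟩
  have h2 : 2 ∣ orderOf z := by
    have h3 : orderOf z ∣ 2 ^ k := orderOf_dvd_of_pow_eq_one hk'
    obtain ⟨j, _, hj⟩ := (Nat.dvd_prime_pow Nat.prime_two).1 h3
    rw [hj]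
    rcases j with _ | j
    · exfalso; apply hz1; rw [pow_zero] at hj; exact orderOf_eq_one_iff.1 hj
    · exact ⟨2 ^ j, by rw [pow_succ]; ring⟩
  obtain ⟨m, hm⟩ := h2
  have hm0 : 0 < m := by
    have := orderOf_pos z
    omega
  intro hbot
  have h5 : z ^ m ∈ omZ T := by
    refine ⟨pow_mem hz.1 m, fun s hs => ?_, ?_⟩
    · have : Commute z s := (mem_centralizer_iff.1 hz.2 s hs).symm
      exact this.pow_left m
    · rw [← pow_add, ← two_mul, ← hm, pow_orderOf_eq_one]
  rw [hbot, mem_bot] at h5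
  have := orderOf_dvd_of_pow_eq_one h5
  have := Nat.le_of_dvd hm0 this
  omega

theorem norm_omZ (T : Subgroup G) : normalizer (T : Set G) ≤ normalizer (omZ T : Set G) := by
  have key : ∀ g ∈ normalizer (T : Set G), ∀ x ∈ omZ T, g * x * g⁻¹ ∈ omZ T := by
    rintro g hg x ⟨hx, hx1, hx2⟩
    refine ⟨(mem_normalizer_iff.1 hg x).1 hx, fun s hs => ?_, ?_⟩
    · have hs' : g⁻¹ * s * g ∈ T := (mem_normalizer_iff''.1 hg s).1 hs
      have := hx1 _ hs'
      calc g * x * g⁻¹ * s = g * (x * (g⁻¹ * s * g)) * g⁻¹ := by group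
        _ = s * (g * x * g⁻¹) := by rw [this]; group
    · calc g * x * g⁻¹ * (g * x * g⁻¹) = g * (x * x) * g⁻¹ := by group
        _ = 1 := by rw [hx2]; group
  intro g hg
  rw [mem_normalizer_iff]
  intro x
  refine ⟨key g hg x, fun hx => ?_⟩
  have := key g⁻¹ (inv_mem hg) _ hx
  have e : g⁻¹ * (g * x * g⁻¹) * g⁻¹⁻¹ = x := by group
  rwa [e] at this

theorem omZ_le_o2 {T H : Subgroup G} (h : Loc T H) : omZ T ≤ o2 H := by
  intro z hz
  apply h.c2
  refine ⟨h.syl.1 hz.1, mem_centralizer_iff.2 ?_⟩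
  intro q hq
  exact (hz.2.1 q (o2_le_syl h.syl hq)).symm

/-- the normal closure of `Ω₁(Z(T))` is elementary abelian, contained in `O_2(H)` and centralized by it. -/
theorem ncl_omZ {T H : Subgroup G} (h : Loc T H) : EA (ncl H (omZ T)) ∧ ncl H (omZ T) ≤ o2 H ∧
    ncl H (omZ T) ≤ centralizer (o2 H : Set G) := by
  have h1 : ncl H (omZ T) ≤ o2 H := ncl_le_of_norm (norm_o2 H) (omZ_le_o2 h)
  have h2 : ncl H (omZ T) ≤ centralizer (o2 H : Set G) := by
    apply ncl_le
    intro x hx a ha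
    rw [mem_centralizer_iff]
    intro q hq
    have ha' : x⁻¹ * a * x ∈ omZ T := mem_cj.1 ha
    have hq' : x⁻¹ * q * x ∈ o2 H := (mem_normalizer_iff''.1 (norm_o2 H hx) q).1 hq
    have h3 := ha'.2.1 _ (o2_le_syl h.syl hq')
    calc q * a = x * ((x⁻¹ * q * x) * (x⁻¹ * a * x)) * x⁻¹ := by group
      _ = x * ((x⁻¹ * a * x) * (x⁻¹ * q * x)) * x⁻¹ := by rw [h3]
      _ = a * q := by group
  refine ⟨EA_ncl (EA_omZ T) ?_, h1, h2⟩
  intro x hx a ha b hb
  exact mem_centralizer_iff.1 (h2 (cj_le_ncl hx hb)) a (h1 (le_ncl _ _ ha))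

/-- `O_2(H/C_H(V)) = 1` for `V = ⟨Ω₁(Z(T))^H⟩`. -/
theorem reduced {T H D : Subgroup G} (h : Loc T H) (hDH : D ≤ H) (hn : H ≤ normalizer (D : Set G))
    (hD : ∀ d ∈ D, ∃ k : ℕ, d ^ 2 ^ k ∈ centralizer (ncl H (omZ T) : Set G)) :
    D ≤ centralizer (ncl H (omZ T) : Set G) := by
  haveI : Fact (Nat.Prime 2) := ⟨Nat.prime_two⟩
  set V := ncl H (omZ T) with hV
  have hsyl : IsSyl 2 (T ⊓ D) D := h.syl.inf_normal hDH hn
  -- D centralizes Ω₁(Z(T))
  have h1 : D ≤ centralizer (omZ T : Set G) := by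
    set K := D ⊓ centralizer (omZ T : Set G) with hK
    have hKD : K ≤ D := inf_le_left
    have hTK : T ⊓ D ≤ K := by
      rintro t ⟨ht, htD⟩
      refine ⟨htD, mem_centralizer_iff.2 ?_⟩
      intro z hz
      exact hz.2.1 t ht
    have hodd : ¬ 2 ∣ K.relIndex D := by
      intro h2
      apply hsyl.2.2
      rw [← Subgroup.relIndex_mul_relIndex _ _ _ hTK hKD]
      exact Dvd.dvd.mul_left h2 _
    set C := D ⊓ centralizer (V : Set G) with hC
    have hVH : H ≤ normalizer (V : Set G) := norm_ncl _ _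
    have hCn : (C.subgroupOf D).Normal := by
      apply normal_subgroupOf
      intro d hd
      apply H33.norm_inf (le_normalizer hd)
      exact H33.norm_le_norm_cent V (hVH (hDH hd))
    have hp : IsPGroup 2 (D ⧸ C.subgroupOf D) := by
      intro x
      obtain ⟨d, rfl⟩ := QuotientGroup.mk_surjective x
      obtain ⟨k, hk⟩ := hD d d.2
      refine ⟨k, ?_⟩
      rw [← QuotientGroup.mk_pow, QuotientGroup.eq_one_iff]
      exact ⟨(d ^ 2 ^ k).2, hk⟩
    obtain ⟨k, hk⟩ := IsPGroup.iff_card.1 hp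
    rw [← Subgroup.index_eq_card] at hk
    have hCK : C ≤ K := inf_le_inf_left _ (centralizer_le (le_ncl _ _))
    have hdvd : K.relIndex D ∣ 2 ^ k := by
      rw [← hk]
      change _ ∣ C.relIndex D
      rw [← Subgroup.relIndex_mul_relIndex _ _ _ hCK hKD]
      exact Dvd.intro_left _ rfl
    obtain ⟨j, _, hj⟩ := (Nat.dvd_prime_pow Nat.prime_two).1 hdvd
    have hj0 : j = 0 := by
      by_contra hne
      apply hodd
      rw [hj]
      exact dvd_pow_self 2 hne
    rw [hj0, pow_zero, Subgroup.relIndex_eq_one] at hj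
    exact hj.trans inf_le_right
  rw [le_centralizer_iff]
  apply ncl_le
  intro x hx a ha
  rw [mem_centralizer_iff]
  intro d hd
  have ha' : x⁻¹ * a * x ∈ omZ T := mem_cj.1 ha
  have hd' : x⁻¹ * d * x ∈ D := (mem_normalizer_iff''.1 (hn hx) d).1 hd
  have h3 := mem_centralizer_iff.1 (h1 hd') _ ha'
  calc d * a = x * ((x⁻¹ * d * x) * (x⁻¹ * a * x)) * x⁻¹ := by group
    _ = x * ((x⁻¹ * a * x) * (x⁻¹ * d * x)) * x⁻¹ := by rw [h3]
    _ = a * d := by group

end

end Cfsg.Agent.H62
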