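import Cfsg.Agent.H62.W3

set_option autoImplicit false
set_option linter.style.haveILetI false
set_option linter.unusedSectionVars false
set_option linter.unusedVariables false

/-!
Section form of the graded offender inequality, factorization.
-/

namespace Cfsg.Agent.H62

open Subgroup Cfsg
open H33 (cj mem_cj conj_mem_cj cj_mul cj_mono IsSyl mem_norm_iff)
open H34 (maxEA fixedBy)

variable {G : Type*} [Group G]

section

variable [Finite G]

theorem gs_sec {H U1 U2 : Subgroup G} (hs : Group.IsSolvable H)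
    (hfree : ¬ Involves (Equiv.Perm (Fin 3)) H)
    (h1 : H ≤ normalizer (U1 : Set G)) (h2 : H ≤ normalizer (U2 : Set G))
    (hab : ∀ x ∈ U1, ∀ y ∈ U1, x * y * x⁻¹ * y⁻¹ ∈ U2) (hsq : ∀ x ∈ U1, x * x ∈ U2)
    {A : Subgroup G} (hAH : A ≤ H)
    (hAc : ∀ a ∈ A, ∀ b ∈ A, ∀ u ∈ U1, (a * b) * u * (a * b)⁻¹ * ((b * a) * u * (b * a)⁻¹)⁻¹ ∈ U2)
    (hAs : ∀ a ∈ A, ∀ u ∈ U1, (a * a) * u * (a * a)⁻¹ * u⁻¹ ∈ U2) :
    ∃ D : Subgroup G, D ≤ H ∧ H ≤ normalizer (D : Set G) ∧
      (∀ d ∈ D, ∃ k : ℕ, ∀ u ∈ U1, d ^ 2 ^ k * u * (d ^ 2 ^ k)⁻¹ * u⁻¹ ∈ U2) ∧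
      ∀ F : Subgroup G, F ≤ U1 → (∀ u ∈ F, ∀ a ∈ A, a * u * a⁻¹ * u⁻¹ ∈ U2) →
        D.relIndex A ^ 2 ≤ F.relIndex U1 := by
  classical
  haveI hN : (U2.subgroupOf U1).Normal := by
    constructor
    intro x hx y
    have h3 : (y : G) * x * (y : G)⁻¹ * (x : G)⁻¹ ∈ U2 := hab y y.2 x x.2
    have h4 : (y : G) * x * (y : G)⁻¹ = ((y : G) * x * (y : G)⁻¹ * (x : G)⁻¹) * x := by group
    change (y : G) * x * (y : G)⁻¹ ∈ U2
    rw [h4]
    exact mul_mem h3 hx
  set φ0 : H →* MulAut U1 := (Subgroup.normalizerMonoidHom U1).comp (Subgroup.inclusion h1) with hφ0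
  have hφ0a : ∀ (h : H) (u : U1), ((φ0 h u : U1) : G) = h * u * (h : G)⁻¹ := fun h u => rfl
  have hinv : ∀ h : H, ∀ u ∈ U2.subgroupOf U1, φ0 h u ∈ U2.subgroupOf U1 := by
    intro h u hu
    rw [mem_subgroupOf, hφ0a]
    exact (mem_normalizer_iff.1 (h2 h.2) _).1 hu
  letI : CommGroup (U1 ⧸ U2.subgroupOf U1) :=
    { (inferInstance : Group (U1 ⧸ U2.subgroupOf U1)) with
      mul_comm := by
        intro x y
        obtain ⟨x, rfl⟩ := QuotientGroup.mk_surjective x
        obtain ⟨y, rfl⟩ := QuotientGroup.mk_surjective y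
        rw [← QuotientGroup.mk_mul, ← QuotientGroup.mk_mul]
        rw [QuotientGroup.eq_iff_div_mem]
        change (x : G) * y / ((y : G) * x) ∈ U2
        have := hab x x.2 y y.2
        have e : (x : G) * y / ((y : G) * x) = x * y * (x : G)⁻¹ * (y : G)⁻¹ := by
          rw [div_eq_mul_inv, mul_inv_rev, ← mul_assoc]
        rw [e]; exact this }
  set φ : H →* MulAut (U1 ⧸ U2.subgroupOf U1) := H91.quotAct φ0 (U2.subgroupOf U1) hinv with hφ
  obtain ⟨D', hD'n, hD', hD'i⟩ := gs (H := H) hs hfree (A.subgroupOf H) _ (U1 ⧸ U2.subgroupOf U1) φ rfl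
    (by
      intro u
      obtain ⟨y, rfl⟩ := QuotientGroup.mk_surjective u
      rw [← QuotientGroup.mk_mul]
      exact (QuotientGroup.eq_one_iff _).2 (hsq y y.2))
    (by
      intro a ha b hb
      ext u
      obtain ⟨y, rfl⟩ := QuotientGroup.mk_surjective u
      change ((φ0 (a * b) y : U1) : U1 ⧸ U2.subgroupOf U1) = ((φ0 (b * a) y : U1) : U1 ⧸ U2.subgroupOf U1)
      rw [QuotientGroup.eq_iff_div_mem]
      change ((φ0 (a * b) y : U1) : G) / ((φ0 (b * a) y : U1) : G) ∈ U2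
      rw [hφ0a, hφ0a, div_eq_mul_inv]
      exact hAc a ha b hb y y.2)
    (by
      intro a ha
      ext u
      obtain ⟨y, rfl⟩ := QuotientGroup.mk_surjective u
      change ((φ0 (a * a) y : U1) : U1 ⧸ U2.subgroupOf U1) = ((y : U1) : U1 ⧸ U2.subgroupOf U1)
      rw [QuotientGroup.eq_iff_div_mem]
      change ((φ0 (a * a) y : U1) : G) / (y : G) ∈ U2
      rw [hφ0a, div_eq_mul_inv]
      exact hAs a ha y y.2)
  refine ⟨D'.map H.subtype, map_subtype_le _, ?_, ?_, ?_⟩
  · intro g hg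
    rw [mem_normalizer_iff]
    intro y
    constructor
    · rintro ⟨z, hz, rfl⟩
      exact ⟨(⟨g, hg⟩ : H) * z * (⟨g, hg⟩ : H)⁻¹, hD'n.conj_mem z hz _, rfl⟩
    · rintro ⟨z, hz, hzy⟩
      refine ⟨(⟨g, hg⟩ : H)⁻¹ * z * (⟨g, hg⟩ : H), ?_, ?_⟩
      · have := hD'n.conj_mem z hz (⟨g, hg⟩ : H)⁻¹
        simpa using this
      · change g⁻¹ * (z : G) * g = y
        have hzy' : (z : G) = g * y * g⁻¹ := hzy
        rw [hzy']; group
  · rintro _ ⟨d, hd, rfl⟩
    obtain ⟨k, hk⟩ := hD' d hd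
    refine ⟨k, fun u hu => ?_⟩
    have h3 := DFunLike.congr_fun hk (((⟨u, hu⟩ : U1) : U1 ⧸ U2.subgroupOf U1))
    change ((φ0 (d ^ 2 ^ k) (⟨u, hu⟩ : U1) : U1) : U1 ⧸ U2.subgroupOf U1) =
      (((⟨u, hu⟩ : U1) : U1 ⧸ U2.subgroupOf U1)) at h3
    rw [QuotientGroup.eq_iff_div_mem] at h3
    change ((φ0 (d ^ 2 ^ k) (⟨u, hu⟩ : U1) : U1) : G) / u ∈ U2 at h3
    rw [hφ0a, div_eq_mul_inv] at h3
    exact h3
  · intro F hF hfix
    have h3 : (D'.map H.subtype).relIndex A = D'.relIndex (A.subgroupOf H) := by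
      have h4 : A = (A.subgroupOf H).map H.subtype := by
        rw [Subgroup.subgroupOf_map_subtype, inf_eq_left.2 hAH]
      conv_lhs => rw [h4]
      exact Subgroup.relIndex_map_map_of_injective _ _ H.subtype_injective
    rw [h3]
    refine hD'i.trans ?_
    rw [← Subgroup.index_comap_of_surjective _ (QuotientGroup.mk'_surjective (U2.subgroupOf U1))]
    change _ ≤ (F.subgroupOf U1).index
    apply Subgroup.index_antitone
    intro u hu
    rw [mem_comap, mem_fx]
    intro a ha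
    change ((φ0 a u : U1) : U1 ⧸ U2.subgroupOf U1) = ((u : U1) : U1 ⧸ U2.subgroupOf U1)
    rw [QuotientGroup.eq_iff_div_mem]
    change ((φ0 a u : U1) : G) / (u : G) ∈ U2
    rw [hφ0a, div_eq_mul_inv]
    exact hfix u hu a ha

/-- two subgroups whose commutators and squares act trivially on `V` -/
def Quad (P V : Subgroup G) : Prop :=
  (∀ a ∈ P, ∀ b ∈ P, a * b * a⁻¹ * b⁻¹ ∈ centralizer (V : Set G)) ∧ ∀ a ∈ P, a * a ∈ centralizer (V : Set G)

theorem Quad.mono {P V P' V' : Subgroup G} (h : Quad P V) (hP : P' ≤ P) (hV : V' ≤ V) : Quad P' V' :=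
  ⟨fun a ha b hb => centralizer_le hV (h.1 a (hP ha) b (hP hb)), fun a ha => centralizer_le hV (h.2 a (hP ha))⟩

theorem EA.quad {P : Subgroup G} (h : EA P) (V : Subgroup G) : Quad P V :=
  ⟨fun a ha b hb => by
    rw [h.1 a ha b hb]
    have : b * a * a⁻¹ * b⁻¹ = 1 := by group
    rw [this]; exact one_mem _, fun a ha => by rw [h.2 a ha]; exact one_mem _⟩

/-- The inequality for elementary abelian `U`. -/
theorem gs_ab {H U : Subgroup G} (hs : Group.IsSolvable H) (hfree : ¬ Involves (Equiv.Perm (Fin 3)) H)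
    (h1 : H ≤ normalizer (U : Set G)) (hU : EA U) {A : Subgroup G} (hAH : A ≤ H) (hA : Quad A U) :
    ∃ D : Subgroup G, D ≤ H ∧ H ≤ normalizer (D : Set G) ∧
      (∀ d ∈ D, ∃ k : ℕ, d ^ 2 ^ k ∈ centralizer (U : Set G)) ∧
      D.relIndex A ^ 2 ≤ (U ⊓ centralizer (A : Set G)).relIndex U := by
  obtain ⟨D, hDH, hDn, hD, hDi⟩ := gs_sec (U2 := ⊥) hs hfree h1 (by
      intro g _
      rw [mem_normalizer_iff]
      intro x
      rw [mem_bot, mem_bot]
      constructor
      · rintro rfl; group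
      · intro h
        have : x = g⁻¹ * (g * x * g⁻¹) * g := by group
        rw [this, h]; group)
    (by
      intro x hx y hy
      rw [mem_bot, hU.1 x hx y hy]; group)
    (by intro x hx; rw [mem_bot]; exact hU.2 x hx) hAH
    (by
      intro a ha b hb u hu
      rw [mem_bot]
      have h3 := mem_centralizer_iff.1 (hA.1 a ha b hb) ((b * a) * u * (b * a)⁻¹) (by
        exact (mem_normalizer_iff.1 (h1 (mul_mem (hAH hb) (hAH ha))) _).1 hu)
      have h4 : (a * b) * u * (a * b)⁻¹ = (a * b * a⁻¹ * b⁻¹) * ((b * a) * u * (b * a)⁻¹) *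
        (a * b * a⁻¹ * b⁻¹)⁻¹ := by group
      rw [h4, ← h3]; group)
    (by
      intro a ha u hu
      rw [mem_bot]
      have h3 := mem_centralizer_iff.1 (hA.2 a ha) u hu
      rw [← h3]; group)
  refine ⟨D, hDH, hDn, ?_, ?_⟩
  · intro d hd
    obtain ⟨k, hk⟩ := hD d hd
    refine ⟨k, mem_centralizer_iff.2 ?_⟩
    intro u hu
    have := hk u hu
    rw [mem_bot] at this
    have h3 := mul_inv_eq_one.1 this
    exact (mul_inv_eq_iff_eq_mul.1 h3).symm
  · apply hDi _ inf_le_left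
    rintro u ⟨_, hu⟩ a ha
    rw [mem_bot, mul_inv_eq_one, mul_inv_eq_iff_eq_mul]
    exact mem_centralizer_iff.1 hu a ha

/-- `Sq V T`: the square inequality for the action of subgroups of `T` on `V`. -/
def Sq (V T : Subgroup G) : Prop :=
  ∀ P : Subgroup G, P ≤ T → Quad P V →
    ((P ⊓ centralizer (V : Set G)).relIndex P) ^ 2 ≤ (V ⊓ centralizer (P : Set G)).relIndex V

theorem sq_of_loc {T H : Subgroup G} (h : Loc T H) : Sq (ncl H (omZ T)) T := by
  intro P hP hq
  obtain ⟨D, hDH, hDn, hD, hDi⟩ := gs_ab h.solv h.free (norm_ncl H (omZ T)) (ncl_omZ h).1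
    (hP.trans h.syl.1) hq
  refine le_trans (Nat.pow_le_pow_left ?_ 2) hDi
  have h1 := reduced h hDH hDn hD
  have h2 : (P ⊓ centralizer (ncl H (omZ T) : Set G)).relIndex P =
      (centralizer (ncl H (omZ T) : Set G)).relIndex P := by
    rw [Subgroup.inf_relIndex_left]
  rw [h2]
  exact Subgroup.relIndex_le_of_le_left h1 (relIndex_ne_zero' _ _)

/-- the offender inequality of a maximal elementary abelian subgroup -/
theorem offender {T A E : Subgroup G} (hA : A ∈ maxEA 2 T) (hE : EA E) (hET : E ≤ T)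
    (hAE : A ≤ normalizer (E : Set G)) :
    (E ⊓ centralizer (A : Set G)).relIndex E ≤ (A ⊓ centralizer (E : Set G)).relIndex A := by
  obtain ⟨hAT, hAe, hmax⟩ := hA
  have hA' : EA A := EA_iff.2 hAe
  set B := A ⊓ centralizer (E : Set G) with hB
  have hBE : EA (E ⊔ B) := by
    have hc : ∀ a ∈ B, ∀ e ∈ E, e * a = a * e := fun a ha e he => mem_centralizer_iff.1 ha.2 e he
    have hBn : B ≤ normalizer (E : Set G) := inf_le_left.trans hAE
    constructor
    · intro x hx y hy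
      obtain ⟨e, he, b, hb, rfl⟩ := (H33.mem_sup_left_norm hBn).1 hx
      obtain ⟨e', he', b', hb', rfl⟩ := (H33.mem_sup_left_norm hBn).1 hy
      calc e * b * (e' * b') = e * (b * e') * b' := by group
        _ = (e * e') * (b * b') := by rw [← hc b hb e' he']; group
        _ = (e' * e) * (b' * b) := by rw [hE.1 e he e' he', hA'.1 b hb.1 b' hb'.1]
        _ = e' * (e * b') * b := by group
        _ = e' * b' * (e * b) := by rw [hc b' hb' e he]; group
    · intro x hx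
      obtain ⟨e, he, b, hb, rfl⟩ := (H33.mem_sup_left_norm hBn).1 hx
      calc e * b * (e * b) = e * (b * e) * b := by group
        _ = (e * e) * (b * b) := by rw [← hc b hb e he]; group
        _ = 1 := by rw [hE.2 e he, hA'.2 b hb.1, mul_one]
  have h1 := hmax (E ⊔ B) (sup_le hET (inf_le_left.trans hAT)) (EA_iff.1 hBE)
  -- cardinalities
  have hBn : B ≤ normalizer (E : Set G) := inf_le_left.trans hAE
  have h2 : Nat.card (E ⊔ B : Subgroup G) = Nat.card E * E.relIndex B := by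
    rw [← card_mul_relIndex' (le_sup_left : E ≤ E ⊔ B)]
    congr 1
    rw [sup_comm]
    exact Cop.relIndex_sup_eq hBn
  have h3 : E.relIndex B = (E ⊓ B).relIndex B := (Subgroup.inf_relIndex_right _ _).symm
  have h4 := card_mul_relIndex' (inf_le_right : E ⊓ B ≤ B)
  have h5 := card_mul_relIndex' (inf_le_left : E ⊓ centralizer (A : Set G) ≤ E)
  have h6 := card_mul_relIndex' (inf_le_left : B ≤ A)
  have h7 : E ⊓ B ≤ E ⊓ centralizer (A : Set G) := by
    rintro x ⟨hx, hxB⟩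
    refine ⟨hx, mem_centralizer_iff.2 ?_⟩
    intro a ha
    exact hA'.1 a ha x hxB.1
  have h8 := Subgroup.card_le_of_le h7
  rw [h2, h3] at h1
  -- |E| * [B : E∩B] ≤ |A| = |B| [A:B], |B| = |E∩B| [B:E∩B]
  set x := Nat.card (E ⊓ B : Subgroup G)
  set y := (E ⊓ B).relIndex B
  set z := Nat.card (E ⊓ centralizer (A : Set G) : Subgroup G)
  set w := (E ⊓ centralizer (A : Set G)).relIndex E
  set v := B.relIndex A
  have hy : 0 < y := Nat.pos_of_ne_zero (relIndex_ne_zero' _ _)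
  have hz : 0 < z := Nat.card_pos
  rw [← h5, ← h6, ← h4] at h1
  -- z * w * y ≤ x * y * v, x ≤ z
  have h9 : z * w * y ≤ z * v * y := by
    calc z * w * y ≤ x * y * v := h1
      _ ≤ z * y * v := Nat.mul_le_mul_right _ (Nat.mul_le_mul_right _ h8)
      _ = z * v * y := by ring
  have h10 := Nat.le_of_mul_le_mul_right h9 hy
  exact Nat.le_of_mul_le_mul_left h10 hz

end

end Cfsg.Agent.H62
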