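import Cfsg.Agent.H62.W5

set_option autoImplicit false
set_option linter.style.haveILetI false
set_option linter.unusedSectionVars false
set_option linter.unusedVariables false

/-!
`V ≤ O_2(H)` for subgroups satisfying the square inequality.
-/

namespace Cfsg.Agent.H62

open Subgroup Cfsg
open H33 (cj mem_cj conj_mem_cj cj_mul cj_mono IsSyl mem_norm_iff)
open H34 (maxEA fixedBy)

variable {G : Type*} [Group G]

section

variable [Finite G]

theorem coprime_step {z e i : G} (hz : Odd (orderOf z)) (h : z * e * z⁻¹ * e⁻¹ = i)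
    (hzi : z * i = i * z) (hi : ∃ k : ℕ, i ^ 2 ^ k = 1) : z * e = e * z := by
  have h1 : z * e * z⁻¹ = i * e := by rw [← h]; group
  have h2 := H34.eq_one_aux z e i hz h1 hzi hi
  rw [h2, one_mul] at h1
  exact mul_inv_eq_iff_eq_mul.1 h1

theorem exists_odd_pow {t : G} : ∃ a : ℕ, Odd (orderOf (t ^ 2 ^ a)) := by
  obtain ⟨a, m, hm, he⟩ := Nat.exists_eq_two_pow_mul_odd (orderOf_pos t).ne'
  refine ⟨a, ?_⟩
  rw [orderOf_pow, he, Nat.gcd_eq_right (Dvd.intro _ rfl), Nat.mul_div_cancel_left _ (by positivity)]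
  exact hm

theorem pow_two_pow_ne_one {α : Type*} [Group α] [Finite α] {x : α} (hx : x ≠ 1) (hodd : Odd (orderOf x)) (a : ℕ) :
    x ^ 2 ^ a ≠ 1 := by
  intro h
  have h1 : orderOf x ∣ 2 ^ a := orderOf_dvd_of_pow_eq_one h
  have h2 : (orderOf x).Coprime (2 ^ a) := Nat.Coprime.pow_right a (Nat.coprime_two_right.2 hodd)
  have h3 := Nat.eq_one_of_dvd_coprimes h2 dvd_rfl h1
  exact hx (orderOf_eq_one_iff.1 h3)

theorem le_core_of_sq {Γ : Type*} [Group Γ] [Finite Γ] (hs : Group.IsSolvable Γ)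
    (hfree : ¬ Involves (Equiv.Perm (Fin 3)) Γ)
    (hc2 : centralizer (pCore 2 Γ : Set Γ) ≤ pCore 2 Γ) {T V : Subgroup Γ} (hQT : pCore 2 Γ ≤ T)
    (hV : EA V) (hVT : V ≤ T) (hTV : T ≤ normalizer (V : Set Γ)) (hsq : Sq V T) : V ≤ pCore 2 Γ := by
  classical
  haveI : Fact (Nat.Prime 2) := ⟨Nat.prime_two⟩
  set Q := pCore 2 Γ with hQ
  have hQn : Q.Normal := by rw [hQ]; infer_instance
  have hQp : IsPGroup 2 Q := Solv.pCore_isPGroup 2
  by_contra hnot
  set π := QuotientGroup.mk' Q with hπ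
  have hker : ∀ y : Γ, π y = 1 ↔ y ∈ Q := fun y => QuotientGroup.eq_one_iff y
  set N := pPrimeCore 2 (Γ ⧸ Q) with hN
  have hNo : Odd (Nat.card N) := by
    have := Solv.pPrimeCore_card_coprime (G := Γ ⧸ Q) 2
    exact Nat.coprime_two_right.1 this
  have hNodd : ∀ y ∈ N, Odd (orderOf y) := by
    intro y hy
    exact hNo.of_dvd_nat (Subgroup.orderOf_dvd_natCard N hy)
  have hVπ : EA (V.map π) := by
    constructor
    · rintro _ ⟨a, ha, rfl⟩ _ ⟨b, hb, rfl⟩
      rw [← map_mul, hV.1 a ha b hb, map_mul]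
    · rintro _ ⟨a, ha, rfl⟩
      rw [← map_mul, hV.2 a ha, map_one]
  have hnc : ¬ V.map π ≤ centralizer (N : Set (Γ ⧸ Q)) := by
    intro h
    have h0 : Group.IsSolvable (Γ ⧸ Q) := Group.isSolvable_of_surjective (QuotientGroup.mk'_surjective Q)
    have h1 := h.trans (H11.centralizer_pPrimeCore_le (ZJ.isPSolvable_of_isSolvable (G := Γ ⧸ Q) 2 h0)
      (Solv.pCore_quotient_pCore 2))
    apply hnot
    intro a ha
    rw [← hker]
    have h2 : π a ∈ N := h1 ⟨a, ha, rfl⟩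
    have h3 := hNodd _ h2
    by_contra h4
    apply pow_two_pow_ne_one h4 h3 1
    rw [pow_one, sq, ← map_mul, hV.2 a ha, map_one]
  obtain ⟨B, hBV, v', hv', hBv, x', hx'N, hx'1, hinv, hBx⟩ :=
    exists_hyper hVπ (by rw [normalizer_eq_top]; exact le_top) hNo hnc
  obtain ⟨v, hv, hvv'⟩ := hv'
  have hx'o := hNodd _ hx'N
  obtain ⟨x, hx, hmin⟩ : ∃ x, π x = x' ∧ ∀ y, π y = x' →
      Nat.card (V ⊔ cj x V : Subgroup Γ) ≤ Nat.card (V ⊔ cj y V : Subgroup Γ) := by
    have h1 : ∃ n, ∃ x, π x = x' ∧ Nat.card (V ⊔ cj x V : Subgroup Γ) = n := by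
      obtain ⟨x, hx⟩ := QuotientGroup.mk'_surjective Q x'
      exact ⟨_, x, hx, rfl⟩
    obtain ⟨x, hx, hxn⟩ := Nat.find_spec h1
    refine ⟨x, hx, fun y hy => ?_⟩
    rw [hxn]
    exact Nat.find_min' h1 ⟨y, hy, rfl⟩
  have hvv : v * v = 1 := hV.2 v hv
  have hvi : v⁻¹ = v := inv_eq_of_mul_eq_one_left hvv
  have hv'i : v'⁻¹ = v' := by rw [← hvv', ← map_inv, hvi]
  have hinv2 : v' * x'⁻¹ * v'⁻¹ = x' := by
    have := congrArg (·⁻¹) hinv
    simpa [mul_assoc] using this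
  obtain ⟨x, hx, hxL⟩ : ∃ x, π x = x' ∧ x ∈ V ⊔ cj x V := by
    obtain ⟨k, hk⟩ := hx'o
    set w := (x * v * x⁻¹) * v with hw
    have hwL : w ∈ V ⊔ cj x V := mul_mem (le_sup_right (a := V) (conj_mem_cj hv)) (le_sup_left (b := cj x V) hv)
    have hπw : π w = x' ^ 2 := by
      rw [hw, map_mul, map_mul, map_mul, map_inv, hx, hvv', sq]
      calc x' * v' * x'⁻¹ * v' = x' * (v' * x'⁻¹ * v'⁻¹) := by rw [hv'i]; group
        _ = x' * x' := by rw [hinv2]
    have hπy : π (w ^ (k + 1)) = x' := by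
      rw [map_pow, hπw, ← pow_mul]
      have : 2 * (k + 1) = orderOf x' + 1 := by rw [hk]; ring
      rw [this, pow_succ, pow_orderOf_eq_one, one_mul]
    have hyL : w ^ (k + 1) ∈ V ⊔ cj x V := pow_mem hwL _
    refine ⟨w ^ (k + 1), hπy, ?_⟩
    have hle : V ⊔ cj (w ^ (k + 1)) V ≤ V ⊔ cj x V := by
      refine sup_le le_sup_left ?_
      rintro a ha
      rw [mem_cj] at ha
      have h1 := mul_mem (mul_mem hyL (le_sup_left (b := cj x V) ha)) (inv_mem hyL)
      have h2 : w ^ (k + 1) * ((w ^ (k + 1))⁻¹ * a * w ^ (k + 1)) * (w ^ (k + 1))⁻¹ = a := by group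
      rwa [h2] at h1
    rw [Subgroup.eq_of_le_of_card_ge hle (hmin _ hπy)]
    exact hyL
  set V0 : Subgroup Γ := V ⊓ (centralizer {x'}).comap π with hV0
  have hV0m : ∀ u, u ∈ V0 ↔ u ∈ V ∧ π u * x' = x' * π u := by
    intro u
    rw [hV0, mem_inf, mem_comap, mem_centralizer_singleton_iff]
  have hV0V : V0 ≤ V := inf_le_left
  have hV0i : V0.relIndex V ≤ 2 := by
    rw [hV0, Subgroup.inf_relIndex_left, Subgroup.relIndex_comap]
    refine (Subgroup.relIndex_le_of_le_left (H := B) ?_ (relIndex_ne_zero' _ _)).trans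
      (relIndex_le_two hVπ ⟨v, hv, hvv'⟩ hBV hBv)
    intro b hb
    rw [mem_centralizer_singleton_iff]
    exact hBx b hb
  set P := cj x V0 with hP
  have hπP : ∀ u ∈ V0, π (x * u * x⁻¹) = π u := by
    intro u hu
    rw [map_mul, map_mul, map_inv, hx, ← ((hV0m u).1 hu).2]; group
  have hπP' : ∀ u ∈ V0, π (x⁻¹ * u * x) = π u := by
    intro u hu
    rw [map_mul, map_mul, map_inv, hx, mul_assoc, ((hV0m u).1 hu).2]; group
  have hcong : ∀ u ∈ V0, ∀ w, π w = π u → w ∈ T := by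
    intro u hu w hw
    have h1 : w * u⁻¹ ∈ Q := by rw [← hker, map_mul, map_inv, hw, mul_inv_cancel]
    have h2 : w = (w * u⁻¹) * u := by group
    rw [h2]
    exact mul_mem (hQT h1) (hVT (hV0V hu))
  have hPmem : ∀ p ∈ P, p ∈ T ∧ π p ∈ V.map π := by
    intro p hp
    obtain ⟨u, hu, rfl⟩ : ∃ u ∈ V0, x * u * x⁻¹ = p := ⟨x⁻¹ * p * x, mem_cj.1 hp, by group⟩
    refine ⟨hcong u hu _ (hπP u hu), ?_⟩
    rw [hπP u hu]
    exact ⟨u, hV0V hu, rfl⟩
  have hPT : P ≤ T := fun p hp => (hPmem p hp).1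
  have hPEA : EA P := (hV.mono hV0V).cj x
  set I := V ⊓ cj x V with hI
  set L := V ⊔ cj x V with hL
  have hIL : ∀ i ∈ I, ∀ l ∈ L, i * l = l * i := by
    intro i hi l hl
    have h1 : L ≤ centralizer {i} := by
      refine sup_le ?_ ?_
      · intro a ha
        rw [mem_centralizer_singleton_iff]
        exact hV.1 a ha i hi.1
      · intro a ha
        rw [mem_centralizer_singleton_iff]
        exact (hV.cj x).1 a ha i hi.2
    exact (mem_centralizer_singleton_iff.1 (h1 hl)).symm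
  have hIV0 : I ≤ V0 := by
    intro i hi
    rw [hV0m]
    refine ⟨hi.1, ?_⟩
    rw [← hx, ← map_mul, ← map_mul, hIL i hi x hxL]
  have hIx : cj x I = I := by
    ext i
    rw [mem_cj]
    constructor
    · intro h
      have := hIL _ h x hxL
      have h2 : i = x⁻¹ * i * x := by
        calc i = x * (x⁻¹ * i * x) * x⁻¹ := by group
          _ = x⁻¹ * i * x := by rw [← this]; group
      rw [h2]; exact h
    · intro h
      have h2 : x⁻¹ * i * x = i := by
        rw [mul_assoc, hIL i h x hxL]; group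
      rw [h2]; exact h
  have hIP : I ≤ P := by
    rw [← hIx]; exact cj_mono hIV0
  have hPC : P ⊓ centralizer (V : Set Γ) ≤ I := by
    rintro p ⟨hp, hpV⟩
    have hpc : p ∈ cj x V := cj_mono hV0V hp
    have h1 : L ≤ centralizer {p} := by
      refine sup_le ?_ ?_
      · intro a ha
        rw [mem_centralizer_singleton_iff]
        exact mem_centralizer_iff.1 hpV a ha
      · intro a ha
        rw [mem_centralizer_singleton_iff]
        exact (hV.cj x).1 a ha p hpc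
    have h2 := mem_centralizer_singleton_iff.1 (h1 hxL)
    have h3 : x⁻¹ * p * x = p := by rw [mul_assoc, ← h2]; group
    refine ⟨?_, hpc⟩
    rw [← h3]
    exact mem_cj.1 hpc
  have hsq1 := hsq P hPT (hPEA.quad V)
  have hr0 : I.relIndex V0 = I.relIndex P := by
    rw [← H33.relIndex_cj x I V0, hIx]
  have hr1 : I.relIndex P ≤ (P ⊓ centralizer (V : Set Γ)).relIndex P :=
    Subgroup.relIndex_le_of_le_left hPC (relIndex_ne_zero' _ _)
  have hr2 : (V ⊓ centralizer (P : Set Γ)).relIndex V ≤ I.relIndex V := by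
    refine Subgroup.relIndex_le_of_le_left ?_ (relIndex_ne_zero' _ _)
    intro i hi
    refine ⟨hi.1, mem_centralizer_iff.2 ?_⟩
    intro p hp
    exact (hV.cj x).1 p (cj_mono hV0V hp) i hi.2
  have hr3 : I.relIndex V = I.relIndex V0 * V0.relIndex V := (Subgroup.relIndex_mul_relIndex _ _ _ hIV0 hV0V).symm
  have hn0 : I.relIndex P ≤ 2 := by
    have hpos : 0 < I.relIndex P := Nat.pos_of_ne_zero (relIndex_ne_zero' _ _)
    have h1 : I.relIndex P ^ 2 ≤ I.relIndex P * 2 := by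
      calc I.relIndex P ^ 2 ≤ ((P ⊓ centralizer (V : Set Γ)).relIndex P) ^ 2 := Nat.pow_le_pow_left hr1 2
        _ ≤ _ := hsq1
        _ ≤ _ := hr2
        _ = I.relIndex P * V0.relIndex V := by rw [hr3, hr0]
        _ ≤ _ := Nat.mul_le_mul_left _ hV0i
    nlinarith
  -- the commutator calculation
  have key : ∀ a ∈ V, ∀ t ∈ T, π t ∈ V.map π → a * t * a⁻¹ * t⁻¹ ∈ V ⊓ Q := by
    intro a ha t ht htv
    refine ⟨?_, ?_⟩
    · have h1 : t * a⁻¹ * t⁻¹ ∈ V := (mem_normalizer_iff.1 (hTV ht) _).1 (inv_mem ha)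
      have h2 : a * t * a⁻¹ * t⁻¹ = a * (t * a⁻¹ * t⁻¹) := by group
      rw [h2]; exact mul_mem ha h1
    · have h1 := hVπ.1 (π a) ⟨a, ha, rfl⟩ (π t) htv
      change a * t * a⁻¹ * t⁻¹ ∈ Q
      rw [← hker, map_mul, map_mul, map_mul, map_inv, map_inv, h1]; group
  have hVQ : V ⊓ Q ≤ V0 := by
    rintro u ⟨hu, huQ⟩
    rw [hV0m]
    refine ⟨hu, ?_⟩
    rw [(hker u).2 huQ, one_mul, mul_one]
  set E := V0 ⊔ P with hE
  have hV0E : V0 ≤ E := le_sup_left
  have hPE : P ≤ E := le_sup_right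
  have hVnE : V ≤ normalizer (E : Set Γ) := by
    intro a ha
    apply H33.mem_norm_of_le
    rw [hE, H33.cj_sup, sup_le_iff, H33.cj_le_iff, H33.cj_le_iff]
    constructor
    · intro u hu
      rw [hV.1 a ha u (hV0V hu), mul_inv_cancel_right]; exact hV0E hu
    · intro p hp
      have h1 := hV0E (hVQ (key a ha p (hPmem p hp).1 (hPmem p hp).2))
      have h2 : a * p * a⁻¹ = (a * p * a⁻¹ * p⁻¹) * p := by group
      rw [h2]; exact mul_mem h1 (hPE hp)
  have hV'nE : cj x V ≤ normalizer (E : Set Γ) := by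
    intro b hb
    obtain ⟨a, ha, rfl⟩ : ∃ a ∈ V, x * a * x⁻¹ = b := ⟨x⁻¹ * b * x, mem_cj.1 hb, by group⟩
    apply H33.mem_norm_of_le
    rw [hE, H33.cj_sup, sup_le_iff, H33.cj_le_iff, H33.cj_le_iff]
    constructor
    · intro u hu
      have h1 := key a ha (x⁻¹ * u * x) (hcong u hu _ (hπP' u hu)) (by rw [hπP' u hu]; exact ⟨u, hV0V hu, rfl⟩)
      have h2 := hPE (conj_mem_cj (g := x) (hVQ h1))
      have h3 : x * a * x⁻¹ * u * (x * a * x⁻¹)⁻¹ =
        (x * (a * (x⁻¹ * u * x) * a⁻¹ * (x⁻¹ * u * x)⁻¹) * x⁻¹) * u := by group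
      rw [h3]; exact mul_mem h2 (hV0E hu)
    · intro p hp
      rw [(hV.cj x).1 _ hb p (cj_mono hV0V hp), mul_inv_cancel_right]; exact hPE hp
  have hLnE : L ≤ normalizer (E : Set Γ) := sup_le hVnE hV'nE
  -- [Q, L] ≤ E
  have hQL : ∀ l ∈ L, ∀ q ∈ Q, q * l * q⁻¹ * l⁻¹ ∈ E := by
    let M : Subgroup Γ :=
      { carrier := {l | l ∈ normalizer (E : Set Γ) ∧ ∀ q ∈ Q, q * l * q⁻¹ * l⁻¹ ∈ E}
        one_mem' := ⟨one_mem _, fun q _ => by
          have : q * 1 * q⁻¹ * 1⁻¹ = 1 := by group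
          rw [this]; exact one_mem _⟩
        mul_mem' := by
          rintro l l' ⟨hl, hl1⟩ ⟨hl', hl'1⟩
          refine ⟨mul_mem hl hl', fun q hq => ?_⟩
          have h1 : q * (l * l') * q⁻¹ * (l * l')⁻¹ = (q * l * q⁻¹ * l⁻¹) * (l * (q * l' * q⁻¹ * l'⁻¹) * l⁻¹) := by
            group
          rw [h1]
          exact mul_mem (hl1 q hq) ((mem_normalizer_iff.1 hl _).1 (hl'1 q hq))
        inv_mem' := by
          rintro l ⟨hl, hl1⟩
          refine ⟨inv_mem hl, fun q hq => ?_⟩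
          have h1 : q * l⁻¹ * q⁻¹ * l⁻¹⁻¹ = l⁻¹ * (q * l * q⁻¹ * l⁻¹)⁻¹ * l := by group
          rw [h1]
          exact (mem_normalizer_iff''.1 hl _).1 (inv_mem (hl1 q hq)) }
    have hM : L ≤ M := by
      refine sup_le ?_ ?_
      · intro a ha
        refine ⟨hVnE ha, fun q hq => ?_⟩
        have h1 := key a ha q (hQT hq) (by rw [(hker q).2 hq]; exact one_mem _)
        have h2 : q * a * q⁻¹ * a⁻¹ = (a * q * a⁻¹ * q⁻¹)⁻¹ := by group
        rw [h2]; exact inv_mem (hV0E (hVQ h1))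
      · intro b hb
        refine ⟨hV'nE hb, fun q hq => ?_⟩
        obtain ⟨a, ha, rfl⟩ : ∃ a ∈ V, x * a * x⁻¹ = b := ⟨x⁻¹ * b * x, mem_cj.1 hb, by group⟩
        have hq' : x⁻¹ * q * x ∈ Q := by
          have := hQn.conj_mem q hq x⁻¹
          simpa using this
        have h1 := key a ha (x⁻¹ * q * x) (hQT hq') (by rw [(hker _).2 hq']; exact one_mem _)
        have h2 : q * (x * a * x⁻¹) * q⁻¹ * (x * a * x⁻¹)⁻¹ =
          x * (a * (x⁻¹ * q * x) * a⁻¹ * (x⁻¹ * q * x)⁻¹)⁻¹ * x⁻¹ := by group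
        rw [h2]; exact hPE (conj_mem_cj (g := x) (inv_mem (hVQ h1)))
    intro l hl
    exact (hM hl).2
  have hEi : I.relIndex E ≤ 4 := by
    have hPn : P ≤ normalizer (V0 : Set Γ) := by
      intro p hp
      apply H33.mem_norm_of_le
      rw [H33.cj_le_iff]
      intro u hu
      have h1 := key u (hV0V hu) p (hPmem p hp).1 (hPmem p hp).2
      have h2 : p * u * p⁻¹ = (u * p * u⁻¹ * p⁻¹)⁻¹ * u := by group
      rw [h2]; exact mul_mem (inv_mem (hVQ h1)) hu
    have h1 : V0.relIndex E = V0.relIndex P := by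
      rw [hE, sup_comm]; exact Cop.relIndex_sup_eq hPn
    have h2 : V0.relIndex P ≤ I.relIndex P := Subgroup.relIndex_le_of_le_left hIV0 (relIndex_ne_zero' _ _)
    rw [← Subgroup.relIndex_mul_relIndex _ _ _ hIV0 hV0E, h1, hr0]
    calc I.relIndex P * V0.relIndex P ≤ 2 * 2 := Nat.mul_le_mul hn0 (h2.trans hn0)
      _ = 4 := by norm_num
  -- the inverted element
  set t := v * (x * v⁻¹ * x⁻¹) with ht
  obtain ⟨a, hao⟩ := exists_odd_pow (t := t)
  set y := t ^ 2 ^ a with hy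
  have htL : t ∈ L := mul_mem (le_sup_left (b := cj x V) hv) (le_sup_right (a := V) (conj_mem_cj (inv_mem hv)))
  have hyL : y ∈ L := pow_mem htL _
  have hπt : π t = (x'⁻¹) ^ 2 ^ 1 := by
    rw [ht, map_mul, map_mul, map_mul, map_inv, map_inv, hx, hvv', pow_one, sq]
    calc v' * (x' * v'⁻¹ * x'⁻¹) = (v' * x' * v'⁻¹) * x'⁻¹ := by group
      _ = x'⁻¹ * x'⁻¹ := by rw [hinv]
  have hy1 : y ≠ 1 := by
    intro h
    have h1 : π y = (x'⁻¹) ^ 2 ^ (1 + a) := by
      rw [hy, map_pow, hπt, ← pow_mul, ← pow_add]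
    rw [h, map_one] at h1
    exact pow_two_pow_ne_one (inv_ne_one.2 hx'1) (by rw [orderOf_inv]; exact hx'o) (1 + a) h1.symm
  have hvt : v * t * v⁻¹ = t⁻¹ := by
    rw [ht, hvi]
    calc v * (v * (x * v * x⁻¹)) * v = (v * v) * (x * v * x⁻¹) * v := by group
      _ = (x * v⁻¹ * x⁻¹) * v⁻¹ := by rw [hvv, hvi]; group
      _ = (v * (x * v * x⁻¹))⁻¹ := by group
  have hvy : v * y * v⁻¹ = y⁻¹ := by
    rw [hy, ← conj_pow, hvt, inv_pow]
  have hzo : Odd (orderOf (y ^ 3)) := hao.of_dvd_nat (orderOf_pow_dvd 3)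
  have hzE : ∀ e ∈ E, y ^ 3 * e = e * y ^ 3 := by
    intro e he
    have hyI : y ∈ normalizer (I : Set Γ) := by
      rw [mem_normalizer_iff]
      intro i
      constructor
      · intro hi
        rw [← hIL i hi y hyL, mul_inv_cancel_right]; exact hi
      · intro hi
        have h1 := hIL _ hi y hyL
        have h2 : i = y * i * y⁻¹ := by
          calc i = y⁻¹ * (y * i * y⁻¹ * y) := by group
            _ = y * i * y⁻¹ := by rw [h1]; group
        rw [h2]; exact hi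
    have hEI : E ≤ normalizer (I : Set Γ) := by
      have hEL : E ≤ L := sup_le (hV0V.trans le_sup_left) ((cj_mono hV0V).trans le_sup_right)
      intro g hg
      apply H33.mem_norm_of_le
      rw [H33.cj_le_iff]
      intro i hi
      rw [← hIL i hi g (hEL hg), mul_inv_cancel_right]; exact hi
    have h1 := cube_mem (hLnE hyL) hyI (hIV0.trans hV0E) hEI hEi hao he
    refine coprime_step hzo rfl ((hIL _ h1 _ (pow_mem hyL 3)).symm) ⟨1, ?_⟩
    rw [pow_one, sq]
    exact hV.2 _ h1.1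
  have hzQ : ∀ q ∈ Q, y ^ 3 * q = q * y ^ 3 := by
    intro q hq
    have h1 : y ^ 3 * q * (y ^ 3)⁻¹ * q⁻¹ ∈ E := by
      have := inv_mem (hQL (y ^ 3) (pow_mem hyL 3) q hq)
      have h2 : (q * y ^ 3 * q⁻¹ * (y ^ 3)⁻¹)⁻¹ = y ^ 3 * q * (y ^ 3)⁻¹ * q⁻¹ := by group
      rwa [h2] at this
    refine coprime_step hzo rfl (hzE _ h1) ?_
    have h2 : y ^ 3 * q * (y ^ 3)⁻¹ * q⁻¹ ∈ Q := mul_mem (hQn.conj_mem q hq _) (inv_mem hq)
    obtain ⟨k, hk⟩ := hQp ⟨_, h2⟩
    exact ⟨k, congrArg Subtype.val hk⟩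
  have hz1 : y ^ 3 = 1 := by
    have h1 : y ^ 3 ∈ Q := hc2 (mem_centralizer_iff.2 fun q hq => (hzQ q hq).symm)
    obtain ⟨k, hk⟩ := hQp ⟨_, h1⟩
    by_contra h2
    exact pow_two_pow_ne_one h2 hzo k (congrArg Subtype.val hk)
  refine hfree (involves_S3_of_inverted (x := v) (y := y) ?_ hz1 hy1 hvy)
  have h1 : orderOf v ∣ 2 ^ 1 := orderOf_dvd_of_pow_eq_one (by rw [pow_one, sq]; exact hvv)
  obtain ⟨k, -, hk⟩ := (Nat.dvd_prime_pow Nat.prime_two).1 h1
  exact ⟨k, hk⟩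

theorem map_inf_cent {H V P : Subgroup G} (hVH : V ≤ H) (hPH : P ≤ H) :
    (P.subgroupOf H ⊓ centralizer ((V.subgroupOf H : Subgroup H) : Set H)).map H.subtype =
      P ⊓ centralizer (V : Set G) := by
  ext x
  constructor
  · rintro ⟨y, ⟨hy, hyc⟩, rfl⟩
    refine ⟨hy, mem_centralizer_iff.2 ?_⟩
    intro v hv
    exact congrArg Subtype.val (mem_centralizer_iff.1 hyc ⟨v, hVH hv⟩ (mem_subgroupOf.2 hv))
  · rintro ⟨hx, hxc⟩
    refine ⟨⟨x, hPH hx⟩, ⟨mem_subgroupOf.2 hx, mem_centralizer_iff.2 ?_⟩, rfl⟩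
    intro v hv
    exact Subtype.ext (mem_centralizer_iff.1 hxc (v : G) (mem_subgroupOf.1 hv))

theorem Sq.subgroupOf {H V T : Subgroup G} (hVH : V ≤ H) (hTH : T ≤ H) (h : Sq V T) :
    Sq (V.subgroupOf H) (T.subgroupOf H) := by
  intro P hP hq
  have hPm : P.map H.subtype ≤ T := by
    rintro _ ⟨p, hp, rfl⟩
    exact hP hp
  have hPeq : (P.map H.subtype).subgroupOf H = P := by
    rw [Subgroup.subgroupOf]
    exact comap_map_eq_self_of_injective H.subtype_injective P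
  have h1 := h (P.map H.subtype) hPm ⟨by
      rintro _ ⟨a, ha, rfl⟩ _ ⟨b, hb, rfl⟩
      rw [mem_centralizer_iff]
      intro v hv
      exact congrArg Subtype.val (mem_centralizer_iff.1 (hq.1 a ha b hb) ⟨v, hVH hv⟩ (mem_subgroupOf.2 hv)),
    by
      rintro _ ⟨a, ha, rfl⟩
      rw [mem_centralizer_iff]
      intro v hv
      exact congrArg Subtype.val (mem_centralizer_iff.1 (hq.2 a ha) ⟨v, hVH hv⟩ (mem_subgroupOf.2 hv))⟩
  have e1 : (P.map H.subtype ⊓ centralizer (V : Set G)).relIndex (P.map H.subtype) =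
      (P ⊓ centralizer ((V.subgroupOf H : Subgroup H) : Set H)).relIndex P := by
    rw [← map_inf_cent hVH (map_subtype_le P), hPeq]
    exact Subgroup.relIndex_map_map_of_injective _ _ H.subtype_injective
  have e2 : (V ⊓ centralizer ((P.map H.subtype : Subgroup G) : Set G)).relIndex V =
      (V.subgroupOf H ⊓ centralizer (P : Set H)).relIndex (V.subgroupOf H) := by
    rw [← map_inf_cent (map_subtype_le P) hVH, hPeq]
    have h3 : (V.subgroupOf H).map H.subtype = V := by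
      rw [Subgroup.subgroupOf_map_subtype, inf_eq_left.2 hVH]
    have h4 := Subgroup.relIndex_map_map_of_injective (V.subgroupOf H ⊓ centralizer (P : Set H))
      (V.subgroupOf H) H.subtype_injective
    rw [h3] at h4
    exact h4
  rw [← e1, ← e2]
  exact h1

theorem EA.subgroupOf {H V : Subgroup G} (h : EA V) : EA (V.subgroupOf H) :=
  ⟨fun a ha b hb => Subtype.ext (h.1 _ ha _ hb), fun a ha => Subtype.ext (h.2 _ ha)⟩

theorem le_o2_of_sq {T H V : Subgroup G} (h : Loc T H) (hV : EA V) (hVT : V ≤ T)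
    (hTV : T ≤ normalizer (V : Set G)) (hsq : Sq V T) : V ≤ o2 H := by
  have hTH := h.syl.1
  have hQ : ∀ x : H, x ∈ pCore 2 H ↔ (x : G) ∈ o2 H := by
    intro x
    constructor
    · intro hx; exact ⟨x, hx, rfl⟩
    · rintro ⟨y, hy, hyx⟩
      have : y = x := Subtype.ext hyx
      rwa [← this]
  have h1 := le_core_of_sq (Γ := H) h.solv h.free (T := T.subgroupOf H) (V := V.subgroupOf H) (by
      intro x hx
      rw [hQ]
      apply h.c2
      refine ⟨x.2, mem_centralizer_iff.2 ?_⟩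
      rintro _ ⟨q, hq, rfl⟩
      exact congrArg Subtype.val (mem_centralizer_iff.1 hx q hq))
    (by
      intro x hx
      exact o2_le_syl h.syl ((hQ x).1 hx))
    hV.subgroupOf (fun x hx => hVT hx) (by
      intro x hx
      rw [mem_normalizer_iff]
      intro y
      exact mem_normalizer_iff.1 (hTV hx) (y : G)) (hsq.subgroupOf (hVT.trans hTH) hTH)
  intro v hv
  exact (hQ ⟨v, hTH (hVT hv)⟩).1 (h1 (mem_subgroupOf.2 hv))

end

end Cfsg.Agent.H62
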