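import Cfsg.Agent.H62.W6

set_option autoImplicit false
set_option linter.style.haveILetI false
set_option linter.unusedSectionVars false
set_option linter.unusedVariables false

/-!
Square inequality for normal closures; two lemmas on coprime action.
-/

namespace Cfsg.Agent.H62

open Subgroup Cfsg
open H33 (cj mem_cj conj_mem_cj cj_mul cj_mono IsSyl mem_norm_iff)
open H34 (maxEA fixedBy)

universe u

variable {G : Type*} [Group G]

theorem Sq.mono {V T S : Subgroup G} (h : Sq V T) (hS : S ≤ T) : Sq V S := fun P hP hq => h P (hP.trans hS) hq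

theorem Quad.conj {P V : Subgroup G} (h : Quad P V) (g : G) : Quad (cj g P) (cj g V) := by
  constructor
  · intro a ha b hb
    have ha' : g⁻¹ * a * g ∈ P := mem_cj.1 ha
    have hb' : g⁻¹ * b * g ∈ P := mem_cj.1 hb
    have h1 := h.1 _ ha' _ hb'
    rw [mem_centralizer_iff]
    intro v hv
    have hv' : g⁻¹ * v * g ∈ V := mem_cj.1 hv
    have h2 := mem_centralizer_iff.1 h1 _ hv'
    calc v * (a * b * a⁻¹ * b⁻¹) = g * ((g⁻¹ * v * g) * (g⁻¹ * a * g * (g⁻¹ * b * g) * (g⁻¹ * a * g)⁻¹ *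
          (g⁻¹ * b * g)⁻¹)) * g⁻¹ := by group
      _ = g * ((g⁻¹ * a * g * (g⁻¹ * b * g) * (g⁻¹ * a * g)⁻¹ * (g⁻¹ * b * g)⁻¹) * (g⁻¹ * v * g)) * g⁻¹ := by
          rw [h2]
      _ = _ := by group
  · intro a ha
    have ha' : g⁻¹ * a * g ∈ P := mem_cj.1 ha
    have h1 := h.2 _ ha'
    rw [mem_centralizer_iff]
    intro v hv
    have hv' : g⁻¹ * v * g ∈ V := mem_cj.1 hv
    have h2 := mem_centralizer_iff.1 h1 _ hv'
    calc v * (a * a) = g * ((g⁻¹ * v * g) * (g⁻¹ * a * g * (g⁻¹ * a * g))) * g⁻¹ := by group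
      _ = g * ((g⁻¹ * a * g * (g⁻¹ * a * g)) * (g⁻¹ * v * g)) * g⁻¹ := by rw [h2]
      _ = _ := by group

theorem cj_inv_cj (g : G) (H : Subgroup G) : cj g⁻¹ (cj g H) = H := by
  rw [← cj_mul, inv_mul_cancel, H33.cj_one]

theorem cj_cj_inv (g : G) (H : Subgroup G) : cj g (cj g⁻¹ H) = H := by
  rw [← cj_mul, mul_inv_cancel, H33.cj_one]

theorem cj_inf_cent (g : G) (P V : Subgroup G) :
    cj g (P ⊓ centralizer (V : Set G)) = cj g P ⊓ centralizer (cj g V : Set G) := by
  rw [H33.cj_inf, H33.cj_centralizer]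

theorem Sq.conj {V T : Subgroup G} (h : Sq V T) (g : G) : Sq (cj g V) (cj g T) := by
  intro P hP hq
  have hP' : cj g⁻¹ P ≤ T := by
    have := cj_mono (g := g⁻¹) hP
    rwa [cj_inv_cj] at this
  have hq' : Quad (cj g⁻¹ P) V := by
    have := hq.conj g⁻¹
    rwa [cj_inv_cj] at this
  have h1 := h _ hP' hq'
  rw [← H33.relIndex_cj g, ← H33.relIndex_cj g (V ⊓ _), cj_inf_cent, cj_inf_cent, cj_cj_inv] at h1
  exact h1

section

variable [Finite G]

theorem comm_of_sq {T H V : Subgroup G} (h : Loc T H) (hV : EA V) (hVT : V ≤ T)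
    (hTV : T ≤ normalizer (V : Set G)) (hsq : Sq V T) :
    ∀ x ∈ H, ∀ a ∈ V, ∀ b ∈ cj x V, a * b = b * a := by
  intro x hx
  have hVQ := le_o2_of_sq h hV hVT hTV hsq
  have hQT := o2_le_syl h.syl
  have hcj : ∀ y ∈ H, cj y V ≤ T := by
    intro y hy
    refine (cj_mono hVQ).trans ?_
    rw [mem_norm_iff.1 (norm_o2 H hy)]
    exact hQT
  have h1 := hsq (cj x V) (hcj x hx) ((hV.cj x).quad V)
  have h2 := hsq (cj x⁻¹ V) (hcj x⁻¹ (H.inv_mem hx)) ((hV.cj x⁻¹).quad V)
  rw [← H33.relIndex_cj x, ← H33.relIndex_cj x (V ⊓ _), cj_inf_cent, cj_inf_cent, cj_cj_inv] at h2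
  set a := (cj x V ⊓ centralizer (V : Set G)).relIndex (cj x V)
  set b := (V ⊓ centralizer (cj x V : Set G)).relIndex V
  have ha : 0 < a := Nat.pos_of_ne_zero (relIndex_ne_zero' _ _)
  have hb : 0 < b := Nat.pos_of_ne_zero (relIndex_ne_zero' _ _)
  have hb1 : b = 1 := by
    by_contra hb1
    have : 2 ≤ b := by omega
    have h3 : a ≤ b := by nlinarith
    nlinarith
  have h4 : V ≤ V ⊓ centralizer (cj x V : Set G) := Subgroup.relIndex_eq_one.1 hb1
  intro u hu v hv
  exact (mem_centralizer_iff.1 (h4 hu).2 v hv).symm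

theorem EA_ncl_of_sq {T H V : Subgroup G} (h : Loc T H) (hV : EA V) (hVT : V ≤ T)
    (hTV : T ≤ normalizer (V : Set G)) (hsq : Sq V T) : EA (ncl H V) :=
  EA_ncl hV (comm_of_sq h hV hVT hTV hsq)

theorem Sq.sup {W₁ W₂ Q E : Subgroup G} (hE : EA E) (h1E : W₁ ≤ E) (h2E : W₂ ≤ E) (h1 : Sq W₁ Q) (h2 : Sq W₂ Q) :
    Sq (W₁ ⊔ W₂) Q := by
  intro P hP hq
  set P1 := P ⊓ centralizer (W₁ : Set G) with hP1
  have hi1 := h1 P hP (hq.mono le_rfl le_sup_left)
  have hi2 := h2 P1 (inf_le_left.trans hP) (hq.mono inf_le_left le_sup_right)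
  set P2 := P1 ⊓ centralizer (W₂ : Set G) with hP2
  have e1 : P ⊓ centralizer ((W₁ ⊔ W₂ : Subgroup G) : Set G) = P2 := by
    rw [hP2, hP1, inf_assoc]
    congr 1
    ext x
    constructor
    · intro hx
      exact ⟨centralizer_le (le_sup_left (a := W₁)) hx, centralizer_le (le_sup_right (b := W₂)) hx⟩
    · rintro ⟨hx1, hx2⟩
      have : W₁ ⊔ W₂ ≤ centralizer {x} := by
        refine sup_le ?_ ?_
        · intro w hw; rw [mem_centralizer_singleton_iff]; exact mem_centralizer_iff.1 hx1 w hw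
        · intro w hw; rw [mem_centralizer_singleton_iff]; exact mem_centralizer_iff.1 hx2 w hw
      rw [mem_centralizer_iff]
      intro w hw
      exact mem_centralizer_singleton_iff.1 (this hw)
  rw [e1, ← Subgroup.relIndex_mul_relIndex P2 P1 P inf_le_left inf_le_left, mul_pow]
  set F1 := (W₁ ⊔ W₂) ⊓ centralizer (P1 : Set G) with hF1
  set F := (W₁ ⊔ W₂) ⊓ centralizer (P : Set G) with hF
  have hFF : F ≤ F1 := by
    rintro x ⟨hx, hxP⟩
    exact ⟨hx, centralizer_le inf_le_left hxP⟩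
  rw [← Subgroup.relIndex_mul_relIndex F F1 (W₁ ⊔ W₂) hFF inf_le_left, mul_comm]
  have hW1F1 : W₁ ≤ F1 := by
    intro w hw
    refine ⟨le_sup_left (a := W₁) hw, mem_centralizer_iff.2 ?_⟩
    intro p hp
    exact (mem_centralizer_iff.1 hp.2 w hw).symm
  have hnn : ∀ K : Subgroup G, K ≤ E → E ≤ normalizer (K : Set G) := by
    intro K hK e he
    apply H33.mem_norm_of_le
    rw [H33.cj_le_iff]
    intro k hk
    rw [hE.1 e he k (hK hk), mul_inv_cancel_right]; exact hk
  refine Nat.mul_le_mul ?_ ?_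
  · -- F.relIndex F1 ≥ (W₁ ⊓ C(P)).relIndex W₁
    refine hi1.trans ?_
    have h3 : (W₁ ⊓ centralizer (P : Set G)).relIndex W₁ = F.relIndex W₁ := by
      rw [← Subgroup.inf_relIndex_right F W₁]
      congr 1
      ext x
      constructor
      · rintro ⟨hx, hxP⟩; exact ⟨⟨le_sup_left (a := W₁) hx, hxP⟩, hx⟩
      · rintro ⟨⟨-, hxP⟩, hx⟩; exact ⟨hx, hxP⟩
    rw [h3]
    exact Subgroup.relIndex_le_of_le_right hW1F1 (relIndex_ne_zero' _ _)
  · refine hi2.trans ?_
    have h4 : F1 ⊔ W₂ = W₁ ⊔ W₂ := by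
      apply le_antisymm (sup_le inf_le_left le_sup_right)
      exact sup_le (hW1F1.trans le_sup_left) le_sup_right
    have h5 : F1.relIndex (W₁ ⊔ W₂) = F1.relIndex W₂ := by
      rw [← h4, sup_comm]
      exact Cop.relIndex_sup_eq (h2E.trans (hnn F1 (inf_le_left.trans (sup_le h1E h2E))))
    have h6 : (W₂ ⊓ centralizer (P1 : Set G)).relIndex W₂ = F1.relIndex W₂ := by
      rw [← Subgroup.inf_relIndex_right F1 W₂]
      congr 1
      ext x
      constructor
      · rintro ⟨hx, hxP⟩; exact ⟨⟨le_sup_right (b := W₂) hx, hxP⟩, hx⟩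
      · rintro ⟨⟨-, hxP⟩, hx⟩; exact ⟨hx, hxP⟩
    rw [h5, h6]

/-- the square inequality for the normal closure -/
theorem sq_ncl {T H V : Subgroup G} (h : Loc T H) (hV : EA V) (hVT : V ≤ T)
    (hTV : T ≤ normalizer (V : Set G)) (hsq : Sq V T) : Sq (ncl H V) (o2 H) := by
  classical
  have hE := EA_ncl_of_sq h hV hVT hTV hsq
  have hQT := o2_le_syl h.syl
  have hcj : ∀ x ∈ H, Sq (cj x V) (o2 H) := by
    intro x hx
    have h1 := (hsq.mono hQT).conj x
    rwa [mem_norm_iff.1 (norm_o2 H hx)] at h1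
  have hex : ∃ W : Subgroup G, W ≤ ncl H V ∧ Sq W (o2 H) ∧
      ∀ W' : Subgroup G, W' ≤ ncl H V → Sq W' (o2 H) → Nat.card W' ≤ Nat.card W := by
    have hfin : {W : Subgroup G | W ≤ ncl H V ∧ Sq W (o2 H)}.Finite := Set.toFinite _
    obtain ⟨W, hW, hmax⟩ := Set.exists_max_image _ (fun W : Subgroup G => Nat.card W) hfin
      ⟨V, le_ncl H V, hsq.mono hQT⟩
    exact ⟨W, hW.1, hW.2, fun W' h1 h2 => hmax W' ⟨h1, h2⟩⟩
  obtain ⟨W, hWE, hW, hmax⟩ := hex
  have h2 : ncl H V ≤ W := by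
    apply ncl_le
    intro x hx
    have h3 := hmax (W ⊔ cj x V) (sup_le hWE (cj_le_ncl hx)) (Sq.sup hE hWE (cj_le_ncl hx) hW (hcj x hx))
    have h4 : W = W ⊔ cj x V := Subgroup.eq_of_le_of_card_ge le_sup_left h3
    rw [h4]; exact le_sup_right
  rw [le_antisymm h2 hWE]
  exact hW

/-- regular orbits of elementary abelian 2-groups on groups of odd order -/
theorem regular_orbit {Γ : Type*} [Group Γ] [Finite Γ] {A N : Subgroup Γ} (hA : EA A)
    (hAN : A ≤ normalizer (N : Set Γ)) (hN : Odd (Nat.card N)) :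
    ∃ h ∈ N, ∀ a ∈ A, a * h = h * a → a ∈ centralizer (N : Set Γ) := by
  classical
  have hodd : ∀ y ∈ N, Odd (orderOf y) := fun y hy => hN.of_dvd_nat (Subgroup.orderOf_dvd_natCard N hy)
  have hfin : {u : Γ | u ∈ N}.Finite := Set.toFinite _
  obtain ⟨u, hu, hmin⟩ := Set.exists_min_image _ (fun u : Γ => Nat.card (A ⊓ centralizer {u} : Subgroup Γ)) hfin
    ⟨1, N.one_mem⟩
  refine ⟨u, hu, fun a ha hau => ?_⟩
  rw [mem_centralizer_iff]
  by_contra hcon
  push Not at hcon
  obtain ⟨n, hn, hna⟩ := hcon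
  have haa := hA.2 a ha
  have hainv : a⁻¹ = a := inv_eq_of_mul_eq_one_left haa
  set w := a * n * a⁻¹ * n⁻¹ with hw
  have hwN : w ∈ N := mul_mem ((mem_normalizer_iff.1 (hAN ha) _).1 hn) (inv_mem hn)
  have hw1 : w ≠ 1 := by
    intro h
    apply hna
    have h1 : a * n * a⁻¹ = n := mul_inv_eq_one.1 h
    exact (mul_inv_eq_iff_eq_mul.1 h1).symm
  have haw : a * w * a⁻¹ = w⁻¹ := by
    rw [hw]
    simp only [hainv, mul_inv_rev, inv_inv]
    calc a * (a * n * a * n⁻¹) * a = (a * a) * (n * a * n⁻¹ * a) := by group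
      _ = n * (a * (n⁻¹ * a)) := by rw [haa]; group
  have hlt : Nat.card (A ⊓ centralizer {u * w} : Subgroup Γ) < Nat.card (A ⊓ centralizer {u} : Subgroup Γ) := by
    have hle : ∀ b ∈ A ⊓ centralizer {u * w}, b ∈ A ⊓ centralizer {u} ∧ b * w = w * b := by
      rintro b ⟨hb, hbc'⟩
      have hbc : b ∈ centralizer {u * w} := hbc'
      rw [mem_centralizer_singleton_iff] at hbc
      have hab : a * b = b * a := hA.1 a ha b hb
      -- b commutes with u w and u w⁻¹
      have h1 : a * (u * w) * a⁻¹ = u * w⁻¹ := by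
        calc a * (u * w) * a⁻¹ = (a * u) * a⁻¹ * (a * w * a⁻¹) := by group
          _ = u * w⁻¹ := by rw [hau, haw]; group
      have h2 : b * (u * w⁻¹) = u * w⁻¹ * b := by
        have c1 : Commute b (u * w) := hbc
        have c2 : Commute b a := hab.symm
        have c3 : Commute b (a * (u * w) * a⁻¹) := (c2.mul_right c1).mul_right c2.inv_right
        rw [h1] at c3
        exact c3
      have h3 : Commute b (w ^ 2) := by
        have c1 : Commute b (u * w) := hbc
        have c2 : Commute b (u * w⁻¹) := h2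
        have c3 := c2.inv_right.mul_right c1
        have e : (u * w⁻¹)⁻¹ * (u * w) = w ^ 2 := by rw [sq]; group
        rwa [e] at c3
      have h4 : Commute b w := by
        obtain ⟨k, hk⟩ := hodd w hwN
        have h5 : (w ^ 2) ^ (k + 1) = w := by
          rw [← pow_mul]
          have : 2 * (k + 1) = orderOf w + 1 := by rw [hk]; ring
          rw [this, pow_succ, pow_orderOf_eq_one, one_mul]
        rw [← h5]
        exact h3.pow_right _
      refine ⟨⟨hb, ?_⟩, h4⟩
      change b ∈ centralizer {u}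
      rw [mem_centralizer_singleton_iff]
      have c1 : Commute b (u * w) := hbc
      have c3 := c1.mul_right h4.inv_right
      have e : u * w * w⁻¹ = u := by group
      rw [e] at c3
      exact c3
    apply Nat.lt_of_le_of_ne (Subgroup.card_le_of_le fun b hb => (hle b hb).1)
    intro heq
    have h1 : A ⊓ centralizer {u * w} = A ⊓ centralizer {u} :=
      Subgroup.eq_of_le_of_card_ge (fun b hb => (hle b hb).1) heq.ge
    have h2 : a ∈ A ⊓ centralizer {u * w} := by
      rw [h1]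
      exact ⟨ha, mem_centralizer_singleton_iff.2 hau⟩
    have h3 := (hle a h2).2
    rw [h3, mul_inv_cancel_right] at haw
    have h4 : w ^ 2 ^ 1 = 1 := by rw [pow_one, sq]; nth_rewrite 1 [haw]; group
    exact pow_two_pow_ne_one hw1 (hodd w hwN) 1 h4
  exact absurd (hmin (u * w) (N.mul_mem hu hwN)) (by simpa using hlt)

/-- If the fixed points of `A` are fixed by a group `R` of odd order normalized by the 2-group `A`, then `R = 1`. -/
theorem eq_bot_of_fixed {W : Type*} [CommGroup W] [Finite W] (hW : ∀ w : W, w * w = 1)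
    {A R : Subgroup (MulAut W)} (hA : IsPGroup 2 A) (hR : Odd (Nat.card R))
    (hAR : A ≤ normalizer (R : Set (MulAut W)))
    (hfix : ∀ w : W, (∀ a ∈ A, a w = w) → ∀ r ∈ R, r w = w) : R = ⊥ := by
  classical
  haveI : Fintype R := Fintype.ofFinite R
  let nm : W →* W :=
    { toFun := fun w => ∏ r : R, (r : MulAut W) w
      map_one' := by simp
      map_mul' := fun a b => by simp [Finset.prod_mul_distrib] }
  have hnm : ∀ w, nm w = ∏ r : R, (r : MulAut W) w := fun w => rfl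
  have hnmR : ∀ s ∈ R, ∀ w, nm (s w) = nm w := by
    intro s hs w
    rw [hnm, hnm]
    exact Fintype.prod_equiv (Equiv.mulRight (⟨s, hs⟩ : R)) _ _ (fun r => rfl)
  have hnmA : ∀ a ∈ A, ∀ w, nm (a w) = a (nm w) := by
    intro a ha w
    rw [hnm, hnm, map_prod]
    have hn := mem_normalizer_iff''.1 (hAR ha)
    have hn' := mem_normalizer_iff.1 (hAR ha)
    refine Fintype.prod_equiv
      { toFun := fun r : R => (⟨a⁻¹ * r * a, (hn _).1 r.2⟩ : R)
        invFun := fun r : R => (⟨a * r * a⁻¹, (hn' _).1 r.2⟩ : R)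
        left_inv := fun r => Subtype.ext (by simp [mul_assoc])
        right_inv := fun r => Subtype.ext (by simp [mul_assoc]) } _ _ (fun r => ?_)
    change (r : MulAut W) (a w) = a ((a⁻¹ * (r : MulAut W) * a) w)
    rw [← MulAut.mul_apply, ← MulAut.mul_apply]
    congr 1
    group
  have hker : nm.ker = ⊥ := by
    by_contra hne
    obtain ⟨d, hd, hd1, hdf⟩ := exists_fixed_of_two_group hW A hA nm.ker hne (by
      intro a ha w hw
      rw [MonoidHom.mem_ker] at hw ⊢
      rw [hnmA a ha, hw, map_one])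
    have h1 : nm d = d ^ Nat.card R := by
      rw [hnm, Finset.prod_congr rfl (fun (r : R) _ => hfix d hdf (r : MulAut W) r.2), Finset.prod_const, Finset.card_univ,
        Nat.card_eq_fintype_card]
    rw [MonoidHom.mem_ker.1 hd] at h1
    obtain ⟨k, hk⟩ := hR
    rw [hk, pow_succ, pow_mul, sq, hW, one_pow, one_mul] at h1
    exact hd1 h1.symm
  rw [eq_bot_iff]
  intro r hr
  rw [mem_bot]
  ext w
  have h1 : r w * w⁻¹ ∈ nm.ker := by
    rw [MonoidHom.mem_ker, map_mul, map_inv, hnmR r hr, mul_inv_cancel]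
  rw [hker, mem_bot, mul_inv_eq_one] at h1
  exact h1

/-- the section `X₁/X₂` as a module -/
theorem exists_sec {G : Type u} [Group G] [Finite G] {H X₁ X₂ : Subgroup G} (h1 : H ≤ normalizer (X₁ : Set G)) (h2 : H ≤ normalizer (X₂ : Set G))
    (hE : EA X₁) : ∃ (W : Type u) (_ : CommGroup W) (_ : Finite W) (π : X₁ →* W) (φ : H →* MulAut W),
      Function.Surjective π ∧ (∀ u : X₁, π u = 1 ↔ (u : G) ∈ X₂) ∧ (∀ w : W, w * w = 1) ∧
      ∀ (h : H) (u v : X₁), (v : G) = h * u * (h : G)⁻¹ → φ h (π u) = π v := by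
  classical
  haveI hN : (X₂.subgroupOf X₁).Normal := by
    constructor
    intro x hx y
    have h4 : (y : G) * x * (y : G)⁻¹ = x := by rw [hE.1 y y.2 x x.2]; group
    change (y : G) * x * (y : G)⁻¹ ∈ X₂
    rw [h4]
    exact hx
  set φ0 : H →* MulAut X₁ := (Subgroup.normalizerMonoidHom X₁).comp (Subgroup.inclusion h1) with hφ0
  have hφ0a : ∀ (h : H) (u : X₁), ((φ0 h u : X₁) : G) = h * u * (h : G)⁻¹ := fun h u => rfl
  have hinv : ∀ h : H, ∀ u ∈ X₂.subgroupOf X₁, φ0 h u ∈ X₂.subgroupOf X₁ := by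
    intro h u hu
    rw [mem_subgroupOf, hφ0a]
    exact (mem_normalizer_iff.1 (h2 h.2) _).1 hu
  refine ⟨X₁ ⧸ X₂.subgroupOf X₁,
    { (inferInstance : Group (X₁ ⧸ X₂.subgroupOf X₁)) with
      mul_comm := by
        intro x y
        obtain ⟨x, rfl⟩ := QuotientGroup.mk_surjective x
        obtain ⟨y, rfl⟩ := QuotientGroup.mk_surjective y
        rw [← QuotientGroup.mk_mul, ← QuotientGroup.mk_mul]
        congr 1
        exact Subtype.ext (hE.1 x x.2 y y.2) }, inferInstance, QuotientGroup.mk' _,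
      H91.quotAct φ0 (X₂.subgroupOf X₁) hinv, QuotientGroup.mk'_surjective _, ?_, ?_, ?_⟩
  · intro u
    exact (QuotientGroup.eq_one_iff u)
  · intro w
    obtain ⟨y, rfl⟩ := QuotientGroup.mk_surjective w
    rw [← QuotientGroup.mk_mul]
    have : y * y = 1 := Subtype.ext (hE.2 y y.2)
    rw [this]; rfl
  · intro h u v hv
    have : v = φ0 h u := Subtype.ext (by rw [hv, hφ0a])
    rw [this]
    rfl

end

end Cfsg.Agent.H62
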