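import Cfsg.Agent.H62.W7

set_option autoImplicit false
set_option linter.style.haveILetI false
set_option linter.unusedSectionVars false
set_option linter.unusedVariables false

/-!
The minimal counterexample to Theorem W.
-/

namespace Cfsg.Agent.H62

open Subgroup Cfsg
open H33 (cj mem_cj conj_mem_cj cj_mul cj_mono IsSyl mem_norm_iff)
open H34 (maxEA fixedBy)

universe u

variable {G : Type u} [Group G]

structure MC (T H V : Subgroup G) : Prop where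
  loc : Loc T H
  ea : EA V
  VT : V ≤ T
  TV : T ≤ normalizer (V : Set G)
  sq : Sq V T
  J : normalizer (JJ T : Set G) ≤ normalizer (V : Set G)
  min : ∀ K, T ≤ K → K ≤ H → K ≠ H → K ≤ normalizer (V : Set G)
  not : ¬ H ≤ normalizer (V : Set G)

section

variable [Finite G]

theorem norm_bot (H : Subgroup G) : H ≤ normalizer ((⊥ : Subgroup G) : Set G) := by
  intro g _
  apply H33.mem_norm_of_le
  rw [H33.cj_le_iff]
  intro x hx
  rw [mem_bot] at hx ⊢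
  rw [hx]; group

theorem le_of_odd {T H K : Subgroup G} (h : IsSyl 2 T H) (hT : T ≤ K)
    (hodd : ∀ y ∈ H, Odd (orderOf y) → y ∈ K) : H ≤ K := by
  rw [← Subgroup.relIndex_eq_one]
  by_contra hne
  obtain ⟨q, hq, hdvd⟩ := Nat.exists_prime_and_dvd hne
  haveI : Fact q.Prime := ⟨hq⟩
  have hK : K.relIndex H = (K ⊓ H).relIndex H := (Subgroup.inf_relIndex_right _ _).symm
  by_cases h2 : q = 2
  · subst h2
    apply h.2.2
    rw [← Subgroup.relIndex_mul_relIndex T (K ⊓ H) H (le_inf hT h.1) inf_le_right, ← hK]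
    exact Dvd.dvd.mul_left hdvd _
  · obtain ⟨S, hS⟩ := IsSyl.exists (p := q) H
    have hSK : S ≤ K := by
      intro y hy
      apply hodd y (hS.1 hy)
      obtain ⟨k, hk⟩ := IsPGroup.iff_orderOf.1 hS.2.1 ⟨y, hy⟩
      rw [Subgroup.orderOf_mk] at hk
      rw [hk]
      exact (hq.odd_of_ne_two h2).pow
    apply hS.2.2
    rw [← Subgroup.relIndex_mul_relIndex S (K ⊓ H) H (le_inf hSK hS.1) inf_le_right, ← hK]
    exact Dvd.dvd.mul_left hdvd _

theorem act_pow {X₁ X₂ : Subgroup G} {g : G} (hg : g ∈ normalizer (X₁ : Set G))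
    (h : ∀ u ∈ X₁, g * u * g⁻¹ * u⁻¹ ∈ X₂) (j : ℕ) : ∀ u ∈ X₁, g ^ j * u * (g ^ j)⁻¹ * u⁻¹ ∈ X₂ := by
  induction j with
  | zero => intro u _; have : g ^ 0 * u * (g ^ 0)⁻¹ * u⁻¹ = 1 := by group
            rw [this]; exact one_mem _
  | succ j ih =>
    intro u hu
    have h1 := h (g ^ j * u * (g ^ j)⁻¹) ((mem_normalizer_iff.1 (pow_mem hg j) _).1 hu)
    have h2 := ih u hu
    have h3 : g ^ (j + 1) * u * (g ^ (j + 1))⁻¹ * u⁻¹ =
        (g * (g ^ j * u * (g ^ j)⁻¹) * g⁻¹ * (g ^ j * u * (g ^ j)⁻¹)⁻¹) * (g ^ j * u * (g ^ j)⁻¹ * u⁻¹) := by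
      rw [pow_succ']; group
    rw [h3]
    exact mul_mem h1 h2

namespace MC

variable {T H V : Subgroup G}

theorem a2 (m : MC T H V) {K : Subgroup G} (hK : K ≤ H) (hn : H ≤ normalizer (K : Set G)) :
    T ⊓ K ≤ o2 H ∨ H ≤ K ⊔ T := by
  haveI : Fact (Nat.Prime 2) := ⟨Nat.prime_two⟩
  by_contra hcon
  push Not at hcon
  obtain ⟨h1, h2⟩ := hcon
  have hTH := m.loc.syl.1
  have h3 : K ⊔ T ≤ normalizer (V : Set G) := m.min _ le_sup_right (sup_le hK hTH)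
    (fun h => h2 h.ge)
  set N := H ⊓ normalizer ((T ⊓ K : Subgroup G) : Set G) with hN
  have hTN : T ≤ N := by
    intro t ht
    exact ⟨hTH ht, H33.norm_inf (le_normalizer ht) (hn (hTH ht))⟩
  have h4 : N ≤ normalizer (V : Set G) := by
    apply m.min N hTN inf_le_left
    intro h
    apply h1
    exact le_o2 (inf_le_left.trans hTH) (m.loc.syl.2.1.to_le inf_le_left) (by
      conv_lhs => rw [← h]
      exact inf_le_right)
  apply m.not
  intro x hx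
  have hsyl : IsSyl 2 (T ⊓ K) K := m.loc.syl.inf_normal hK hn
  obtain ⟨n, hnK, hn'⟩ := hsyl.frattini (hn hx)
  have h5 : n * x ∈ normalizer (V : Set G) := h4 ⟨H.mul_mem (hK hnK) hx, hn'⟩
  have h6 : n ∈ normalizer (V : Set G) := h3 (le_sup_left (b := T) hnK)
  have h7 : x = n⁻¹ * (n * x) := by group
  rw [h7]
  exact mul_mem (inv_mem h6) h5

theorem exists_odd (m : MC T H V) : ∃ y ∈ H, Odd (orderOf y) ∧ y ∉ normalizer (V : Set G) := by
  by_contra hcon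
  push Not at hcon
  exact m.not (le_of_odd m.loc.syl m.TV hcon)

theorem odd_mem (m : MC T H V) {K : Subgroup G} (hK : K ≤ H) (hn : H ≤ normalizer (K : Set G))
    (h : H ≤ K ⊔ T) {y : G} (hy : y ∈ H) (ho : Odd (orderOf y)) : y ∈ K := by
  haveI : Fact (Nat.Prime 2) := ⟨Nat.prime_two⟩
  have hH : H = T ⊔ K := le_antisymm (h.trans (by rw [sup_comm])) (sup_le m.loc.syl.1 hK)
  have h1 : K.relIndex H = K.relIndex T := by
    conv_lhs => rw [hH]
    exact Cop.relIndex_sup_eq (m.loc.syl.1.trans hn)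
  obtain ⟨k, hk⟩ := IsPGroup.iff_card.1 m.loc.syl.2.1
  have h2 : K.relIndex H ∣ 2 ^ k := by
    rw [h1, ← hk]; exact Subgroup.relIndex_dvd_card _ _
  obtain ⟨j, -, hj⟩ := (Nat.dvd_prime_pow Nat.prime_two).1 h2
  haveI := normal_subgroupOf hn
  have h3 := Subgroup.pow_index_mem (K.subgroupOf H) ⟨y, hy⟩
  have h4 : y ^ 2 ^ j ∈ K := by
    have : (K.subgroupOf H).index = 2 ^ j := hj
    rw [this] at h3
    exact h3
  obtain ⟨i, hi⟩ := exists_pow_eq_self_of_coprime (x := y) (n := 2 ^ j)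
    (Nat.Coprime.pow_left j (Nat.coprime_two_left.2 ho))
  rw [← hi]
  exact pow_mem h4 i

/-- odd elements act nontrivially on `X₁/X₂` -/
def Act (H X₁ X₂ : Subgroup G) : Prop := ∃ y ∈ H, Odd (orderOf y) ∧ ∃ u ∈ X₁, y * u * y⁻¹ * u⁻¹ ∉ X₂

theorem act_le (m : MC T H V) {X₁ X₂ : Subgroup G} (h1 : H ≤ normalizer (X₁ : Set G))
    (hact : Act H X₁ X₂) {D : Subgroup G} (hD : D ≤ H)
    (hDn : H ≤ normalizer (D : Set G))
    (hd : ∀ d ∈ D, ∃ k : ℕ, ∀ u ∈ X₁, d ^ 2 ^ k * u * (d ^ 2 ^ k)⁻¹ * u⁻¹ ∈ X₂) : T ⊓ D ≤ o2 H := by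
  rcases m.a2 hD hDn with h | h
  · exact h
  · exfalso
    obtain ⟨y, hy, hyo, u, hu, hyu⟩ := hact
    obtain ⟨k, hk⟩ := hd y (m.odd_mem hD hDn h hy hyo)
    obtain ⟨i, hi⟩ := exists_pow_eq_self_of_coprime (x := y) (n := 2 ^ k)
      (Nat.Coprime.pow_left k (Nat.coprime_two_left.2 hyo))
    apply hyu
    have := act_pow (h1 (pow_mem hy _)) hk i u hu
    rwa [hi] at this

theorem exists_A (m : MC T H V) : ∃ A ∈ maxEA 2 T, ¬ A ≤ o2 H := by
  by_contra hcon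
  push Not at hcon
  apply m.not
  intro x hx
  apply m.J
  exact norm_JJ (o2_le_syl m.loc.syl) hcon (norm_o2 H hx)

theorem eaE (m : MC T H V) : EA (ncl H V) := EA_ncl_of_sq m.loc m.ea m.VT m.TV m.sq

theorem E_le (m : MC T H V) : ncl H V ≤ o2 H :=
  ncl_le_of_norm (norm_o2 H) (le_o2_of_sq m.loc m.ea m.VT m.TV m.sq)

theorem sqE (m : MC T H V) : Sq (ncl H V) (o2 H) := sq_ncl m.loc m.ea m.VT m.TV m.sq

theorem actE (m : MC T H V) : Act H (ncl H V) ⊥ := by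
  obtain ⟨y, hy, hyo, hyV⟩ := m.exists_odd
  refine ⟨y, hy, hyo, ?_⟩
  by_contra hcon
  push Not at hcon
  apply hyV
  apply H33.mem_norm_of_le
  rw [H33.cj_le_iff]
  intro v hv
  have h1 := hcon v (le_ncl H V hv)
  rw [mem_bot, mul_inv_eq_one] at h1
  rw [h1]; exact hv

theorem cent_le (m : MC T H V) : T ⊓ centralizer (ncl H V : Set G) ≤ o2 H := by
  have h1 := m.act_le (norm_ncl H V) m.actE (D := H ⊓ centralizer (ncl H V : Set G)) inf_le_left
    (by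
      intro x hx
      exact H33.norm_inf (le_normalizer hx) (H33.norm_le_norm_cent _ (norm_ncl H V hx)))
    (by
      rintro d ⟨_, hd⟩
      refine ⟨0, fun u hu => ?_⟩
      rw [mem_bot, pow_zero, pow_one, mul_inv_eq_one, mul_inv_eq_iff_eq_mul]
      exact (mem_centralizer_iff.1 hd u hu).symm)
  rintro x ⟨hx, hxc⟩
  exact h1 ⟨hx, m.loc.syl.1 hx, hxc⟩

theorem ineq1 (m : MC T H V) {A : Subgroup G} (hA : A ∈ maxEA 2 T) {X₁ X₂ F : Subgroup G}
    (h1 : H ≤ normalizer (X₁ : Set G)) (h2 : H ≤ normalizer (X₂ : Set G)) (hX : X₁ ≤ ncl H V)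
    (hact : Act H X₁ X₂) (hF : F ≤ X₁) (hfix : ∀ u ∈ F, ∀ a ∈ A, a * u * a⁻¹ * u⁻¹ ∈ X₂) :
    ((A ⊓ o2 H).relIndex A) ^ 2 ≤ F.relIndex X₁ := by
  have hAe : EA A := EA_iff.2 hA.2.1
  have hXe : EA X₁ := m.eaE.mono hX
  obtain ⟨D, hDH, hDn, hD, hDi⟩ := gs_sec m.loc.solv m.loc.free h1 h2
    (fun x hx y hy => by
      rw [hXe.1 x hx y hy]
      have : y * x * x⁻¹ * y⁻¹ = 1 := by group
      rw [this]; exact one_mem _)
    (fun x hx => by rw [hXe.2 x hx]; exact one_mem _) (A := A) (hA.1.trans m.loc.syl.1)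
    (fun a ha b hb u hu => by
      rw [hAe.1 a ha b hb, mul_inv_cancel]; exact one_mem _)
    (fun a ha u hu => by
      rw [hAe.2 a ha]
      have : 1 * u * 1⁻¹ * u⁻¹ = 1 := by group
      rw [this]; exact one_mem _)
  refine le_trans (Nat.pow_le_pow_left ?_ 2) (hDi F hF hfix)
  have h3 := m.act_le h1 hact hDH hDn hD
  rw [← Subgroup.inf_relIndex_left A D]
  apply Subgroup.relIndex_le_of_le_left _ (relIndex_ne_zero' _ _)
  rintro x ⟨hx, hxD⟩
  exact ⟨hx, h3 ⟨hA.1 hx, hxD⟩⟩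

theorem eqs (m : MC T H V) {A : Subgroup G} (hA : A ∈ maxEA 2 T) :
    (ncl H V ⊓ centralizer (A : Set G)).relIndex (ncl H V) = ((A ⊓ o2 H).relIndex A) ^ 2 ∧
    (A ⊓ centralizer (ncl H V : Set G)).relIndex (A ⊓ o2 H) = (A ⊓ o2 H).relIndex A ∧
    ncl H V ⊓ centralizer ((A ⊓ o2 H : Subgroup G) : Set G) = ncl H V ⊓ centralizer (A : Set G) := by
  set E := ncl H V with hE
  have hAe : EA A := EA_iff.2 hA.2.1
  have hAH : A ≤ H := hA.1.trans m.loc.syl.1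
  have hET : E ≤ T := m.E_le.trans (o2_le_syl m.loc.syl)
  have hCA : A ⊓ centralizer (E : Set G) ≤ A ⊓ o2 H := by
    rintro x ⟨hx, hxc⟩
    exact ⟨hx, m.cent_le ⟨hA.1 hx, hxc⟩⟩
  have i1 := m.ineq1 hA (norm_ncl H V) (norm_bot H) le_rfl m.actE (F := E ⊓ centralizer (A : Set G)) inf_le_left
    (by
      rintro u ⟨_, hu⟩ a ha
      rw [mem_bot, mul_inv_eq_one, mul_inv_eq_iff_eq_mul]
      exact mem_centralizer_iff.1 hu a ha)
  have i2 := offender hA m.eaE hET (hAH.trans (norm_ncl H V))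
  have i3 := m.sqE (A ⊓ o2 H) inf_le_right ((hAe.mono inf_le_left).quad _)
  have e1 : A ⊓ o2 H ⊓ centralizer (E : Set G) = A ⊓ centralizer (E : Set G) := by
    apply le_antisymm
    · rintro x ⟨hx, hxc⟩; exact ⟨hx.1, hxc⟩
    · intro x hx; exact ⟨hCA hx, hx.2⟩
  rw [← hE] at i1 i2 i3
  rw [e1] at i3
  rw [← Subgroup.relIndex_mul_relIndex _ _ _ hCA inf_le_left] at i2
  have hle : E ⊓ centralizer (A : Set G) ≤ E ⊓ centralizer ((A ⊓ o2 H : Subgroup G) : Set G) := by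
    rintro x ⟨hx, hxc⟩
    exact ⟨hx, centralizer_le inf_le_left hxc⟩
  have i4 := Subgroup.relIndex_mul_relIndex _ _ _ hle (inf_le_left : E ⊓ centralizer ((A ⊓ o2 H : Subgroup G) : Set G) ≤ E)
  set α := (A ⊓ o2 H).relIndex A
  set β := (A ⊓ centralizer (E : Set G)).relIndex (A ⊓ o2 H)
  set ε := (E ⊓ centralizer (A : Set G)).relIndex E
  set ε' := (E ⊓ centralizer ((A ⊓ o2 H : Subgroup G) : Set G)).relIndex E
  set δ := (E ⊓ centralizer (A : Set G)).relIndex (E ⊓ centralizer ((A ⊓ o2 H : Subgroup G) : Set G)) with hδ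
  have hα : 0 < α := Nat.pos_of_ne_zero (relIndex_ne_zero' _ _)
  have hβ : 0 < β := Nat.pos_of_ne_zero (relIndex_ne_zero' _ _)
  have hε' : 0 < ε' := Nat.pos_of_ne_zero (relIndex_ne_zero' _ _)
  have hδ0 : 0 < δ := Nat.pos_of_ne_zero (relIndex_ne_zero' _ _)
  have hεε : ε' ≤ ε := by rw [← i4]; exact Nat.le_mul_of_pos_left _ hδ0
  have c1 : α ≤ β := by
    by_contra hc
    push Not at hc
    have : β * α < α * α := Nat.mul_lt_mul_of_pos_right hc hα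
    nlinarith
  have c2 : β ≤ α := by
    by_contra hc
    push Not at hc
    have : β * α < β * β := Nat.mul_lt_mul_of_pos_left hc hβ
    nlinarith
  have c3 : β = α := le_antisymm c2 c1
  rw [c3] at i2 i3
  have c4 : ε = α ^ 2 := le_antisymm (by rw [pow_two]; exact i2) i1
  have c5 : ε' = ε := le_antisymm hεε (by rw [c4]; exact i3)
  refine ⟨c4, c3, ?_⟩
  have c6 : δ = 1 := by
    rw [c5] at i4
    have hε0 : 0 < ε := by rw [← c5]; exact hε'
    exact Nat.eq_of_mul_eq_mul_right hε0 (by rw [i4, one_mul])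
  exact le_antisymm (Subgroup.relIndex_eq_one.1 c6) hle

theorem exists_X (m : MC T H V) {A : Subgroup G} (hA : A ∈ maxEA 2 T) (hAn : ¬ A ≤ o2 H) :
    ∃ X₁ X₂ : Subgroup G, X₁ ≤ ncl H V ∧ X₂ ≤ X₁ ∧ H ≤ normalizer (X₁ : Set G) ∧ H ≤ normalizer (X₂ : Set G) ∧
      Act H X₁ X₂ ∧ X₂ ≤ centralizer (A : Set G) ∧
      (∀ u ∈ X₁, (∀ a ∈ A, a * u * a⁻¹ * u⁻¹ ∈ X₂) → u ∈ centralizer (A : Set G)) ∧
      (∀ e ∈ ncl H V, ∃ x ∈ X₁, ∃ c ∈ ncl H V ⊓ centralizer (A : Set G), e = x * c) ∧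
      ∀ Y : Subgroup G, X₂ ≤ Y → Y ≤ X₁ → H ≤ normalizer (Y : Set G) → Y = X₂ ∨ Y = X₁ := by
  classical
  obtain ⟨hq1, -, -⟩ := m.eqs hA
  have hAH : A ≤ H := hA.1.trans m.loc.syl.1
  set E := ncl H V with hE
  have hEe : EA E := m.eaE
  have hn : ∀ K : Subgroup G, K ≤ E → E ≤ normalizer (K : Set G) := by
    intro K hK e he
    apply H33.mem_norm_of_le
    rw [H33.cj_le_iff]
    intro k hk
    rw [hEe.1 e he k (hK hk), mul_inv_cancel_right]; exact hk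
  set α := (A ⊓ o2 H).relIndex A with hα
  have hα0 : 0 < α := Nat.pos_of_ne_zero (relIndex_ne_zero' _ _)
  -- X₁
  have hfin1 : {X : Subgroup G | X ≤ E ∧ H ≤ normalizer (X : Set G) ∧ Act H X ⊥}.Finite := Set.toFinite _
  obtain ⟨X₁, ⟨hX1E, hX1n, hX1a⟩, hX1m⟩ := Set.exists_min_image _ (fun X : Subgroup G => Nat.card X) hfin1
    ⟨E, le_rfl, norm_ncl H V, m.actE⟩
  have hX1b : (⊥ : Subgroup G) ≠ X₁ := by
    intro h
    obtain ⟨y, hy, hyo, u, hu, huy⟩ := hX1a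
    rw [← h, mem_bot] at hu
    apply huy
    rw [hu, mem_bot]; group
  have hfin2 : {X : Subgroup G | X ≤ X₁ ∧ H ≤ normalizer (X : Set G) ∧ X ≠ X₁}.Finite := Set.toFinite _
  obtain ⟨X₂, ⟨hX21, hX2n, hX2ne⟩, hX2m⟩ := Set.exists_max_image _ (fun X : Subgroup G => Nat.card X) hfin2
    ⟨⊥, bot_le, norm_bot H, hX1b⟩
  have hnot : ∀ y ∈ H, Odd (orderOf y) → ∀ u ∈ X₂, y * u = u * y := by
    intro y hy hyo u hu
    by_contra hne
    have h1 : Act H X₂ ⊥ := ⟨y, hy, hyo, u, hu, by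
      rw [mem_bot, mul_inv_eq_one, mul_inv_eq_iff_eq_mul]; exact hne⟩
    have h2 := hX1m X₂ ⟨hX21.trans hX1E, hX2n, h1⟩
    exact hX2ne (Subgroup.eq_of_le_of_card_ge hX21 h2)
  have hact : Act H X₁ X₂ := by
    obtain ⟨y, hy, hyo, u, hu, huy⟩ := hX1a
    refine ⟨y, hy, hyo, u, hu, fun h => ?_⟩
    apply huy
    have h1 := coprime_step hyo rfl (hnot y hy hyo _ h) ⟨1, by
      rw [pow_one, _root_.sq]; exact hEe.2 _ (hX1E (hX21 h))⟩
    rw [mem_bot, mul_inv_eq_one, mul_inv_eq_iff_eq_mul]; exact h1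
  -- E = X₁ C_E(A)
  have j1 := m.ineq1 hA hX1n (norm_bot H) hX1E hX1a (F := X₁ ⊓ centralizer (A : Set G)) inf_le_left
    (by
      rintro u ⟨_, hu⟩ a ha
      rw [mem_bot, mul_inv_eq_one, mul_inv_eq_iff_eq_mul]
      exact mem_centralizer_iff.1 hu a ha)
  have j2 : (X₁ ⊓ centralizer (A : Set G)).relIndex X₁ = (E ⊓ centralizer (A : Set G)).relIndex X₁ := by
    rw [← Subgroup.inf_relIndex_right (E ⊓ centralizer (A : Set G)) X₁]
    congr 1
    ext x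
    constructor
    · rintro ⟨hx, hxc⟩; exact ⟨⟨hX1E hx, hxc⟩, hx⟩
    · rintro ⟨⟨_, hxc⟩, hx⟩; exact ⟨hx, hxc⟩
  have hCEn : X₁ ≤ normalizer ((E ⊓ centralizer (A : Set G) : Subgroup G) : Set G) :=
    hX1E.trans (hn _ inf_le_left)
  have j3 := Cop.relIndex_sup_eq hCEn
  have j4 := Subgroup.relIndex_mul_relIndex (E ⊓ centralizer (A : Set G)) (X₁ ⊔ (E ⊓ centralizer (A : Set G))) E
    le_sup_right (sup_le hX1E inf_le_left)
  rw [j3, hq1] at j4
  rw [j2] at j1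
  have j5 : (X₁ ⊔ (E ⊓ centralizer (A : Set G))).relIndex E = 1 := by
    set z := (X₁ ⊔ (E ⊓ centralizer (A : Set G))).relIndex E
    have hz : 0 < z := Nat.pos_of_ne_zero (relIndex_ne_zero' _ _)
    have hα2 : 0 < α ^ 2 := by positivity
    by_contra hz1
    have hz2 : 2 ≤ z := by omega
    have : α ^ 2 * 2 ≤ α ^ 2 := by
      calc α ^ 2 * 2 ≤ (E ⊓ centralizer (A : Set G)).relIndex X₁ * z := Nat.mul_le_mul j1 hz2
        _ = α ^ 2 := j4
    omega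
  have hle := Subgroup.relIndex_eq_one.1 j5
  -- the fixed points of `X₁/X₂`
  let F : Subgroup G :=
    { carrier := {u | u ∈ X₁ ∧ ∀ a ∈ A, a * u * a⁻¹ * u⁻¹ ∈ X₂}
      one_mem' := ⟨one_mem _, fun a _ => by
        have : a * 1 * a⁻¹ * 1⁻¹ = 1 := by group
        rw [this]; exact one_mem _⟩
      mul_mem' := by
        rintro u v ⟨hu, hu1⟩ ⟨hv, hv1⟩
        refine ⟨mul_mem hu hv, fun a ha => ?_⟩
        have h1 : a * v * a⁻¹ ∈ X₁ := (mem_normalizer_iff.1 (hX1n (hAH ha)) _).1 hv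
        have h2 := (hEe.mono hX1E).1 u⁻¹ (inv_mem hu) (a * v * a⁻¹ * v⁻¹) (mul_mem h1 (inv_mem hv))
        have h3 : a * (u * v) * a⁻¹ * (u * v)⁻¹ = (a * u * a⁻¹ * u⁻¹) * (a * v * a⁻¹ * v⁻¹) := by
          calc a * (u * v) * a⁻¹ * (u * v)⁻¹ = (a * u * a⁻¹) * ((a * v * a⁻¹ * v⁻¹) * u⁻¹) := by group
            _ = _ := by rw [← h2]; group
        rw [h3]
        exact mul_mem (hu1 a ha) (hv1 a ha)
      inv_mem' := by
        rintro u ⟨hu, hu1⟩
        refine ⟨inv_mem hu, fun a ha => ?_⟩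
        have h1 : a * u * a⁻¹ ∈ X₁ := (mem_normalizer_iff.1 (hX1n (hAH ha)) _).1 hu
        have h2 := (hEe.mono hX1E).1 (a * u * a⁻¹)⁻¹ (inv_mem h1) u hu
        have h3 : a * u⁻¹ * a⁻¹ * u⁻¹⁻¹ = (a * u * a⁻¹ * u⁻¹)⁻¹ := by
          calc a * u⁻¹ * a⁻¹ * u⁻¹⁻¹ = (a * u * a⁻¹)⁻¹ * u := by group
            _ = u * (a * u * a⁻¹)⁻¹ := h2
            _ = _ := by group
        rw [h3]
        exact inv_mem (hu1 a ha) }
  have hFX : F ≤ X₁ := fun u hu => hu.1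
  have hcF : X₁ ⊓ centralizer (A : Set G) ≤ F := by
    rintro u ⟨hu, huc⟩
    refine ⟨hu, fun a ha => ?_⟩
    rw [mem_centralizer_iff.1 huc a ha]
    have : u * a * a⁻¹ * u⁻¹ = 1 := by group
    rw [this]; exact one_mem _
  have hX2F : X₂ ≤ F := by
    intro u hu
    exact ⟨hX21 hu, fun a ha => mul_mem ((mem_normalizer_iff.1 (hX2n (hAH ha)) _).1 hu) (inv_mem hu)⟩
  have k1 := m.ineq1 hA hX1n hX2n hX1E hact hFX (fun u hu => hu.2)
  have k2 := Subgroup.relIndex_mul_relIndex _ _ _ hcF hFX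
  have k3 : (E ⊓ centralizer (A : Set G)).relIndex X₁ ≤ α ^ 2 := by
    rw [← hq1]
    exact Subgroup.relIndex_le_of_le_right hX1E (relIndex_ne_zero' _ _)
  have k4 : (X₁ ⊓ centralizer (A : Set G)).relIndex F = 1 := by
    set z := (X₁ ⊓ centralizer (A : Set G)).relIndex F
    have hz : 0 < z := Nat.pos_of_ne_zero (relIndex_ne_zero' _ _)
    have hα2 : 0 < α ^ 2 := by positivity
    by_contra hz1
    have hz2 : 2 ≤ z := by omega
    have : 2 * α ^ 2 ≤ α ^ 2 := by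
      calc 2 * α ^ 2 ≤ z * F.relIndex X₁ := Nat.mul_le_mul hz2 k1
        _ = (E ⊓ centralizer (A : Set G)).relIndex X₁ := by rw [k2, j2]
        _ ≤ α ^ 2 := k3
    omega
  have k5 := Subgroup.relIndex_eq_one.1 k4
  refine ⟨X₁, X₂, hX1E, hX21, hX1n, hX2n, hact, fun u hu => (k5 (hX2F hu)).2, fun u hu h => (k5 ⟨hu, h⟩).2,
    ?_, ?_⟩
  · intro e he
    obtain ⟨c, hc, x, hx, hcx⟩ := (H33.mem_sup_left_norm hCEn).1 (by rw [sup_comm]; exact hle he)
    exact ⟨x, hx, c, hc, by rw [hcx]; exact hEe.1 c hc.1 x (hX1E hx)⟩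
  · intro Y h2Y hY1 hYn
    by_cases hne : Y = X₁
    · exact Or.inr hne
    · exact Or.inl (Subgroup.eq_of_le_of_card_ge h2Y (hX2m Y ⟨hY1, hYn, hne⟩)).symm

end MC

end

end Cfsg.Agent.H62
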