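import Cfsg.Agent.H62.W8

set_option autoImplicit false
set_option linter.style.haveILetI false
set_option linter.unusedSectionVars false
set_option linter.unusedVariables false

/-!
Theorem W.
-/

namespace Cfsg.Agent.H62

open Subgroup Cfsg
open H33 (cj mem_cj conj_mem_cj cj_mul cj_mono IsSyl mem_norm_iff)
open H34 (maxEA fixedBy)

universe u

theorem exists_oddcore {M : Type*} [Group M] [Finite M] {Γ : Subgroup M} (hs : Group.IsSolvable Γ)
    (h2 : ∀ R ≤ Γ, IsPGroup 2 R → Γ ≤ normalizer (R : Set M) → R = ⊥) :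
    ∃ N ≤ Γ, Odd (Nat.card N) ∧ Γ ≤ normalizer (N : Set M) ∧ Γ ⊓ centralizer (N : Set M) ≤ N := by
  haveI : Fact (Nat.Prime 2) := ⟨Nat.prime_two⟩
  have hcore : pCore 2 Γ = ⊥ := by
    have h3 := h2 (o2 Γ) (o2_le Γ) (isPGroup_o2 Γ) (norm_o2 Γ)
    unfold o2 at h3
    rwa [Subgroup.map_eq_bot_iff_of_injective _ Γ.subtype_injective] at h3
  have h4 := H11.centralizer_pPrimeCore_le (ZJ.isPSolvable_of_isSolvable (G := Γ) 2 hs) hcore
  refine ⟨(pPrimeCore 2 Γ).map Γ.subtype, map_subtype_le _, ?_, ?_, ?_⟩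
  · rw [Subgroup.card_map_of_injective Γ.subtype_injective]
    exact Nat.coprime_two_right.1 (Solv.pPrimeCore_card_coprime 2)
  · have hn : (pPrimeCore 2 Γ).Normal := inferInstance
    intro g hg
    apply H33.mem_norm_of_le
    rw [H33.cj_le_iff]
    rintro _ ⟨z, hz, rfl⟩
    exact ⟨(⟨g, hg⟩ : Γ) * z * (⟨g, hg⟩ : Γ)⁻¹, hn.conj_mem z hz _, rfl⟩
  · rintro g ⟨hg, hgc⟩
    refine ⟨⟨g, hg⟩, h4 (mem_centralizer_iff.2 ?_), rfl⟩
    intro z hz
    exact Subtype.ext (mem_centralizer_iff.1 hgc (z : M) ⟨z, hz, rfl⟩)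

variable {G : Type u} [Group G]

/-- elements of `N(E)` acting trivially on `E/X` -/
def CX (E X : Subgroup G) : Subgroup G where
  carrier := {g | g ∈ normalizer (E : Set G) ∧ ∀ e ∈ E, g * e * g⁻¹ * e⁻¹ ∈ X}
  one_mem' := ⟨one_mem _, fun e _ => by
    have : 1 * e * 1⁻¹ * e⁻¹ = 1 := by group
    rw [this]; exact one_mem _⟩
  mul_mem' := by
    rintro g h ⟨hg, hg1⟩ ⟨hh, hh1⟩
    refine ⟨mul_mem hg hh, fun e he => ?_⟩
    have h1 := hg1 _ ((mem_normalizer_iff.1 hh e).1 he)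
    have h2 : g * h * e * (g * h)⁻¹ * e⁻¹ = (g * (h * e * h⁻¹) * g⁻¹ * (h * e * h⁻¹)⁻¹) * (h * e * h⁻¹ * e⁻¹) := by
      group
    rw [h2]
    exact mul_mem h1 (hh1 e he)
  inv_mem' := by
    rintro g ⟨hg, hg1⟩
    refine ⟨inv_mem hg, fun e he => ?_⟩
    have he' : g⁻¹ * e * g ∈ E := (mem_normalizer_iff''.1 hg e).1 he
    have h1 := hg1 _ he'
    have h2 : g⁻¹ * e * g⁻¹⁻¹ * e⁻¹ = (g * (g⁻¹ * e * g) * g⁻¹ * (g⁻¹ * e * g)⁻¹)⁻¹ := by group
    rw [h2]
    exact inv_mem h1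

section

variable [Finite G]

theorem norm_CX {E X : Subgroup G} {x : G} (h1 : x ∈ normalizer (E : Set G)) (h2 : x ∈ normalizer (X : Set G)) :
    x ∈ normalizer (CX E X : Set G) := by
  apply H33.mem_norm_of_le
  rw [H33.cj_le_iff]
  rintro g ⟨hg, hg1⟩
  refine ⟨mul_mem (mul_mem h1 hg) (inv_mem h1), fun e he => ?_⟩
  have h3 := hg1 _ ((mem_normalizer_iff''.1 h1 e).1 he)
  have h4 : x * g * x⁻¹ * e * (x * g * x⁻¹)⁻¹ * e⁻¹ = x * (g * (x⁻¹ * e * x) * g⁻¹ * (x⁻¹ * e * x)⁻¹) * x⁻¹ := by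
    group
  rw [h4]
  exact (mem_normalizer_iff.1 h2 _).1 h3

/-- irreducibility: normal 2-subgroups of the image are trivial -/
theorem irr_two {H X₁ X₂ : Subgroup G} (h1 : H ≤ normalizer (X₁ : Set G))
    (h21 : X₂ ≤ X₁) (hne : X₁ ≠ X₂)
    (hirr : ∀ Y : Subgroup G, X₂ ≤ Y → Y ≤ X₁ → H ≤ normalizer (Y : Set G) → Y = X₂ ∨ Y = X₁)
    {W : Type u} [CommGroup W] [Finite W] {π : X₁ →* W} {φ : H →* MulAut W}
    (hπ : Function.Surjective π) (hk : ∀ u : X₁, π u = 1 ↔ (u : G) ∈ X₂) (hW : ∀ w : W, w * w = 1)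
    (hφ : ∀ (h : H) (u v : X₁), (v : G) = h * u * (h : G)⁻¹ → φ h (π u) = π v)
    {R : Subgroup (MulAut W)} (hR : IsPGroup 2 R) (hn : ∀ h, φ h ∈ normalizer (R : Set (MulAut W))) : R = ⊥ := by
  -- fixed points
  let F : Subgroup W :=
    { carrier := {w | ∀ r ∈ R, r w = w}
      one_mem' := fun r _ => map_one r
      mul_mem' := fun ha hb r hr => by rw [map_mul, ha r hr, hb r hr]
      inv_mem' := fun ha r hr => by rw [map_inv, ha r hr] }
  have hFφ : ∀ h : H, ∀ w ∈ F, φ h w ∈ F := by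
    intro h w hw r hr
    have h3 : (φ h)⁻¹ * r * φ h ∈ R := (mem_normalizer_iff''.1 (hn h) r).1 hr
    have h4 := hw _ h3
    have h5 : r (φ h w) = φ h (((φ h)⁻¹ * r * φ h) w) := by
      rw [← MulAut.mul_apply, ← MulAut.mul_apply]
      congr 1
      group
    rw [h5, h4]
  have hFne : F ≠ ⊥ := by
    have htop : (⊤ : Subgroup W) ≠ ⊥ := by
      intro h
      apply hne
      apply le_antisymm _ h21
      intro u hu
      rw [← hk ⟨u, hu⟩]
      have : π ⟨u, hu⟩ ∈ (⊤ : Subgroup W) := mem_top _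
      rwa [h, mem_bot] at this
    obtain ⟨d, -, hd1, hd⟩ := exists_fixed_of_two_group hW R hR ⊤ htop (fun b _ d _ => mem_top _)
    intro h
    have h3 : d ∈ F := hd
    rw [h, mem_bot] at h3
    exact hd1 h3
  set Y : Subgroup G := (F.comap π).map X₁.subtype with hY
  have hYm : ∀ u (hu : u ∈ X₁), u ∈ Y ↔ π ⟨u, hu⟩ ∈ F := by
    intro u hu
    constructor
    · rintro ⟨v, hv, hvu⟩
      have : v = ⟨u, hu⟩ := Subtype.ext hvu
      rw [← this]; exact hv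
    · intro h; exact ⟨⟨u, hu⟩, h, rfl⟩
  have hY1 : Y ≤ X₁ := map_subtype_le _
  rcases hirr Y (by
      intro u hu
      rw [hYm u (h21 hu), (hk _).2 hu]
      exact F.one_mem) hY1 (by
      intro g hg
      apply H33.mem_norm_of_le
      rw [H33.cj_le_iff]
      intro u hu
      have hu1 := hY1 hu
      have hv : g * u * g⁻¹ ∈ X₁ := (mem_normalizer_iff.1 (h1 hg) u).1 hu1
      rw [hYm _ hv, ← hφ ⟨g, hg⟩ ⟨u, hu1⟩ ⟨_, hv⟩ rfl]
      exact hFφ _ _ ((hYm u hu1).1 hu)) with h | h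
  · exfalso
    apply hFne
    rw [eq_bot_iff]
    intro w hw
    obtain ⟨u, rfl⟩ := hπ w
    have h3 : (u : G) ∈ Y := (hYm u u.2).2 hw
    rw [h] at h3
    rw [mem_bot]
    exact (hk u).2 h3
  · rw [eq_bot_iff]
    intro r hr
    rw [mem_bot]
    ext w
    obtain ⟨u, rfl⟩ := hπ w
    have h3 : (u : G) ∈ Y := by rw [h]; exact u.2
    exact (hYm u u.2).1 h3 r hr

theorem cent_sup {A B : Subgroup G} {x : G} (h1 : x ∈ centralizer (A : Set G)) (h2 : x ∈ centralizer (B : Set G)) :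
    x ∈ centralizer ((A ⊔ B : Subgroup G) : Set G) := by
  have : A ⊔ B ≤ centralizer {x} := by
    refine sup_le ?_ ?_
    · intro w hw; rw [mem_centralizer_singleton_iff]; exact mem_centralizer_iff.1 h1 w hw
    · intro w hw; rw [mem_centralizer_singleton_iff]; exact mem_centralizer_iff.1 h2 w hw
  rw [mem_centralizer_iff]
  intro w hw
  exact mem_centralizer_singleton_iff.1 (this hw)

theorem MC.false {T H V : Subgroup G} (m : MC T H V) : False := by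
  classical
  haveI : Fact (Nat.Prime 2) := ⟨Nat.prime_two⟩
  obtain ⟨A, hA, hAn⟩ := m.exists_A
  obtain ⟨q1, q2, q3⟩ := m.eqs hA
  obtain ⟨X₁, X₂, hX1E, hX21, hX1n, hX2n, hact, hX2A, hfix, hdec, hirr⟩ := m.exists_X hA hAn
  obtain ⟨W, iW1, iW2, π, φ, hπ, hk, hW, hφ⟩ := exists_sec hX1n hX2n (m.eaE.mono hX1E)
  have hAe : EA A := EA_iff.2 hA.2.1
  have hAH : A ≤ H := hA.1.trans m.loc.syl.1
  have hEe : EA (ncl H V) := m.eaE
  have hEn : H ≤ normalizer (ncl H V : Set G) := norm_ncl H V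
  have hsqE := m.sqE
  have hX12 : X₁ ≠ X₂ := by
    intro h
    obtain ⟨y, hy, hyo, u, hu, huy⟩ := hact
    apply huy
    rw [h] at hu
    exact mul_mem ((mem_normalizer_iff.1 (hX2n hy) _).1 hu) (inv_mem hu)
  set E := ncl H V with hE
  set α := (A ⊓ o2 H).relIndex A with hα
  have hα2 : 2 ≤ α := by
    have h0 : 0 < α := Nat.pos_of_ne_zero (relIndex_ne_zero' _ _)
    have h1 : α ≠ 1 := by
      intro h
      apply hAn
      exact (Subgroup.relIndex_eq_one.1 h).trans inf_le_right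
    omega
  -- translation between `φ` and commutators
  have hφ1 : ∀ (g : H) (u : G) (hu : u ∈ X₁), φ g (π ⟨u, hu⟩) = π ⟨u, hu⟩ ↔ (g : G) * u * (g : G)⁻¹ * u⁻¹ ∈ X₂ := by
    intro g u hu
    have hv : (g : G) * u * (g : G)⁻¹ ∈ X₁ := (mem_normalizer_iff.1 (hX1n g.2) u).1 hu
    rw [hφ g ⟨u, hu⟩ ⟨_, hv⟩ rfl, ← mul_inv_eq_one, ← map_inv, ← map_mul, hk]
    rfl
  have hφker : ∀ g : H, (∀ u ∈ X₁, (g : G) * u * (g : G)⁻¹ * u⁻¹ ∈ X₂) → φ g = 1 := by
    intro g hg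
    ext w
    obtain ⟨u, rfl⟩ := hπ w
    exact (hφ1 g u u.2).2 (hg u u.2)
  have hkφ : ∀ g : H, φ g = 1 → ∀ u ∈ X₁, (g : G) * u * (g : G)⁻¹ * u⁻¹ ∈ X₂ := by
    intro g hg u hu
    rw [← hφ1 g u hu, hg]; rfl
  -- `O_2(H)` acts trivially
  have hQ : ∀ q ∈ o2 H, ∀ u ∈ X₁, q * u * q⁻¹ * u⁻¹ ∈ X₂ := by
    have h1 := irr_two hX1n hX21 hX12 hirr hπ hk hW hφ (R := ((o2 H).subgroupOf H).map φ)
      (((isPGroup_o2 H).comap_of_injective H.subtype H.subtype_injective).map φ) (by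
        intro h
        apply H33.mem_norm_of_le
        rw [H33.cj_le_iff]
        rintro _ ⟨z, hz, rfl⟩
        refine ⟨h * z * h⁻¹, ?_, by rw [map_mul, map_mul, map_inv]⟩
        exact (mem_normalizer_iff.1 (norm_o2 H h.2) _).1 hz)
    intro q hq
    apply hkφ ⟨q, o2_le H hq⟩
    rw [← mem_bot, ← h1]
    exact ⟨_, mem_subgroupOf.2 hq, rfl⟩
  -- the odd core of the image
  obtain ⟨N, hNΓ, hNo, hNn, hNc⟩ := exists_oddcore (Γ := φ.range)
    (by haveI := m.loc.solv; exact Group.isSolvable_of_surjective φ.rangeRestrict_surjective)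
    (by
      intro R _ hR hRn
      exact irr_two hX1n hX21 hX12 hirr hπ hk hW hφ hR (fun h => hRn ⟨h, rfl⟩))
  have hNodd : ∀ y ∈ N, Odd (orderOf y) := fun y hy => hNo.of_dvd_nat (Subgroup.orderOf_dvd_natCard N hy)
  set Ah : Subgroup (MulAut W) := (A.subgroupOf H).map φ with hAh
  have hAhm : ∀ a (ha : a ∈ A), φ ⟨a, hAH ha⟩ ∈ Ah := fun a ha => ⟨_, mem_subgroupOf.2 ha, rfl⟩
  have hAhEA : EA Ah := by
    constructor
    · rintro _ ⟨a, ha, rfl⟩ _ ⟨b, hb, rfl⟩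
      rw [← map_mul, ← map_mul]
      congr 1
      exact Subtype.ext (hAe.1 _ ha _ hb)
    · rintro _ ⟨a, ha, rfl⟩
      rw [← map_mul]
      have : a * a = 1 := Subtype.ext (hAe.2 _ ha)
      rw [this, map_one]
  have hAhΓ : Ah ≤ φ.range := by
    rintro _ ⟨a, ha, rfl⟩; exact ⟨a, rfl⟩
  obtain ⟨hh, hhN, hreg⟩ := regular_orbit hAhEA (hAhΓ.trans hNn) hNo
  have hreg' : ∀ a ∈ Ah, a * hh = hh * a → a = 1 := by
    intro a ha hc
    have h1 := hNc ⟨hAhΓ ha, hreg a ha hc⟩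
    by_contra hne
    exact pow_two_pow_ne_one hne (hNodd a h1) 1 (by rw [pow_one, _root_.sq]; exact hAhEA.2 a ha)
  obtain ⟨h, hhh⟩ := hNΓ hhN
  -- the subgroup `L`
  set AQ := A ⊓ o2 H with hAQ
  set L := A ⊔ cj (h : G) A with hL
  have hAL : A ≤ L := le_sup_left
  have hA'L : cj (h : G) A ≤ L := le_sup_right
  have hA'H : cj (h : G) A ≤ H := by
    have := cj_mono (g := (h : G)) hAH
    rwa [mem_norm_iff.1 (le_normalizer h.2)] at this
  have hLH : L ≤ H := sup_le hAH hA'H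
  have hAQA : AQ ≤ A := inf_le_left
  set QL := ncl L (AQ ⊔ cj (h : G) AQ) with hQL
  have hQLL : QL ≤ L := ncl_le_self (sup_le (hAQA.trans hAL) ((cj_mono hAQA).trans hA'L))
  have hQLn : L ≤ normalizer (QL : Set G) := norm_ncl _ _
  have hAQQL : AQ ≤ QL := le_sup_left.trans (le_ncl _ _)
  have hQLo : QL ≤ o2 H := by
    apply ncl_le_of_norm (hLH.trans (norm_o2 H))
    refine sup_le inf_le_right ?_
    have := cj_mono (g := (h : G)) (inf_le_right : AQ ≤ o2 H)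
    rwa [mem_norm_iff.1 (norm_o2 H h.2)] at this
  -- `L` centralizes `X₂`
  have hLX2 : L ≤ centralizer (X₂ : Set G) := by
    refine sup_le ?_ ?_
    · exact le_centralizer_iff.1 hX2A
    · have h1 := cj_mono (g := (h : G)) (le_centralizer_iff.1 hX2A)
      rwa [H33.cj_centralizer, mem_norm_iff.1 (hX2n h.2)] at h1
  -- `[E, QL] ≤ X₂`
  have hAQX : AQ ≤ CX E X₂ := by
    intro q hq
    refine ⟨hEn (hAH hq.1), fun e he => ?_⟩
    obtain ⟨x, hx, c, hc, rfl⟩ := hdec e he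
    have h1 : q * c = c * q := mem_centralizer_iff.1 hc.2 q hq.1
    have h2 : q * (x * c) * q⁻¹ * (x * c)⁻¹ = q * x * q⁻¹ * x⁻¹ := by
      calc q * (x * c) * q⁻¹ * (x * c)⁻¹ = q * x * (c * q⁻¹) * c⁻¹ * x⁻¹ := by group
        _ = q * x * (q⁻¹ * (q * c) * q⁻¹) * c⁻¹ * x⁻¹ := by group
        _ = _ := by rw [h1]; group
    rw [h2]
    exact hQ q hq.2 x hx
  have hQLX : QL ≤ CX E X₂ := by
    apply ncl_le_of_norm
    · intro x hx
      exact norm_CX (hEn (hLH hx)) (hX2n (hLH hx))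
    · refine sup_le hAQX ?_
      have h1 := cj_mono (g := (h : G)) hAQX
      rwa [mem_norm_iff.1 (norm_CX (hEn h.2) (hX2n h.2))] at h1
  have hX2E : X₂ ≤ E := hX21.trans hX1E
  -- `QL` acts quadratically
  have hquad : Quad QL E := by
    have hcomp : ∀ a ∈ QL, ∀ b ∈ QL, ∀ e ∈ E, a * b * e * (a * b)⁻¹ =
        (b * e * b⁻¹ * e⁻¹) * ((a * e * a⁻¹ * e⁻¹) * e) := by
      intro a ha b hb e he
      have h1 := (hQLX hb).2 e he
      have h2 := mem_centralizer_iff.1 (hLX2 (hQLL ha)) _ h1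
      calc a * b * e * (a * b)⁻¹ = (a * (b * e * b⁻¹ * e⁻¹)) * (e * a⁻¹) := by group
        _ = (b * e * b⁻¹ * e⁻¹) * a * (e * a⁻¹) := by rw [h2]
        _ = _ := by group
    constructor
    · intro a ha b hb
      rw [mem_centralizer_iff]
      intro e he
      have hba : b * a ∈ H := H.mul_mem (hLH (hQLL hb)) (hLH (hQLL ha))
      have he' : (b * a)⁻¹ * e * (b * a) ∈ E := (mem_normalizer_iff''.1 (hEn hba) e).1 he
      set e' := (b * a)⁻¹ * e * (b * a) with he'd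
      have h1 := hcomp a ha b hb e' he'
      have h2 := hcomp b hb a ha e' he'
      have h3 := hEe.1 _ (hX2E ((hQLX ha).2 e' he')) _ (hX2E ((hQLX hb).2 e' he'))
      have h4 : a * b * e' * (a * b)⁻¹ = b * a * e' * (b * a)⁻¹ := by
        rw [h1, h2]
        calc (b * e' * b⁻¹ * e'⁻¹) * ((a * e' * a⁻¹ * e'⁻¹) * e') =
              (b * e' * b⁻¹ * e'⁻¹) * (a * e' * a⁻¹ * e'⁻¹) * e' := (mul_assoc _ _ _).symm
          _ = (a * e' * a⁻¹ * e'⁻¹) * (b * e' * b⁻¹ * e'⁻¹) * e' := by rw [h3]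
          _ = _ := mul_assoc _ _ _
      have h5 : b * a * e' * (b * a)⁻¹ = e := by rw [he'd]; group
      have h6 : a * b * a⁻¹ * b⁻¹ * e * (a * b * a⁻¹ * b⁻¹)⁻¹ = e := by
        calc a * b * a⁻¹ * b⁻¹ * e * (a * b * a⁻¹ * b⁻¹)⁻¹ = a * b * e' * (a * b)⁻¹ := by rw [he'd]; group
          _ = e := by rw [h4, h5]
      exact (mul_inv_eq_iff_eq_mul.1 h6).symm
    · intro a ha
      rw [mem_centralizer_iff]
      intro e he
      have h1 := hcomp a ha a ha e he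
      have h2 := hEe.2 _ (hX2E ((hQLX ha).2 e he))
      rw [← mul_assoc, h2, one_mul] at h1
      exact (mul_inv_eq_iff_eq_mul.1 h1).symm
  -- index bounds
  have hb1 : (QL ⊓ centralizer (E : Set G)).relIndex QL ≤ α ^ 2 := by
    have h1 := hsqE QL hQLo hquad
    have h2 : (E ⊓ centralizer (QL : Set G)).relIndex E ≤ (α ^ 2) * (α ^ 2) := by
      have h3 : (E ⊓ centralizer (A : Set G)) ⊓ (E ⊓ centralizer (cj (h : G) A : Set G)) ≤
          E ⊓ centralizer (QL : Set G) := by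
        rintro e ⟨⟨he, h4⟩, -, h5⟩
        exact ⟨he, centralizer_le hQLL (cent_sup h4 h5)⟩
      have h4 : (E ⊓ centralizer (cj (h : G) A : Set G)).relIndex E = α ^ 2 := by
        have h5 : cj (h : G) E = E := mem_norm_iff.1 (hEn h.2)
        rw [← q1, ← H33.relIndex_cj (h : G) (E ⊓ centralizer (A : Set G)) E, cj_inf_cent, h5]
      refine (Subgroup.relIndex_le_of_le_left h3 (relIndex_ne_zero' _ _)).trans ?_
      refine (Subgroup.relIndex_inf_le).trans ?_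
      rw [q1, h4]
    have h3 : (QL ⊓ centralizer (E : Set G)).relIndex QL ^ 2 ≤ (α ^ 2) ^ 2 := by
      rw [_root_.sq (α ^ 2)]; exact h1.trans h2
    exact (Nat.pow_le_pow_iff_left (by norm_num)).1 h3
  set U2 := QL ⊓ centralizer (E : Set G) with hU2
  have hU2n : L ≤ normalizer (U2 : Set G) := by
    intro x hx
    exact H33.norm_inf (hQLn hx) (H33.norm_le_norm_cent _ (hEn (hLH hx)))
  have hLs : Group.IsSolvable L := by
    haveI := m.loc.solv
    exact Group.isSolvable_of_isSolvable_injective (f := Subgroup.inclusion hLH) (Subgroup.inclusion_injective hLH)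
  have hLf : ¬ Involves (Equiv.Perm (Fin 3)) L := by
    intro hf
    exact m.loc.free (H46.involves_of_injective hf (Subgroup.inclusion hLH) (Subgroup.inclusion_injective hLH))
  obtain ⟨D, hDL, hDn, hD, hDi⟩ := gs_sec hLs hLf hQLn hU2n
    (fun x hx y hy => ⟨QL.mul_mem (QL.mul_mem (QL.mul_mem hx hy) (QL.inv_mem hx)) (QL.inv_mem hy), hquad.1 x hx y hy⟩)
    (fun x hx => ⟨QL.mul_mem hx hx, hquad.2 x hx⟩) (A := A) hAL
    (fun a ha b hb u hu => by
      rw [hAe.1 a ha b hb, mul_inv_cancel]; exact one_mem _)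
    (fun a ha u hu => by
      rw [hAe.2 a ha]
      have : 1 * u * 1⁻¹ * u⁻¹ = 1 := by group
      rw [this]; exact one_mem _)
  have hAQn : AQ ≤ normalizer (U2 : Set G) := (hAQQL.trans hQLL).trans hU2n
  have hD2 := hDi (AQ ⊔ U2) (sup_le hAQQL inf_le_left) (by
    intro u hu a ha
    obtain ⟨q, hq, c, hc, rfl⟩ := (H33.mem_sup_right_norm hAQn).1 hu
    have h1 : a * q = q * a := hAe.1 a ha q hq.1
    have h2 : a * c * a⁻¹ ∈ U2 := (mem_normalizer_iff.1 (hU2n (hAL ha)) c).1 hc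
    have h3 : a * (q * c) * a⁻¹ * (q * c)⁻¹ = q * ((a * c * a⁻¹) * c⁻¹) * q⁻¹ := by
      calc a * (q * c) * a⁻¹ * (q * c)⁻¹ = (a * q) * c * a⁻¹ * c⁻¹ * q⁻¹ := by group
        _ = _ := by rw [h1]; group
    rw [h3]
    exact (mem_normalizer_iff.1 (hAQn hq) _).1 (mul_mem h2 (inv_mem hc)))
  have hb2 : (AQ ⊔ U2).relIndex QL ≤ α := by
    have h1 := Cop.relIndex_sup_eq hAQn
    have h2 : U2.relIndex AQ = α := by
      rw [← q2, ← Subgroup.inf_relIndex_right U2 AQ]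
      congr 1
      ext x
      constructor
      · rintro ⟨⟨-, hx⟩, hxA⟩; exact ⟨hxA.1, hx⟩
      · rintro ⟨hxA, hx⟩
        have h3 : x ∈ AQ := ⟨hxA, m.cent_le ⟨hA.1 hxA, hx⟩⟩
        exact ⟨⟨hAQQL h3, hx⟩, h3⟩
    rw [h2] at h1
    have h3 := Subgroup.relIndex_mul_relIndex U2 (AQ ⊔ U2) QL le_sup_right (sup_le hAQQL inf_le_left)
    rw [h1] at h3
    have h4 : α * (AQ ⊔ U2).relIndex QL ≤ α * α := by rw [h3, ← _root_.sq]; exact hb1
    exact Nat.le_of_mul_le_mul_left h4 (by omega)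
  -- an element of `A ∩ D` outside `O_2(H)`
  obtain ⟨a, haA, haD, haQ⟩ : ∃ a ∈ A, a ∈ D ∧ a ∉ o2 H := by
    by_contra hcon
    push Not at hcon
    have h1 : A ⊓ D ≤ A ⊓ o2 H := fun x hx => ⟨hx.1, hcon x hx.1 hx.2⟩
    have h2 : α ≤ D.relIndex A := by
      rw [← Subgroup.inf_relIndex_left A D]
      exact Subgroup.relIndex_le_of_le_left h1 (relIndex_ne_zero' _ _)
    have h3 : α ^ 2 ≤ α := (Nat.pow_le_pow_left h2 2).trans (hD2.trans hb2)
    nlinarith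
  set ah := φ ⟨a, hAH haA⟩ with hah
  have hahA : ah ∈ Ah := hAhm a haA
  have hah1 : ah ≠ 1 := by
    intro h1
    apply haQ
    have h2 := m.act_le hX1n hact (D := φ.ker.map H.subtype) (map_subtype_le _) (by
        intro x hx
        apply H33.mem_norm_of_le
        rw [H33.cj_le_iff]
        rintro _ ⟨z, hz, rfl⟩
        exact ⟨(⟨x, hx⟩ : H) * z * (⟨x, hx⟩ : H)⁻¹, (MonoidHom.normal_ker φ).conj_mem z hz _, rfl⟩) (by
        rintro _ ⟨z, hz, rfl⟩
        refine ⟨0, ?_⟩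
        rw [pow_zero, pow_one]
        exact hkφ z hz)
    exact h2 ⟨hA.1 haA, ⟨a, hAH haA⟩, h1, rfl⟩
  have hahc : ah * hh ≠ hh * ah := fun hc => hah1 (hreg' ah hahA hc)
  have hahah : ah * ah = 1 := hAhEA.2 ah hahA
  have hahi : ah⁻¹ = ah := inv_eq_of_mul_eq_one_left hahah
  have haL : a ∈ L := hAL haA
  have hhaL : (h : G) * a⁻¹ * (h : G)⁻¹ ∈ L := hA'L (conj_mem_cj (inv_mem haA))
  -- the inverted element
  set u := a * ((h : G) * a⁻¹ * (h : G)⁻¹) with hu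
  have huL : u ∈ L := mul_mem haL hhaL
  set uh := ah * hh * ah⁻¹ * hh⁻¹ with huh
  have hφu : φ ⟨u, hLH huL⟩ = uh := by
    have h1 : (⟨u, hLH huL⟩ : H) = ⟨a, hAH haA⟩ * (h * (⟨a, hAH haA⟩ : H)⁻¹ * h⁻¹) := Subtype.ext rfl
    rw [h1, map_mul, map_mul, map_mul, map_inv, map_inv, hhh, huh, ← hah]
    group
  have huhN : uh ∈ N := mul_mem ((mem_normalizer_iff.1 (hNn (hAhΓ hahA)) _).1 hhN) (inv_mem hhN)
  have huh1 : uh ≠ 1 := by
    intro h1
    apply hahc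
    have h2 : ah * hh * ah⁻¹ = hh := mul_inv_eq_one.1 h1
    exact mul_inv_eq_iff_eq_mul.1 h2
  have hahu : ah * uh * ah⁻¹ = uh⁻¹ := by
    rw [huh]
    simp only [hahi, mul_inv_rev, inv_inv]
    calc ah * (ah * hh * ah * hh⁻¹) * ah = (ah * ah) * (hh * ah * hh⁻¹ * ah) := by group
      _ = hh * (ah * (hh⁻¹ * ah)) := by rw [hahah]; group
  set w := a * u * a⁻¹ * u⁻¹ with hw
  have hwD : w ∈ D := by
    have h1 : u * a⁻¹ * u⁻¹ ∈ D := (mem_normalizer_iff.1 (hDn huL) _).1 (inv_mem haD)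
    have h2 : w = a * (u * a⁻¹ * u⁻¹) := by rw [hw]; group
    rw [h2]; exact mul_mem haD h1
  have hwL : w ∈ L := hDL hwD
  have hφw : φ ⟨w, hLH hwL⟩ = uh⁻¹ ^ 2 ^ 1 := by
    have h1 : (⟨w, hLH hwL⟩ : H) = ⟨a, hAH haA⟩ * ⟨u, hLH huL⟩ * (⟨a, hAH haA⟩ : H)⁻¹ * (⟨u, hLH huL⟩ : H)⁻¹ :=
      Subtype.ext rfl
    rw [h1, map_mul, map_mul, map_mul, map_inv, map_inv, hφu, ← hah, hahu, pow_one, _root_.sq]
  obtain ⟨k, hk2⟩ := hD w hwD
  set y := w ^ 2 ^ k with hy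
  have hyL : y ∈ L := pow_mem hwL _
  set yh := φ ⟨y, hLH hyL⟩ with hyh
  have hφy : yh = uh⁻¹ ^ 2 ^ (1 + k) := by
    have h1 : (⟨y, hLH hyL⟩ : H) = ⟨w, hLH hwL⟩ ^ 2 ^ k := Subtype.ext rfl
    rw [hyh, h1, map_pow, hφw, ← pow_mul, ← pow_add]
  have hyN : yh ∈ N := by rw [hφy]; exact pow_mem (inv_mem huhN) _
  have hy1 : yh ≠ 1 := by
    rw [hφy]
    exact pow_two_pow_ne_one (inv_ne_one.2 huh1) (by rw [orderOf_inv]; exact hNodd _ huhN) _
  have hahy : ah * yh * ah⁻¹ = yh⁻¹ := by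
    have h1 : ah * uh⁻¹ * ah⁻¹ = uh := by
      have := congrArg (·⁻¹) hahu
      simpa [mul_assoc] using this
    rw [hφy, ← conj_pow, h1, inv_pow, inv_inv]
  -- conjugates of `A` by `y` centralize `C_E(A)`
  have hyA : cj y A ≤ centralizer ((E ⊓ centralizer (A : Set G) : Subgroup G) : Set G) := by
    have h1 : E ⊓ centralizer (A : Set G) ≤ cj y (E ⊓ centralizer (A : Set G)) := by
      rw [← q3, cj_inf_cent, mem_norm_iff.1 (hEn (hLH hyL))]
      rintro e ⟨he, hec⟩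
      refine ⟨he, mem_centralizer_iff.2 ?_⟩
      intro q' hq'
      obtain ⟨q, hq, rfl⟩ : ∃ q ∈ AQ, y * q * y⁻¹ = q' := ⟨y⁻¹ * q' * y, mem_cj.1 hq', by group⟩
      have h2 := (hk2 q (hAQQL hq)).2
      have h3 : Commute (y * q * y⁻¹ * q⁻¹) e := (mem_centralizer_iff.1 h2 e he).symm
      have h4 : Commute q e := mem_centralizer_iff.1 hec q hq
      have h5 := h3.mul_left h4
      have h6 : y * q * y⁻¹ * q⁻¹ * q = y * q * y⁻¹ := by group
      rw [h6] at h5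
      exact h5
    have h2 : A ≤ centralizer ((E ⊓ centralizer (A : Set G) : Subgroup G) : Set G) :=
      le_centralizer_iff.1 inf_le_right
    have h3 := cj_mono (g := y) h2
    rw [H33.cj_centralizer] at h3
    exact h3.trans (centralizer_le h1)
  -- the group `R`
  set R0 : Subgroup H := (centralizer ((E ⊓ centralizer (A : Set G) : Subgroup G) : Set G)).subgroupOf H with hR0
  set R : Subgroup (MulAut W) := R0.map φ ⊓ N with hR
  have hAR0 : Ah ≤ R0.map φ := by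
    apply Subgroup.map_mono
    intro x hx
    exact (le_centralizer_iff.1 (inf_le_right : E ⊓ centralizer (A : Set G) ≤ _)) hx
  have hRbot : R = ⊥ := by
    apply eq_bot_of_fixed hW (A := Ah) hAhEA.isPGroup
      (hNo.of_dvd_nat (Subgroup.card_dvd_of_le inf_le_right))
    · intro x hx
      exact H33.norm_inf (le_normalizer (hAR0 hx)) (hNn (hAhΓ hx))
    · intro w' hw' r hr
      obtain ⟨v, rfl⟩ := hπ w'
      have h1 : (v : G) ∈ centralizer (A : Set G) := by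
        apply hfix v v.2
        intro b hb
        exact (hφ1 ⟨b, hAH hb⟩ v v.2).1 (hw' _ (hAhm b hb))
      obtain ⟨⟨g, hg, rfl⟩, -⟩ := hr
      have h2 : (v : G) * g = g * v := mem_centralizer_iff.1 (mem_subgroupOf.1 hg) v ⟨hX1E v.2, h1⟩
      apply (hφ1 g v v.2).2
      rw [← h2]
      have : (v : G) * g * (g : G)⁻¹ * (v : G)⁻¹ = 1 := by group
      rw [this]; exact one_mem _
  have hyR : yh * (ah * yh⁻¹ * ah⁻¹) ∈ R := by
    refine ⟨?_, N.mul_mem hyN ((mem_normalizer_iff.1 (hNn (hAhΓ hahA)) _).1 (N.inv_mem hyN))⟩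
    have h1 : yh * ah * yh⁻¹ ∈ R0.map φ := by
      refine ⟨⟨y, hLH hyL⟩ * ⟨a, hAH haA⟩ * (⟨y, hLH hyL⟩ : H)⁻¹, ?_, by rw [map_mul, map_mul, map_inv]⟩
      exact mem_subgroupOf.2 (hyA (conj_mem_cj haA))
    have h2 : yh * (ah * yh⁻¹ * ah⁻¹) = (yh * ah * yh⁻¹) * ah⁻¹ := by group
    rw [h2]
    exact (R0.map φ).mul_mem h1 ((R0.map φ).inv_mem (hAR0 hahA))
  rw [hRbot, mem_bot] at hyR
  have h1 : ah * yh⁻¹ * ah⁻¹ = yh := by
    have := congrArg (·⁻¹) hahy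
    simpa [mul_assoc] using this
  rw [h1] at hyR
  exact pow_two_pow_ne_one hy1 (hNodd _ hyN) 1 (by rw [pow_one, _root_.sq]; exact hyR)

end

end Cfsg.Agent.H62
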